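import Cfsg.Agent.Lib.Mod.DSer
import Cfsg.Agent.Lib.Mod.Clifford
import Cfsg.Agent.Lib.PGrp.Basic
import Cfsg.Agent.Lib.Core.Basic

/-!
# The chain `[V, S, S', S'', …]` of a `p`-group `S` acting on a module
-/

set_option autoImplicit false

namespace Cfsg.Agent.Reg.TwoDer

open Module Subgroup Cfsg.Agent.Mod
open scoped commutatorElement

variable {k G V : Type*} [Field k] [Group G] [AddCommGroup V] [Module k V]
  {ρ : Representation k G V} {W X : Submodule k V} {H S : Subgroup G}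

variable (ρ W H) in
/-- `[W, H]` -/
def cm : Submodule k V := Submodule.span k {v | ∃ h ∈ H, ∃ w ∈ W, v = ρ h w - w}

theorem sub_mem_cm {h : G} (hh : h ∈ H) {w : V} (hw : w ∈ W) : ρ h w - w ∈ cm ρ W H :=
  Submodule.subset_span ⟨h, hh, w, hw, rfl⟩

theorem cm_le : cm ρ W H ≤ X ↔ ∀ h ∈ H, ∀ w ∈ W, ρ h w - w ∈ X :=
  ⟨fun e _ hh _ hw => e (sub_mem_cm hh hw),
    fun e => Submodule.span_le.2 (by rintro _ ⟨h, hh, w, hw, rfl⟩; exact e h hh w hw)⟩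

theorem cm_mono {K : Subgroup G} (h1 : W ≤ X) (h2 : H ≤ K) : cm ρ W H ≤ cm ρ X K :=
  cm_le.2 fun _ hh _ hw => sub_mem_cm (h2 hh) (h1 hw)

theorem cm_top_commutator_le : cm ρ ⊤ ⁅H, H⁆ ≤ cm ρ (cm ρ ⊤ H) H := by
  let K : Subgroup G :=
    { carrier := {g | ∀ v, ρ g v - v ∈ cm ρ (cm ρ ⊤ H) H}
      one_mem' := fun v => by simp
      mul_mem' := fun {a b} ha hb v => by
        simpa using add_mem (ha (ρ b v)) (hb v)
      inv_mem' := fun {a} ha v => by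
        simpa [← rho_mul_apply] using neg_mem (ha (ρ a⁻¹ v)) }
  have : ⁅H, H⁆ ≤ K := commutator_le.2 fun a ha b hb v => by
    have h1 := sub_mem (sub_mem_cm (ρ := ρ) ha (sub_mem_cm (ρ := ρ) hb (W := ⊤) (w := ρ (b * a)⁻¹ v) trivial))
      (sub_mem_cm hb (sub_mem_cm (ρ := ρ) ha (W := ⊤) (w := ρ (b * a)⁻¹ v) trivial))
    simp only [map_sub, ← rho_mul_apply] at h1
    rw [show b * (a * (b * a)⁻¹) = 1 by group, map_one, Module.End.one_apply,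
      show a * (b * (b * a)⁻¹) = ⁅a, b⁆ by simp only [commutatorElement_def]; group] at h1
    convert h1 using 1
    abel
  exact cm_le.2 fun h hh v _ => this hh v

variable (ρ W S) in
/-- `[W, S, S', …, S^{(t-1)}]` -/
def chain : ℕ → Submodule k V
  | 0 => W
  | t + 1 => cm ρ (chain t) (dser S t)

theorem chain_mono {T : Subgroup G} (h1 : W ≤ X) (h2 : S ≤ T) (t : ℕ) :
    chain ρ W S t ≤ chain ρ X T t := by
  induction t with
  | zero => exact h1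
  | succ t ih => exact cm_mono ih (dser_mono h2 t)

theorem cm_top_dser_le (t : ℕ) : cm ρ ⊤ (dser S t) ≤ chain ρ ⊤ S t := by
  induction t with
  | zero => exact le_top
  | succ t ih => exact cm_top_commutator_le.trans (cm_mono ih le_rfl)

theorem chain_le (hW : IsInv ρ S W) (t : ℕ) : chain ρ W S t ≤ W := by
  induction t with
  | zero => exact le_rfl
  | succ t ih => exact cm_le.2 fun h hh w hw => sub_mem (hW h (dser_le S t hh) w (ih hw)) (ih hw)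

theorem chain_le_sup {N : Submodule k V} {j : ℕ} (hN : IsInv ρ (dser S j) N)
    (h : W ≤ chain ρ X S j ⊔ N) (t : ℕ) : chain ρ W (dser S j) t ≤ chain ρ X S (j + t) ⊔ N := by
  induction t with
  | zero => exact h
  | succ t ih =>
    refine cm_le.2 fun h hh w hw => ?_
    obtain ⟨a, ha, b, hb, rfl⟩ := Submodule.mem_sup.1 (ih hw)
    rw [map_add, add_sub_add_comm]
    exact Submodule.add_mem_sup (sub_mem_cm (dser_add S j t ▸ hh :) ha)
      (sub_mem (hN h (dser_le _ t hh) b hb) hb)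

section

variable {G' V' Λ : Type*} [Group G'] [Group Λ] [AddCommGroup V'] [Module k V']
  {σ : Representation k G' V'} {α : Λ →* G} {β : Λ →* G'} {f : V' →ₗ[k] V}
  (h : ∀ x v, f (σ (β x) v) = ρ (α x) (f v))
include h

theorem map_cm_le (U : Submodule k V') (T : Subgroup Λ) :
    (cm σ U (T.map β)).map f ≤ cm ρ (U.map f) (T.map α) := by
  refine Submodule.map_le_iff_le_comap.2 (cm_le.2 ?_)
  rintro _ ⟨x, hx, rfl⟩ w hw
  rw [Submodule.mem_comap, map_sub, h]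
  exact sub_mem_cm (mem_map_of_mem α hx) ⟨w, hw, rfl⟩

theorem map_chain_le (U : Submodule k V') (T : Subgroup Λ) (t : ℕ) :
    (chain σ U (T.map β) t).map f ≤ chain ρ (U.map f) (T.map α) t := by
  induction t with
  | zero => exact le_rfl
  | succ t ih =>
    rw [chain, chain, ← map_dser, ← map_dser]
    exact (map_cm_le h _ _).trans (cm_mono ih le_rfl)

end

variable {p : ℕ} [hp : Fact p.Prime] [Finite G]

theorem exists_not_mem_commutator_mul {B : Subgroup G} (hB : IsPGroup p B) (h : ¬ B ≤ H) :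
    ∃ g ∈ B, ∀ a ∈ ⁅B, B⁆, a⁻¹ * g ∉ H := by
  obtain ⟨M, h1, h2, h3⟩ := PGrp.exists_le_index_eq hB (H := H.subgroupOf B)
    (by rwa [Ne, subgroupOf_eq_top])
  have h4 : _root_.commutator B ≤ M := by
    have := isCyclic_of_prime_card (α := B ⧸ M) h2
    exact Normal.quotient_commutative_iff_commutator_le.1 IsCyclic.isMulCommutative
  obtain ⟨g, hg⟩ : ∃ g, g ∉ M := not_forall.1 fun e => hp.out.ne_one (by
    rw [← h2, index_eq_one, eq_top_iff']; exact e)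
  refine ⟨g, g.2, fun a ha e => hg ?_⟩
  rw [← map_subtype_commutator] at ha
  obtain ⟨a, ha, rfl⟩ := ha
  simpa using mul_mem (h4 ha) (h1 (show a⁻¹ * g ∈ H.subgroupOf B from e))

/-- **The permutation lemma.** -/
theorem le_chain_sup (hS : IsPGroup p S) {𝒳 : Set (Submodule k V)}
    (h𝒳 : ∀ g ∈ S, ∀ Y ∈ 𝒳, Y.map (ρ g) ∈ 𝒳) (hX : X ∈ 𝒳) {t : ℕ}
    (ht : ∀ s < t, ¬ dser S s ≤ stab ρ X) :
    X ≤ chain ρ ⊤ S t ⊔ sSup {Y ∈ 𝒳 | ∀ g ∈ dser S t, Y ≠ X.map (ρ g)} := by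
  induction t with
  | zero => exact le_sup_of_le_left le_top
  | succ t ih =>
    obtain ⟨g, hg, h1⟩ := exists_not_mem_commutator_mul (hS.to_le (dser_le S t)) (ht t t.lt_succ_self)
    intro v hv
    obtain ⟨a, ha, b, hb, rfl⟩ := Submodule.mem_sup.1 (ih (fun s hs => ht s (hs.trans t.lt_succ_self)) hv)
    set N := sSup {Y ∈ 𝒳 | ∀ g ∈ dser S (t + 1), Y ≠ X.map (ρ g)}
    have h2 : ∀ x ∈ dser S t, ρ x b ∈ N := fun x hx => by
      refine (show (sSup _ : Submodule k V) ≤ N.comap (ρ x) from sSup_le fun Y hY => ?_) hb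
      refine Submodule.map_le_iff_le_comap.1 (le_sSup ⟨h𝒳 x (dser_le S t hx) Y hY.1, fun y hy e => ?_⟩)
      exact hY.2 (x⁻¹ * y) (mul_mem (inv_mem hx) (dser_succ_le S t hy))
        (by rw [map_rho_mul, ← e, map_rho_inv_map])
    have h3 : ρ g (a + b) ∈ N := (le_sSup (a := X.map (ρ g)) ⟨h𝒳 g (dser_le S t hg) X hX,
      fun y hy e => h1 y hy (by rw [mem_stab, map_rho_mul, e, map_rho_inv_map])⟩ : _ ≤ N) ⟨_, hv, rfl⟩
    have h4 := h2 1 (one_mem _)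
    rw [map_one, Module.End.one_apply] at h4
    have := Submodule.add_mem_sup (neg_mem (sub_mem_cm (ρ := ρ) hg ha))
      (add_mem (sub_mem h4 (h2 g hg)) h3)
    rwa [map_add, show -(ρ g a - a) + (b - ρ g b + (ρ g a + ρ g b)) = a + b by abel] at this

theorem le_chain_sup' (hS : IsPGroup p S) {𝒳 : Set (Submodule k V)}
    (h𝒳 : ∀ g ∈ S, ∀ Y ∈ 𝒳, Y.map (ρ g) ∈ 𝒳) (hX : X ∈ 𝒳) {t : ℕ}
    (ht : ∀ s < t, ¬ dser S s ≤ stab ρ X) : X ≤ chain ρ ⊤ S t ⊔ sSup (𝒳 \ {X}) :=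
  (le_chain_sup hS h𝒳 hX ht).trans (sup_le_sup_left (sSup_le_sSup fun _ hY =>
    Set.mem_sdiff_singleton.2 ⟨hY.1, map_rho_one (ρ := ρ) X ▸ hY.2 1 (one_mem _)⟩) _)

variable [FiniteDimensional k V] {Q : Subgroup G} {c : Submodule k V}

theorem exists_dser_le_stab (hS : IsPGroup p S) (hQ : (Nat.card Q : k) ≠ 0)
    (hSQ : S ≤ normalizer (Q : Set G)) (hc : c ∈ comps ρ Q) {n : ℕ} (h : chain ρ ⊤ S (n + 1) = ⊥) :
    ∃ j t, j + t = n ∧ dser S j ≤ stab ρ c ∧ chain ρ c (dser S j) (t + 1) = ⊥ := by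
  classical
  have h𝒳 : ∀ g ∈ S, ∀ Y ∈ comps ρ Q, Y.map (ρ g) ∈ comps ρ Q := fun g hg Y hY =>
    map_rho_mem_comps hY (hSQ hg)
  have hd := sSupIndep_comps hQ hc
  have h1 : dser S n ≤ stab ρ c := by_contra fun e => ne_bot_of_mem_comps hc (hd.eq_bot_of_le (by
    simpa [h] using le_chain_sup' hS h𝒳 hc (t := n + 1) fun s hs e' =>
      e ((dser_anti S (Nat.le_of_lt_succ hs)).trans e')))
  have h2 : ∃ j, dser S j ≤ stab ρ c := ⟨n, h1⟩
  obtain ⟨t, ht⟩ := Nat.exists_eq_add_of_le (Nat.find_min' h2 h1)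
  refine ⟨_, t, ht.symm, Nat.find_spec h2, eq_bot_iff.2 (le_trans (le_inf (chain_le
    (isInv_iff_le_stab.2 (Nat.find_spec h2)) _) ?_) hd.le_bot)⟩
  have h3 := chain_le_sup (isInv_iff_map_le.2 fun g hg => ?_)
    (le_chain_sup' hS h𝒳 hc fun s hs => Nat.find_min h2 hs) (t + 1)
  · rwa [← add_assoc, ← ht, h, bot_sup_eq] at h3
  refine Submodule.map_le_iff_le_comap.2 (sSup_le fun Y hY => Submodule.map_le_iff_le_comap.1
    (le_sSup ⟨h𝒳 g (dser_le S _ hg) Y hY.1, fun e => hY.2 ?_⟩))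
  rw [Set.mem_singleton_iff, ← map_rho_inv_map (ρ := ρ) Y g, e]
  exact inv_mem (Nat.find_spec h2 hg)

/-- A `p`-group stabilizing a homogeneous component stabilizes an irreducible submodule. -/
theorem exists_isIrr_isInv [IsAlgClosed k] [CharP k p] (hS : IsPGroup p S)
    (hQ : (Nat.card Q : k) ≠ 0) (hSQ : S ≤ normalizer (Q : Set G)) (hc : c ∈ comps ρ Q)
    (hSc : S ≤ stab ρ c) : ∃ U ≤ c, IsIrr ρ Q U ∧ S ≤ stab ρ U := by
  obtain ⟨W₀, hW₀, e₀⟩ := id hc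
  obtain ⟨P, -, ⟨hP, W, hWc, hW, hPW⟩, hmax⟩ := Core.exists_maximal_ge
    (P := fun P : Subgroup G => P ≤ S ∧ ∃ U ≤ c, IsIrr ρ Q U ∧ P ≤ stab ρ U) (H := ⊥)
    ⟨bot_le, W₀, e₀ ▸ le_hcomp, hW₀, bot_le⟩
  rcases hP.eq_or_lt with rfl | hlt
  · exact ⟨W, hWc, hW, hPW⟩
  obtain ⟨a, ⟨haS, haP⟩, ha'⟩ := SetLike.exists_of_lt (PGrp.lt_inf_normalizer hS hlt)
  have ha := hSQ haS
  have hPW' := isInv_iff_le_stab.2 hPW
  obtain rfl := IsIrr.eq_hcomp_of_le hQ hc hW hWc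
  obtain ⟨π, hπ, hπ1, hπ2⟩ := hW.inv.exists_proj hQ
  obtain ⟨φ₀, hφ₀, hφ₀'⟩ := (hW.map_rho ha).exists_map_eq hQ hW.inv
    ((Submodule.map_mono le_hcomp).trans (mem_stab.1 (hSc haS)).le)
  obtain ⟨ψ, hψ, hψ1, hψ2⟩ := hW.exists_leftInv hQ hφ₀ (hφ₀' ▸ (hW.map_rho ha).ne_bot)
  have h0 : ∀ g ∈ P, ∀ w ∈ W, φ₀ (ρ g w) = ρ g (φ₀ w) := fun g hg => by
    have h1 := conj_mem_endQ hφ₀ (inv_mem (hSQ (hP hg)))
    rw [inv_inv] at h1
    obtain ⟨t, ht⟩ := hW.exists_smul (φ := ψ * (ρ g⁻¹ * φ₀ * ρ g))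
      (fun q hq w _ => endQ_apply (mul_mem hψ h1) hq w) fun w _ => hψ1 _
    have h2 : ∀ w ∈ W, φ₀ (ρ g w) = t • ρ g (φ₀ w) := fun w hw => by
      obtain ⟨u, hu, e⟩ : (ρ g⁻¹ * φ₀ * ρ g) w ∈ W.map φ₀ :=
        hφ₀' ▸ hPW'.map_rho haP _ (inv_mem hg) _ (hφ₀' ▸ ⟨_, hPW' g hg w hw, rfl⟩)
      have e' := ht w hw
      rw [Module.End.mul_apply, ← e, hψ2 u hu] at e'
      rw [← map_smul, ← map_smul, ← e', e]
      simp [← rho_mul_apply]
    have h3 : ∀ (n : ℕ), ∀ w ∈ W, φ₀ (ρ (g ^ n) w) = t ^ n • ρ (g ^ n) (φ₀ w) := fun n => by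
      induction n with
      | zero => simp
      | succ n ih =>
        intro w hw
        rw [pow_succ', rho_mul_apply, h2 _ (hPW' _ (pow_mem hg n) w hw), ih w hw, map_smul, smul_smul,
          ← rho_mul_apply, ← pow_succ']
    obtain ⟨l, hl⟩ := hS ⟨g, hP hg⟩
    obtain ⟨w, hw, hw0⟩ := Submodule.exists_mem_ne_zero_of_ne_bot hW.ne_bot
    have h4 := congrArg ψ (h3 (p ^ l) w hw)
    rw [show g ^ p ^ l = 1 from congrArg Subtype.val hl, map_one, Module.End.one_apply,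
      Module.End.one_apply, map_smul, hψ2 w hw, eq_comm, ← sub_eq_zero] at h4
    nth_rewrite 2 [← one_smul k w] at h4
    rw [← sub_smul, smul_eq_zero, ← one_pow (p ^ l), ← sub_pow_char_pow, pow_eq_zero_iff
      (pow_ne_zero _ hp.out.ne_zero), sub_eq_zero] at h4
    simpa [h4.resolve_right hw0] using h2
  let E : Submodule k (End k V) :=
    { carrier := {φ | φ ∈ endQ ρ Q ∧ φ * π = φ ∧ ∀ g ∈ P, ∀ w ∈ W, φ (ρ g w) = ρ g (φ w)}
      add_mem' := fun ha hb => ⟨add_mem ha.1 hb.1, by rw [add_mul, ha.2.1, hb.2.1], fun g hg w hw => by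
        simp [ha.2.2 g hg w hw, hb.2.2 g hg w hw]⟩
      zero_mem' := ⟨zero_mem _, zero_mul _, by simp⟩
      smul_mem' := fun t φ h => ⟨Subalgebra.smul_mem _ h.1 t, by rw [smul_mul_assoc, h.2.1],
        fun g hg w hw => by simp [h.2.2 g hg w hw]⟩ }
  have hππ : π * π = π := LinearMap.ext fun v => hπ2 _ (hπ1 v)
  let F : End k (End k V) := LinearMap.mulLeft k (ρ a) ∘ₗ LinearMap.mulRight k (ρ a⁻¹ * φ₀ * π)
  have hF : ∀ φ, F φ = ρ a * φ * ρ a⁻¹ * φ₀ * π := fun φ => by simp [F, mul_assoc]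
  have h1 : ∀ w ∈ W, ρ a⁻¹ (φ₀ w) ∈ W := fun w hw => mem_map_rho.1 (hφ₀' ▸ ⟨w, hw, rfl⟩)
  have hFE : ∀ φ ∈ E, F φ ∈ E := fun φ hφ => by
    rw [hF]
    refine ⟨mul_mem (mul_mem (conj_mem_endQ hφ.1 ha) hφ₀) hπ, by rw [mul_assoc _ π π, hππ],
      fun g hg w hw => ?_⟩
    simp only [Module.End.mul_apply]
    rw [hπ2 w hw, hπ2 _ (hPW' g hg w hw), h0 g hg w hw, ← rho_mul_apply ρ a⁻¹,
      show a⁻¹ * g = a⁻¹ * g * a * a⁻¹ by group, rho_mul_apply,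
      hφ.2.2 _ ((mem_normalizer_iff''.1 haP g).1 hg) _ (h1 w hw), ← rho_mul_apply, ← rho_mul_apply]
    simp [mul_assoc]
  have : Nontrivial E := Submodule.nontrivial_iff_ne_bot.2 fun h => hW.ne_bot (eq_bot_iff.2 fun w hw => by
    have : π ∈ E := ⟨hπ, hππ, fun g hg w hw => by rw [hπ2 w hw, hπ2 _ (hPW' g hg w hw)]⟩
    rw [h, Submodule.mem_bot] at this
    rw [← hπ2 w hw, this]; rfl)
  obtain ⟨t, ht⟩ := Module.End.exists_eigenvalue (F.restrict hFE)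
  obtain ⟨⟨φ, hφ⟩, hw⟩ := ht.exists_hasEigenvector
  have hφ' : F φ = t • φ := congrArg Subtype.val hw.apply_eq_smul
  have hne : W.map φ ≠ ⊥ := fun h => hw.2 (Subtype.ext (hφ.2.1.symm.trans (LinearMap.ext fun v =>
    (Submodule.mem_bot k).1 (h ▸ ⟨_, hπ1 v, rfl⟩))))
  refine (ha' (hmax (P ⊔ zpowers a) ⟨sup_le hP (zpowers_le.2 haS), W.map φ, map_le_hcomp hφ.1,
    hW.map_endQ hφ.1 hne, sup_le (isInv_iff_le_stab.1 ?_) (zpowers_le.2 (mem_stab_of_map_le ?_))⟩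
    le_sup_left ▸ mem_sup_right (mem_zpowers a))).elim
  · rintro g hg _ ⟨w, hw, rfl⟩
    exact ⟨_, hPW' g hg w hw, hφ.2.2 g hg w hw⟩
  · rintro _ ⟨_, ⟨w, hw, rfl⟩, rfl⟩
    obtain ⟨u, hu, e⟩ : ρ a w ∈ W.map φ₀ := hφ₀' ▸ ⟨w, hw, rfl⟩
    have := LinearMap.congr_fun ((hF φ).symm.trans hφ') u
    simp only [Module.End.mul_apply, hπ2 u hu, e, ← rho_mul_apply, inv_mul_cancel, map_one,
      Module.End.one_apply, LinearMap.smul_apply] at this
    exact this ▸ Submodule.smul_mem _ _ ⟨u, hu, rfl⟩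

end Cfsg.Agent.Reg.TwoDer
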