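import Cfsg.Agent.Lib.Reg.TwoLenLoc
import Cfsg.Agent.Lib.Mod.Unip
import Cfsg.Agent.Lib.Transfer.Basic
import Cfsg.Agent.Lib.PGrp.Critical

/-!
# The `2`-length is bounded by the exponent of a Sylow `2`-subgroup
-/

set_option autoImplicit false

namespace Cfsg.Agent.Reg.TwoLen

open Subgroup Cfsg.Agent.Mod
open scoped commutatorElement

universe u

section Res

variable {p n : ℕ} [Fact p.Prime] {G : Type u} [Group G] [Finite G]

theorem pLengthLE_of_le_ker {G' : Type*} [Group G'] [Finite G'] {N : Subgroup G} [N.Normal]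
    (h : PLengthLE p n (G ⧸ N)) {f : G →* G'} (hf : Function.Surjective f) (hN : N ≤ f.ker) :
    PLengthLE p n G' :=
  pLengthLE_of_surjective h (QuotientGroup.lift_surjective_of_surjective N f hf hN)

omit [Finite G] in
theorem pLengthLE_ker {G' : Type*} [Group G'] [Finite G'] (h : PLengthLE p n G') (f : G →* G') :
    PLengthLE p n (G ⧸ f.ker) := pLengthLE_of_injective h (QuotientGroup.kerLift_injective f)

variable (p n G) in
theorem exists_residual : ∃ (K : Subgroup G) (_ : K.Normal), PLengthLE p n (G ⧸ K) ∧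
    ∀ {G' : Type u} [Group G'] [Finite G'] (f : G →* G'), PLengthLE p n G' → K ≤ f.ker := by
  obtain ⟨K, -, ⟨_, h1⟩, h2⟩ := Core.exists_minimal_le
    (P := fun N : Subgroup G => ∃ _ : N.Normal, PLengthLE p n (G ⧸ N)) (H := ⊤)
    ⟨inferInstance, pLengthLE_mono (pLengthLE_zero_iff.2 (by simp)) n.zero_le⟩
  refine ⟨K, inferInstance, h1, fun {G'} _ _ f h => ?_⟩
  have h3 : PLengthLE p n ((G ⧸ K) × G') := pLengthLE_of_inf_eq_bot (MonoidHom.fst _ _).ker
    (MonoidHom.snd _ _).ker (eq_bot_iff.2 fun x hx => Prod.ext (MonoidHom.mem_ker.1 hx.1) (MonoidHom.mem_ker.1 hx.2)) (pLengthLE_ker h1 _)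
    (pLengthLE_ker h _)
  have h4 : ((QuotientGroup.mk' K).prod f).ker = K ⊓ f.ker := by
    rw [MonoidHom.ker_prod, QuotientGroup.ker_mk']
  rw [← h2 _ ⟨inferInstance, pLengthLE_ker h3 ((QuotientGroup.mk' K).prod f)⟩ (h4.le.trans inf_le_left)]
  exact h4.le.trans inf_le_right

theorem pCore_quotient_centralizer {X : Subgroup G} [X.Normal] (h : Core.IsMinNormal X)
    (hX : IsPGroup p X) : pCore p (G ⧸ centralizer (X : Set G)) = ⊥ := by
  obtain ⟨R, -, hR, e⟩ := exists_isPGroup_map_eq (f := QuotientGroup.mk' (centralizer (X : Set G)))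
    (K := ⊤) (Core.isPGroup_pCore p) (by
      rw [map_top_of_surjective _ (QuotientGroup.mk'_surjective _)]; exact le_top)
  have h1 : (R ⊔ centralizer (X : Set G)).Normal := by
    rw [← Core.comap_map_mk, e]; infer_instance
  rw [← e, Core.map_mk_eq_bot_iff, le_centralizer_iff]
  refine (h.le_of_inf_ne_bot (K := centralizer ((R ⊔ centralizer (X : Set G) : Subgroup G) : Set G))
    fun h2 => PGrp.inf_centralizer_ne_bot hR hX le_normalizer_of_normal h.ne_bot
      (eq_bot_iff.2 (le_trans (le_inf inf_le_left ?_) h2.le))).trans (centralizer_le (SetLike.coe_subset_coe.2 le_sup_left))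
  rw [le_centralizer_iff, sup_le_iff]
  exact ⟨le_centralizer_iff.1 inf_le_right, centralizer_le inf_le_left⟩

end Res

/-- Linear groups whose `2`-elements have small minimal polynomials have bounded `2`-length. -/
def AStat (n : ℕ) : Prop := ∀ (H V : Type u) [Group H] [Finite H] [AddCommGroup V]
  [Module (AlgebraicClosure (ZMod 2)) V] [FiniteDimensional (AlgebraicClosure (ZMod 2)) V]
  (ρ : Representation (AlgebraicClosure (ZMod 2)) H V), Function.Injective ρ → IsPSolvable 2 H →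
    pCore 2 H = ⊥ → (∀ g : H, (∃ l, g ^ 2 ^ l = 1) → Unip ρ g n) → PLengthLE 2 n H

variable {n : ℕ} {G : Type u} [Group G] [Finite G]

theorem AStat.lin (hA : AStat.{u} n) (hG : IsPSolvable 2 G) {V N : Subgroup G} [V.Normal] [N.Normal]
    (hV : IsElementaryAbelian 2 V) (hN : centralizer (V : Set G) = N) (h0 : pCore 2 (G ⧸ N) = ⊥)
    (h : ∀ s : G, (∃ l, s ^ 2 ^ l = 1) → ∀ a ∈ V, (a * s) ^ 2 ^ (n + 1) = s ^ 2 ^ (n + 1)) :
    PLengthLE 2 n (G ⧸ N) := by
  obtain ⟨W, _, _, _, ρ, ι, hl⟩ := exists_isLin (AlgebraicClosure (ZMod 2)) hV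
  obtain rfl : ρ.ker = N := hl.ker_eq.trans hN
  refine hA _ W (kerRep ρ) kerRep_injective (Coprime.isPSolvable_quotient hG _) h0 fun y ⟨l, hy⟩ => ?_
  obtain ⟨s, rfl, hs⟩ := exists_pow_pow_eq_one_map_eq (QuotientGroup.mk'_surjective _) hy
  rw [Unip, kerRep_mk, ← aeval_geom_eq_pow]
  refine hl.ext fun a ha => ?_
  rw [← (hl.mul_pow s ha _).2, h s hs a ha, mul_inv_cancel, hl.map_one, LinearMap.zero_apply]

theorem AStat.centralizes (hA : AStat.{u} n) (hG : IsPSolvable 2 G) {T G₀ K : Subgroup G} [T.Normal]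
    [G₀.Normal] [hKn : K.Normal] (hT : IsPGroup 2 T) (hL : Loc G₀ (2 ^ (n + 1)))
    (hK : ∀ {G' : Type u} [Group G'] [Finite G'] (f : G →* G'), PLengthLE 2 n G' → K ≤ f.ker)
    {x : G} (hx : x ∈ K) (ho : Odd (orderOf x)) : x ∈ centralizer (T : Set G) := by
  set S : Set G := {x | x ∈ K ∧ Odd (orderOf x)}
  set K₁ := normalClosure S
  have hK₁ : K₁ ≤ K := normalClosure_le_normal fun x hx => hx.1
  by_contra hne
  obtain ⟨R, hRT, ⟨hRn, hR⟩, hmin⟩ := Core.exists_minimal_le
    (P := fun R : Subgroup G => R.Normal ∧ ¬ R ≤ centralizer K₁) (H := T)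
    ⟨inferInstance, fun h => hne (le_centralizer_iff.1 h (subset_normalClosure ⟨hx, ho⟩))⟩
  set R₁ := R ⊓ centralizer (K₁ : Set G)
  have hmin' : ∀ N : Subgroup G, N.Normal → N ≤ R → N ≤ R₁ ∨ N = R := fun N hN h =>
    or_iff_not_imp_right.2 fun h' => le_inf h (by_contra fun h'' => h' (hmin N ⟨hN, h''⟩ h))
  have hR₁ : ¬ R ≤ R₁ := fun h => hR (h.trans inf_le_right)
  have hRp := hT.to_le hRT
  have h1 : ⁅R, K₁⁆ = R := (hmin' _ inferInstance (commutator_le_left _ _)).resolve_left fun h => by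
    refine hR (le_centralizer_iff.1 (normalClosure_le_normal fun y hy a ha => ?_))
    have h2 := commutator_mem_commutator ha (subset_normalClosure hy : y ∈ K₁)
    obtain ⟨l, hl⟩ := hRp ⟨_, (h h2).1⟩
    exact commutatorElement_eq_one_iff_mul_comm.1 (commute_of_coprime
      ((h h2).2 y (subset_normalClosure hy)).symm (Nat.coprime_two_right.2 hy.2 |>.pow_right l)
      (pow_orderOf_eq_one y) (congrArg Subtype.val hl))
  have h2 : R₁ ≤ centralizer R := by
    rw [le_centralizer_iff, ← commutator_eq_bot_iff_le_centralizer]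
    nth_rewrite 1 [← h1]
    refine commutator_commutator_eq_bot_of_rotate ?_ (commutator_eq_bot_iff_le_centralizer.2
      ((commutator_le_left _ _).trans inf_le_right))
    rw [commutator_eq_bot_iff_le_centralizer.2 (le_centralizer_iff.1 inf_le_right), commutator_bot_left]
  have hX := Core.isMinNormal_map_of_isChiefFactor (U := R) (W := R₁)
    ⟨lt_of_le_not_ge inf_le_left hR₁, hRn, inferInstance, fun N hN h3 h4 =>
      (hmin' N hN h4).imp_left fun h5 => h5.antisymm h3⟩
  have hXp := hRp.map (QuotientGroup.mk' R₁)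
  have hE := hX.isElementaryAbelian_of_isPGroup hXp
  have := hX.normal
  have h3 : ∀ r ∈ R, r * r ∈ R₁ := fun r hr => by
    rw [← QuotientGroup.eq_one_iff, QuotientGroup.mk_mul, ← sq]
    exact hE.2 _ ⟨r, hr, rfl⟩
  have hZ : IsMulCommutative ↥(R ⊓ centralizer (R : Set G)) :=
    Core.isMulCommutative_of_forall fun a ha b hb => hb.2 a ha.1
  set Y := Core.powKer _ hZ 2
  have hYn : Y.Normal := Core.normal_iff_top_le_normalizer.2
    (le_normalizer_of_normal.trans (Core.normalizer_le_normalizer_powKer _ hZ 2))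
  have h4 : ∀ a ∈ R, ∀ b ∈ R, ⁅a, b⁆ ∈ Y := fun a ha b hb => by
    have h5 : ⁅a, b⁆ ∈ R₁ := by
      rw [← QuotientGroup.eq_one_iff, ← QuotientGroup.mk'_apply, map_commutatorElement,
        commutatorElement_eq_one_iff_mul_comm]
      exact Core.mul_comm_of_mem_of_isMulCommutative hE.1 ⟨a, ha, rfl⟩ ⟨b, hb, rfl⟩
    refine ⟨⟨h5.1, h2 h5⟩, ?_⟩
    calc ⁅a, b⁆ ^ 2 = a * ⁅a, b⁆ * a⁻¹ * ⁅a, b⁆ := by rw [h2 h5 a ha, mul_inv_cancel_right, sq]
      _ = ⁅a * a, b⁆ := by simp only [commutatorElement_def]; group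
      _ = 1 := commutatorElement_eq_one_iff_mul_comm.2 (h2 (h3 a ha) b hb).symm
  have h5 : ∀ r ∈ R, r * r ∈ ⁅R, R⁆ := by
    have key : ∀ a b : G, a * b * (a * b) = a * a * ⁅a⁻¹, b⁆ * (b * b) := fun a b => by
      simp only [commutatorElement_def]; group
    let Sq : Subgroup G :=
      { carrier := {r | r ∈ R ∧ r * r ∈ ⁅R, R⁆}
        one_mem' := ⟨one_mem _, by simp⟩
        mul_mem' := fun {a b} ha hb => ⟨mul_mem ha.1 hb.1, by
          rw [key a b]
          exact mul_mem (mul_mem ha.2 (commutator_mem_commutator (inv_mem ha.1) hb.1)) hb.2⟩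
        inv_mem' := fun {a} ha => ⟨inv_mem ha.1, by rw [← mul_inv_rev]; exact inv_mem ha.2⟩ }
    have h6 : ⁅R, K₁⁆ ≤ Sq := commutator_le.2 fun a ha b hb => by
      refine ⟨commutator_le_left _ _ (commutator_mem_commutator ha hb), ?_⟩
      rw [show ⁅a, b⁆ = a * (b * a⁻¹ * b⁻¹) by simp only [commutatorElement_def]; group, key a,
        show b * a⁻¹ * b⁻¹ * (b * a⁻¹ * b⁻¹) = b * (b * (a * a))⁻¹ by group, (h3 a ha).2 b hb,
        mul_inv_rev, mul_inv_cancel_left]
      exact (inferInstance : ⁅R, R⁆.Normal).conj_mem _ (commutator_mem_commutator (inv_mem ha)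
        (hRn.conj_mem _ (inv_mem ha) b)) _
    exact fun r hr => (h6 (h1.ge hr)).2
  have h6 := hA.lin (Coprime.isPSolvable_quotient hG R₁) hE rfl (pCore_quotient_centralizer hX hXp) (by
    rintro s ⟨l, hl⟩ _ ⟨a, ha, rfl⟩
    obtain ⟨s, rfl, hs⟩ := exists_pow_pow_eq_one_map_eq (QuotientGroup.mk'_surjective _) hl
    have ht := hRn.conj_mem' a ha s
    have hst : ∃ l, (s * (s⁻¹ * a * s)) ^ 2 ^ l = 1 := by
      obtain ⟨l, hl⟩ := hs
      obtain ⟨j, hj⟩ := hRp.to_sup_of_normal_left (Core.isPGroup_zpowers_of_pow_eq_one hl)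
        ⟨_, mul_mem (mem_sup_right (mem_zpowers s)) (mem_sup_left ht)⟩
      exact ⟨j, congrArg Subtype.val hj⟩
    have hu := pow_mul_mem (le_normalizer_of_normal (mem_top s)) ht (2 ^ (n + 1))
    rw [← map_mul, ← map_pow, ← map_pow, show a * s = s * (s⁻¹ * a * s) by group, eq_comm,
      QuotientGroup.mk'_apply, QuotientGroup.mk'_apply, QuotientGroup.eq]
    by_contra h7
    have h8 : R ≤ G₀ := inf_eq_left.1 ((hmin' _ inferInstance inf_le_left).resolve_left fun h =>
      h7 (h ⟨hu, G₀.mul_mem (G₀.inv_mem (hL s hs).1) (hL _ hst).1⟩))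
    obtain ⟨h9, h10⟩ := (hL s hs).2 R Y ⟨fun y hy => hy.1.1, h8, fun y hy => (sq y).symm.trans hy.2,
      fun y hy r hr => (hy.1.2 r hr).symm, fun r hr => commutator_le.2 h4 (h5 r hr)⟩ (le_normalizer_of_normal (mem_top _))
      (le_normalizer_of_normal (mem_top _)) _ ht hst
    rcases hmin' (R ⊓ centralizer R) inferInstance inf_le_left with h | h
    · exact h7 (h ⟨hu, fun r hr => (h9 r hr).symm⟩)
    · have h11 := h5 _ ht
      rw [commutator_eq_bot_iff_le_centralizer.2 (h.ge.trans inf_le_right), mem_bot, ← sq] at h11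
      exact h7 (by rw [h10 ⟨h.ge ht, h11⟩, inv_mul_cancel]; exact one_mem _))
  have h7 := hK₁.trans (hK ((QuotientGroup.mk' _).comp (QuotientGroup.mk' R₁)) h6)
  refine hR₁ (h1.ge.trans (commutator_le.2 fun a ha b hb => ?_))
  rw [← QuotientGroup.eq_one_iff, ← QuotientGroup.mk'_apply, map_commutatorElement,
    commutatorElement_eq_one_iff_mul_comm]
  exact (QuotientGroup.eq_one_iff _).1 (h7 hb) _ ⟨a, ha, rfl⟩

theorem AStat.of_loc (hA : AStat.{u} n) (hG : IsPSolvable 2 G) {G₀ : Subgroup G} [G₀.Normal]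
    (hL : Loc G₀ (2 ^ (n + 1))) : PLengthLE 2 (n + 1) G := by
  obtain ⟨T, hT⟩ := Coprime.exists_isSylowIn 2 (pPrimePCore 2 G)
  have h1 := hT.frattini_argument le_top le_normalizer_of_normal
  rw [top_inf_eq] at h1
  set L := normalizer (T : Set G)
  obtain ⟨K, hKn, h2, hK⟩ := exists_residual 2 n L
  have hf : Function.Surjective ((QuotientGroup.mk' (pPrimePCore 2 G)).comp L.subtype) := by
    rw [← MonoidHom.range_eq_top, MonoidHom.range_comp, range_subtype, eq_top_iff,
      ← map_top_of_surjective _ (QuotientGroup.mk'_surjective _), Core.map_mk_le_map_mk_iff, sup_comm, h1]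
  refine pLengthLE_succ_of_quotient (pLengthLE_of_le_ker h2 hf ?_)
  have h3 : ∀ x ∈ K, ∃ l, x.1 ^ 2 ^ l ∈ pPrimePCore 2 G := fun x hx => by
    obtain ⟨l, hl⟩ := Transfer.exists_pow_pow_coprime (p := 2) x
    exact ⟨l, Coprime.centralizer_le_pPrimePCore hG hT ((mem_centralizer_subgroupOf le_normalizer).1
      (hA.centralizes (Coprime.isPSolvable_subgroup hG L) (Coprime.isPGroup_subgroupOf hT.2.1 L)
        (hL.subgroup L) hK (pow_mem hx _) (Nat.coprime_two_right.1 hl)))⟩
  have hn := ((hKn.map _ hf).comap (QuotientGroup.mk' (pPrimePCore 2 G))).map _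
    (QuotientGroup.mk'_surjective (pPrimeCore 2 G))
  have h4 := Core.le_pCore (hN := hn) (p := 2) (Core.isPGroup_of_forall_mem (by
    rintro _ ⟨x, ⟨y, hy, e⟩, rfl⟩
    obtain ⟨l, hl⟩ := h3 y hy
    have h5 : x ^ 2 ^ l ∈ pPrimePCore 2 G := by
      rw [← QuotientGroup.eq_one_iff, ← QuotientGroup.mk'_apply, map_pow, ← e, ← map_pow]
      exact (QuotientGroup.eq_one_iff _).2 hl
    obtain ⟨j, hj⟩ := Core.isPGroup_pCore 2 ⟨_, h5⟩
    exact ⟨l + j, by rw [pow_add, pow_mul, ← map_pow]; exact congrArg Subtype.val hj⟩))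
  exact fun x hx => (QuotientGroup.eq_one_iff _).2 (h4 ⟨x, ⟨x, hx, rfl⟩, rfl⟩)

theorem AStat.succ (hA : AStat.{u} n) : AStat.{u} (n + 1) := by
  intro H V _ _ _ _ _ ρ hρ hH h0 hU
  obtain ⟨K, hKn, h1, hK⟩ := exists_residual 2 (n + 1) H
  by_contra hne
  obtain ⟨t, htK, ht⟩ := Core.exists_mem_orderOf_eq_of_dvd_card (p := 2) (H := K) (by_contra fun h =>
    hne (pLengthLE_of_quotient_coprime K ((Nat.prime_two.coprime_iff_not_dvd.2 h).symm) h1))
  set F := pPrimeCore 2 H
  have hF : (Nat.card F).Coprime 2 := Core.coprime_card_pPrimeCore 2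
  have hodd : ∀ x ∈ F, x ^ 2 = 1 → x = 1 := fun x hx h => orderOf_eq_one_iff.1
    (Nat.eq_one_of_dvd_coprimes hF (F.orderOf_dvd_natCard hx) (orderOf_dvd_of_pow_eq_one h))
  have ht2 : t ^ 2 = 1 := ht ▸ pow_orderOf_eq_one t
  have hcop : ∀ P ≤ F, (Nat.card (zpowers t)).Coprime (Nat.card P) := fun P hP => by
    rw [Nat.card_zpowers, ht]; exact (hF.of_dvd_left (card_dvd_of_le hP)).symm
  have h2 : F ≤ centralizer (zpowers t) := Coprime.le_of_forall_isSylowIn fun q hq hd => by
    have := Fact.mk hq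
    obtain ⟨P, hP, hn⟩ := Coprime.exists_invariant_sylow q le_normalizer_of_normal (hcop F le_rfl)
      (Or.inl inferInstance)
    have hq2 : q ≠ 2 := by rintro rfl; exact Nat.prime_two.coprime_iff_not_dvd.1 hF.symm hd
    obtain ⟨D, hDP, h2, h3, h4, h5⟩ := PGrp.exists_critical_subgroup_odd hq2 hP.2.1
    refine ⟨P, hP, le_centralizer_iff.1 (h5 _ hn (hcop P hP.1) (zpowers_le.2 ?_))⟩
    have h6 := hP.frattini_argument le_top le_normalizer_of_normal
    rw [top_inf_eq] at h6
    set L := normalizer (P : Set H)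
    have hDL : D ≤ L := hDP.trans le_normalizer
    have hy : Hyp (ρ.comp L.subtype) q (D.subgroupOf L) :=
      ⟨hρ.comp L.subtype_injective, hq, hq2, Core.normal_subgroupOf_of_le_normalizer h2, by
        rw [commutator_subgroupOf hDL hDL, centralizer_subgroupOf hDL]
        exact comap_mono ((commutator_mono le_rfl hDP).trans h3), fun x hx => Subtype.ext (h4 x hx)⟩
    have := hy.normal
    have hC := normal_iInf_kerAt (ρ := ρ.comp L.subtype) (Q := D.subgroupOf L)
    set C := ⨅ c ∈ comps (ρ.comp L.subtype) (D.subgroupOf L), kerAt (ρ.comp L.subtype) c (D.subgroupOf L)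
    have := (normal_iInf_stab (ρ := ρ.comp L.subtype) (Q := D.subgroupOf L)).map _
      (QuotientGroup.mk'_surjective C)
    have h7 := hA.of_loc (Coprime.isPSolvable_quotient (Coprime.isPSolvable_subgroup hH L) C)
      (hy.loc (fun g ⟨l, hl⟩ => hU g ⟨l, congrArg Subtype.val hl⟩) (QuotientGroup.mk'_surjective C)
        (QuotientGroup.ker_mk' C))
    have hf : Function.Surjective ((QuotientGroup.mk' F).comp L.subtype) := by
      rw [← MonoidHom.range_eq_top, MonoidHom.range_comp, range_subtype, eq_top_iff,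
        ← map_top_of_surjective _ (QuotientGroup.mk'_surjective _), Core.map_mk_le_map_mk_iff, sup_comm, h6]
    have := hC.map _ hf
    have h8 := hK ((QuotientGroup.mk' (C.map ((QuotientGroup.mk' F).comp L.subtype))).comp
      (QuotientGroup.mk' F)) (pLengthLE_of_le_ker h7 (f := (QuotientGroup.mk' _).comp
        ((QuotientGroup.mk' F).comp L.subtype)) ((QuotientGroup.mk'_surjective _).comp hf) fun x hx => (QuotientGroup.eq_one_iff _).2 ⟨x, hx, rfl⟩) htK
    obtain ⟨c, hc, e⟩ := (QuotientGroup.eq_one_iff _).1 h8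
    let t' : L := ⟨t, hn (mem_zpowers t)⟩
    have h9 : t' ∈ C := by
      have h9 : (c⁻¹ * t').1 ^ Nat.card F = 1 :=
        congrArg Subtype.val (pow_card_eq_one' (x := (⟨_, QuotientGroup.eq.1 e⟩ : F)))
      rw [← QuotientGroup.eq_one_iff, ← orderOf_eq_one_iff]
      refine Nat.eq_one_of_dvd_coprimes hF (orderOf_dvd_of_pow_eq_one ?_) (orderOf_dvd_of_pow_eq_one ?_)
      · rw [show (t' : L ⧸ C) = ↑(c⁻¹ * t') by rw [QuotientGroup.mk_mul,
          (QuotientGroup.eq_one_iff _).2 (inv_mem hc), one_mul], ← QuotientGroup.mk_pow,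
          show (c⁻¹ * t') ^ Nat.card F = 1 from Subtype.ext h9, QuotientGroup.mk_one]
      · rw [← QuotientGroup.mk_pow, show t' ^ 2 = 1 from Subtype.ext ht2, QuotientGroup.mk_one]
    exact (mem_centralizer_subgroupOf hDL).1 (hy.centralizes h9 (l := 1) (Subtype.ext ht2))
  have := hodd t (Coprime.centralizer_pPrimeCore_le hH h0 (le_centralizer_iff.1 h2 (mem_zpowers t))) ht2
  rw [this, orderOf_one] at ht
  exact absurd ht (by decide)

theorem aStat (n : ℕ) : AStat.{u} n := by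
  induction n with
  | zero =>
    intro H V _ _ _ _ _ ρ hρ _ _ hU
    refine pLengthLE_zero_iff.2 (PExp.coprime fun x hx => hρ ?_)
    simpa [Unip, sub_eq_zero] using hU x hx
  | succ n ih => exact ih.succ

/-- The `2`-length of a `2`-solvable group is bounded by the exponent. -/
theorem pLengthLE_two (hG : IsPSolvable 2 G) (h : PExp 2 n G) : PLengthLE 2 n G := by
  rcases n with _ | n
  · exact pLengthLE_zero_iff.2 h.coprime
  obtain ⟨G₂, _, _, π, hπ, hc, hV, hC⟩ := exists_reduction hG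
  have h2 := h.of_surjective hπ
  refine pLengthLE_succ_of_ker_le ((aStat n).lin (Coprime.isPSolvable_of_surjective hG π hπ) hV
    (le_antisymm hC (le_centralizer_iff_isMulCommutative.2 hV.1)) Core.pCore_quotient_pCore
    fun s ⟨l, hl⟩ a ha => ?_) ((QuotientGroup.mk' _).comp π) fun x hx => ?_
  · obtain ⟨j, hj⟩ := (Core.isPGroup_pCore 2).to_sup_of_normal_left
      (Core.isPGroup_zpowers_of_pow_eq_one hl) ⟨_, mul_mem_sup ha (mem_zpowers _)⟩
    rw [h2 s ⟨l, hl⟩, h2 _ ⟨j, congrArg Subtype.val hj⟩]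
  · rw [← hc]; exact (QuotientGroup.eq_one_iff (π x)).1 hx

end Cfsg.Agent.Reg.TwoLen
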