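import Cfsg.Agent.Lib.Reg.DerLocal
import Cfsg.Agent.Lib.Reg.TwoLen

/-!
# The `2`-length is bounded by the derived length of a Sylow `2`-subgroup
-/

set_option autoImplicit false

namespace Cfsg.Agent.Reg.TwoDer

open Module Subgroup Cfsg.Agent.Mod Cfsg.Agent.Reg.TwoLen
open scoped commutatorElement

universe u

section Grp

variable {G G' : Type*} [Group G] [Group G'] {R S : Subgroup G}

variable (R S) in
/-- `[R, S, S', …, S^{(t-1)}]` -/
def gch : ℕ → Subgroup G
  | 0 => R
  | t + 1 => ⁅gch t, dser S t⁆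

theorem map_gch (f : G →* G') (t : ℕ) : (gch R S t).map f = gch (R.map f) (S.map f) t := by
  induction t with
  | zero => rfl
  | succ t ih => rw [gch, gch, map_commutator, ih, map_dser]

theorem gch_mono {T : Subgroup G} (h : S ≤ T) (t : ℕ) : gch R S t ≤ gch R T t := by
  induction t with
  | zero => exact le_rfl
  | succ t ih => exact commutator_mono ih (dser_mono h t)

theorem gch_le [R.Normal] (t : ℕ) : gch R S t ≤ R := by
  induction t with
  | zero => exact le_rfl
  | succ t ih => exact (commutator_mono ih le_rfl).trans (commutator_le_left _ _)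

theorem gch_le_dser (h : R ≤ S) (t : ℕ) : gch R S t ≤ dser S t := by
  induction t with
  | zero => exact h
  | succ t ih => exact commutator_mono ih le_rfl

theorem im_dser {L : Subgroup G} (f : L →* G') (h : S ≤ L) (t : ℕ) :
    im f (dser S t) = dser (im f S) t := by
  induction t with
  | zero => rfl
  | succ t ih => rw [dser_succ, dser_succ, im_commutator f ((dser_le S t).trans h)
      ((dser_le S t).trans h), ih]

/-- The local property of the `2`-subgroups. -/
def LocD (G₀ : Subgroup G) (n : ℕ) : Prop := ∀ S : Subgroup G, IsPGroup 2 S → dser S (n + 1) ≤ G₀ ∧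
  ⁅dser S (n + 1), S ⊓ G₀⁆ = ⊥ ∧ ∀ R ≤ S ⊓ G₀, (∀ r ∈ R, r * r = 1) → S ≤ normalizer (R : Set G) →
    ⁅R, dser S n⁆ ⊓ dser S (n + 1) = ⊥

theorem LocD.subgroup {G₀ : Subgroup G} {n : ℕ} (h : LocD G₀ n) (L : Subgroup G) :
    LocD (G₀.subgroupOf L) n := fun S hS => by
  obtain ⟨h1, h2, h3⟩ := h _ (hS.map L.subtype)
  have h4 : (S ⊓ G₀.subgroupOf L).map L.subtype ≤ S.map L.subtype ⊓ G₀ :=
    le_inf (map_mono inf_le_left) (map_le_iff_le_comap.2 inf_le_right)
  simp only [← map_dser] at h1 h2 h3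
  refine ⟨map_le_iff_le_comap.1 h1, ?_, fun R h5 h6 h7 => ?_⟩ <;>
    rw [← map_eq_bot_iff_of_injective _ L.subtype_injective, eq_bot_iff]
  · rw [map_commutator]; exact (commutator_mono le_rfl h4).trans h2.le
  · refine (map_inf_le _ _ _).trans (le_of_eq ?_)
    rw [map_commutator]
    exact h3 _ ((map_mono h5).trans h4) (by rintro _ ⟨r, hr, rfl⟩; exact congrArg Subtype.val (h6 r hr))
      ((map_mono h7).trans (le_normalizer_map _))

end Grp

section Loc

variable {k V : Type*} {H : Type u} [Field k] [Group H] [AddCommGroup V] [Module k V]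
  {ρ : Representation k H V} {c : Submodule k V} {n q : ℕ} {Q S : Subgroup H}
  [CharP k 2] [Finite H] [FiniteDimensional k V] [IsAlgClosed k]

theorem locD_at (h : Hyp ρ q Q) (hc : c ∈ comps ρ Q) (hS : IsPGroup 2 S)
    (h0 : chain ρ ⊤ S (n + 2) = ⊥) : dser S (n + 1) ≤ stab ρ c ∧
      ⁅dser S (n + 1), S ⊓ stab ρ c⁆ ≤ kerAt ρ c Q ∧ ∀ R ≤ S ⊓ stab ρ c, (∀ r ∈ R, r * r ∈ kerAt ρ c Q) →
        S ≤ normalizer (R : Set H) → ∀ u ∈ dser S (n + 1), ∀ u' ∈ ⁅R, dser S n⁆,
          u⁻¹ * u' ∈ kerAt ρ c Q → u ∈ kerAt ρ c Q := by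
  have := h.normal
  have hQ := h.card_ne (k := k) le_rfl
  obtain ⟨j, t, hj, h1, h2⟩ := exists_dser_le_stab hS hQ le_normalizer_of_normal hc h0
  obtain ⟨U, hUc, hU, h3⟩ := exists_isIrr_isInv (hS.to_inf_left (K := stab ρ c)) hQ
    le_normalizer_of_normal hc inf_le_right
  obtain ⟨G', _, _, f, σ, hf⟩ := exists_isFaithfulOn (isInv_stab (ρ := ρ) U)
  have hQU := isInv_iff_le_stab.1 hU.inv
  have hy : Hyp σ q (im f Q) := ⟨hf.inj, h.prime, h.ne, normal_im f hf.surj le_normalizer_of_normal, by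
    rw [← im_commutator f hQU hQU]
    rintro _ ⟨x, hx, rfl⟩
    exact mem_centralizer_im f (h.two hx), by
    rintro _ ⟨x, hx, rfl⟩
    rw [← map_pow, show x ^ q = 1 from Subtype.ext (h.exp _ hx), map_one]⟩
  have hi : IsIrr σ (im f Q) ⊤ := ⟨isInv_top _, fun e => hU.ne_bot (by
    rw [← U.map_subtype_top, e, Submodule.map_bot]), fun W _ hW => by
      refine (hU.eq_bot_or_eq _ (U.map_subtype_le W) ?_).imp
        (fun e => Submodule.map_injective_of_injective U.injective_subtype
          (e.trans (Submodule.map_bot _).symm)) fun e =>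
          Submodule.map_injective_of_injective U.injective_subtype (e.trans U.map_subtype_top.symm)
      rintro g hg _ ⟨w, hw, rfl⟩
      exact ⟨_, hW _ (mem_im f (x := ⟨g, hQU hg⟩) hg) w hw, hf.apply _ _⟩⟩
  have hk : ∀ x : stab ρ U, x.1 ∈ S ⊓ stab ρ c → (f x = 1 ↔ x.1 ∈ kerAt ρ c Q) := fun x hx => by
    refine ⟨fun e => ⟨hx.2, fun a ha => kerOn_le_scal _ ?_⟩, fun e => ?_⟩
    · rw [IsIrr.eq_hcomp_of_le hQ hc hU hUc,
        kerOn_hcomp (commutator_le_left Q ⊤ (commutator_mem_commutator ha (mem_top _)))]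
      exact (hf.eq_one_iff (g := ⁅(⟨a, hQU ha⟩ : stab ρ U), x⁆)).1 (by simp [e])
    · obtain ⟨l, hl⟩ := hS ⟨_, hx.1⟩
      refine eq_one_of_two hy hi (l := l) (by
        rw [← map_pow, show x ^ 2 ^ l = 1 from Subtype.ext (congrArg Subtype.val hl :), map_one]) ?_
      rintro _ ⟨a, ha, rfl⟩
      rw [← map_commutatorElement]
      exact scal_top_le_center hf.inj (hf.mem_scal_iff.2 (scal_anti hUc (e.2 a ha)))
  have hA : dser S (n + 1) ≤ S ⊓ stab ρ c :=
    le_inf (dser_le _ _) ((dser_anti S (hj ▸ Nat.le_add_right j t)).trans h1)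
  have hm : ∀ x v, U.subtype (σ (f x) v) = ρ ((stab ρ U).subtype x) (U.subtype v) := hf.apply
  have h4 : cm σ (cm σ ⊤ (im f (dser S (n + 1)))) (im f (dser S (n + 1))) = ⊥ := by
    refine Submodule.map_injective_of_injective U.injective_subtype ?_
    rw [Submodule.map_bot, eq_bot_iff, ← h0]
    exact (map_cm_le hm _ _).trans (cm_mono ((map_cm_le hm _ _).trans ((cm_mono le_top
      (map_comap_le _ _)).trans (cm_top_dser_le _))) (map_comap_le _ _))
  have h5 : ∀ a s : stab ρ U, a.1 ∈ dser S (n + 1) → s.1 ∈ S → Commute (f s) (f a) := fun a s ha hs => by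
    by_cases e : f a = 1
    · rw [e]; exact Commute.one_right _
    have := eq_of_quadratic hy hi h4 (mem_im f (x := s * a * s⁻¹) (conj_mem
      (normalizer_le_normalizer_dser S _ (le_normalizer hs)) ha)) (mem_im f ha) (by simpa using e) e
    rwa [map_mul, map_mul, map_inv, mul_inv_eq_iff_eq_mul] at this
  refine ⟨hA.trans inf_le_right, commutator_le.2 fun a ha s hs => (hk ⁅(⟨a, h3 (hA ha)⟩ : stab ρ U), ⟨s, h3 hs⟩⁆
    (Coprime.commutator_le_of_le_normalizer le_normalizer (commutator_mem_commutator (hA ha) hs))).1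
      (by rw [map_commutatorElement, (h5 _ _ ha hs.1).symm.commutator_eq]),
    fun R hR h6 h7 u hu u' hu' h8 => (hk ⟨u, h3 (hA hu)⟩ (hA hu)).1 ?_⟩
  rcases t with _ | t
  · obtain rfl : j = n + 1 := hj
    exact hf.eq_one_iff.2 fun w hw => sub_eq_zero.1 (h2.le (sub_mem_cm hu (hUc hw)))
  obtain rfl : j + t = n := Nat.succ_injective hj
  have hD : dser S j ≤ stab ρ U := (le_inf (dser_le _ _) h1).trans h3
  have h9 : u' ∈ R := Coprime.commutator_le_of_le_normalizer ((dser_le _ _).trans h7) hu'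
  have h10 : f ⟨u, h3 (hA hu)⟩ = f ⟨u', h3 (hR h9)⟩ := by
    rw [← inv_mul_eq_one, ← map_inv, ← map_mul]
    exact (hk _ (mul_mem (inv_mem (hA hu)) (hR h9))).2 h8
  have h11 : ∀ t, dser (im f (dser S j)) t = im f (dser S (j + t)) := fun t => by
    rw [dser_add, im_dser f hD]
  by_contra hne
  have h12 := le_centralizer_dser hy hi (R := im f R) (D := im f (dser S j)) (t := t) (by
      rintro _ ⟨r, hr, rfl⟩
      rw [← map_mul]
      exact (hk (r * r) (hR (R.mul_mem hr hr))).2 (h6 _ hr)) (isPGroup_im f (hS.to_le (dser_le _ _)))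
    (im_le_normalizer f ((dser_le _ _).trans h7)) (h10 ▸ mem_im f h9) hne (by
      rw [h11]
      rintro _ ⟨s, hs, rfl⟩
      exact h5 _ s hu (dser_le _ _ hs)) fun w hw => mem_fix_zpowers.2 (sub_eq_zero.1 (by
        have h13 := map_chain_le hm ⊤ ((dser S j).subgroupOf _) (t + 2) ⟨_, sub_mem_cm
          (h11 (t + 1) ▸ mem_im f (x := ⟨u, h3 (hA hu)⟩) hu) hw, rfl⟩
        exact Subtype.ext (h2.le (chain_mono ((U.map_subtype_le _).trans hUc)
          (map_comap_le _ _) _ h13))))
  rw [h11, ← commutator_eq_bot_iff_le_centralizer, ← im_commutator f (hR.trans h3)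
    ((dser_anti S (Nat.le_add_right j t)).trans hD)] at h12
  exact hne (h10 ▸ h12.le (mem_im f hu'))

theorem locD (h : Hyp ρ q Q) (hn : ∀ S : Subgroup H, IsPGroup 2 S → chain ρ ⊤ S (n + 2) = ⊥)
    {G : Type*} [Group G] {π : H →* G} (hπ : Function.Surjective π)
    (hk : π.ker = ⨅ c ∈ comps ρ Q, kerAt ρ c Q) : LocD ((⨅ c ∈ comps ρ Q, stab ρ c).map π) n := by
  intro S' hS'
  obtain ⟨S, -, hS, rfl⟩ := exists_isPGroup_map_eq (f := π) (K := ⊤) hS'
    (by rw [map_top_of_surjective _ hπ]; exact le_top)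
  have key := fun c hc => locD_at h (c := c) hc hS (hn S hS)
  have h1 : ((⨅ c ∈ comps ρ Q, stab ρ c).map π).comap π = ⨅ c ∈ comps ρ Q, stab ρ c :=
    comap_map_eq_self (hk.le.trans (iInf₂_mono fun _ _ _ hx => hx.1))
  have h2 : ∀ c ∈ comps ρ Q, π.ker ≤ kerAt ρ c Q := fun c hc => hk.le.trans (iInf₂_le c hc)
  have h3 : ∀ R ≤ S.map π, (S ⊓ R.comap π).map π = R := fun R hR => le_antisymm
    (map_le_iff_le_comap.2 inf_le_right) fun x hx => by
      obtain ⟨y, hy, rfl⟩ := hR hx
      exact ⟨y, ⟨hy, hx⟩, rfl⟩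
  have h4 : ∀ R ≤ (⨅ c ∈ comps ρ Q, stab ρ c).map π, ∀ c ∈ comps ρ Q, S ⊓ R.comap π ≤ S ⊓ stab ρ c :=
    fun R hR c hc => inf_le_inf_left _ ((comap_mono hR).trans (h1.le.trans (iInf₂_le c hc)))
  simp only [← map_dser]
  refine ⟨map_mono (le_iInf₂ fun c hc => (key c hc).1), ?_, fun R hR h5 h6 => eq_bot_iff.2 ?_⟩
  · rw [← h3 _ inf_le_left, ← map_commutator, Subgroup.map_eq_bot_iff, hk]
    exact le_iInf₂ fun c hc => (commutator_mono le_rfl (h4 _ inf_le_right c hc)).trans (key c hc).2.1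
  rintro _ ⟨h7, u, hu, rfl⟩
  rw [← h3 R (hR.trans inf_le_left), ← map_commutator] at h7
  obtain ⟨u', hu', e⟩ := h7
  refine (hk.ge (mem_iInf.2 fun c => mem_iInf.2 fun hc => (key c hc).2.2 _
    (h4 R (hR.trans inf_le_right) c hc) (fun r hr => h2 c hc ?_) (Core.le_normalizer_inf le_normalizer
      ((map_le_iff_le_comap.1 h6).trans (le_normalizer_comap _))) u hu u' hu' (h2 c hc ?_)) :)
  · rw [MonoidHom.mem_ker, map_mul, h5 _ hr.2]
  · rw [MonoidHom.mem_ker, map_mul, map_inv, e, inv_mul_cancel]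

end Loc

/-- Linear groups whose `2`-subgroups have short chains have bounded `2`-length. -/
def AStat (n : ℕ) : Prop := ∀ (H V : Type u) [Group H] [Finite H] [AddCommGroup V]
  [Module (AlgebraicClosure (ZMod 2)) V] [FiniteDimensional (AlgebraicClosure (ZMod 2)) V]
  (ρ : Representation (AlgebraicClosure (ZMod 2)) H V), Function.Injective ρ → IsPSolvable 2 H →
    pCore 2 H = ⊥ → (∀ S : Subgroup H, IsPGroup 2 S → chain ρ ⊤ S (n + 1) = ⊥) → PLengthLE 2 n H

variable {n : ℕ} {G : Type u} [Group G] [Finite G]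

theorem AStat.lin (hA : AStat.{u} n) (hG : IsPSolvable 2 G) {V N : Subgroup G} [V.Normal] [N.Normal]
    (hV : IsElementaryAbelian 2 V) (hN : centralizer (V : Set G) = N) (h0 : pCore 2 (G ⧸ N) = ⊥)
    (h : ∀ S : Subgroup G, IsPGroup 2 S → gch V S (n + 1) = ⊥) : PLengthLE 2 n (G ⧸ N) := by
  obtain ⟨W, _, _, _, ρ, ι, hl⟩ := exists_isLin (AlgebraicClosure (ZMod 2)) hV
  obtain rfl : ρ.ker = N := hl.ker_eq.trans hN
  refine hA _ W (kerRep ρ) kerRep_injective (Coprime.isPSolvable_quotient hG _) h0 fun S' hS' => ?_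
  obtain ⟨S, -, hS, rfl⟩ := exists_isPGroup_map_eq (f := QuotientGroup.mk' _) (K := ⊤) hS'
    (by rw [map_top_of_surjective _ (QuotientGroup.mk'_surjective _)]; exact le_top)
  have key : ∀ t, chain (kerRep ρ) ⊤ (S.map (QuotientGroup.mk' _)) t ≤
      Submodule.span _ (ι '' gch V S t) := fun t => by
    induction t with
    | zero => exact hl.span_top.ge
    | succ t ih =>
      refine (cm_mono ih le_rfl).trans (cm_le.2 ?_)
      rw [← map_dser]
      rintro _ ⟨g, hg, rfl⟩ w hw
      refine (Submodule.span_le (p := Submodule.comap (ρ g - 1)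
        (Submodule.span _ (ι '' gch V S (t + 1))))).2 ?_ hw
      rintro _ ⟨a, ha, rfl⟩
      exact Submodule.subset_span ⟨_, (commutator_comm _ _).le (commutator_mem_commutator hg ha),
        hl.commutator g (gch_le t ha)⟩
  simpa [h S hS, hl.map_one] using key (n + 1)

theorem AStat.centralizes (hA : AStat.{u} n) (hG : IsPSolvable 2 G) {T G₀ K : Subgroup G} [T.Normal]
    [G₀.Normal] [hKn : K.Normal] (hT : IsPGroup 2 T) (hL : LocD G₀ n)
    (hK : ∀ {G' : Type u} [Group G'] [Finite G'] (f : G →* G'), PLengthLE 2 n G' → K ≤ f.ker)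
    {x : G} (hx : x ∈ K) (ho : Odd (orderOf x)) : x ∈ centralizer (T : Set G) := by
  set S : Set G := {x | x ∈ K ∧ Odd (orderOf x)}
  set K₁ := normalClosure S
  have hK₁ : K₁ ≤ K := normalClosure_le_normal fun x hx => hx.1
  by_contra hne
  obtain ⟨R, hRT, ⟨hRn, hR⟩, hmin⟩ := Core.exists_minimal_le
    (P := fun R : Subgroup G => R.Normal ∧ ¬ R ≤ centralizer K₁) (H := T)
    ⟨inferInstance, fun h => hne (le_centralizer_iff.1 h (subset_normalClosure ⟨hx, ho⟩))⟩
  set R₁ := R ⊓ centralizer (K₁ : Set G)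
  have hmin' : ∀ N : Subgroup G, N.Normal → N ≤ R → N ≤ R₁ ∨ N = R := fun N hN h =>
    or_iff_not_imp_right.2 fun h' => le_inf h (by_contra fun h'' => h' (hmin N ⟨hN, h''⟩ h))
  have hR₁ : ¬ R ≤ R₁ := fun h => hR (h.trans inf_le_right)
  have hRp := hT.to_le hRT
  have h1 : ⁅R, K₁⁆ = R := (hmin' _ inferInstance (commutator_le_left _ _)).resolve_left fun h => by
    refine hR (le_centralizer_iff.1 (normalClosure_le_normal fun y hy a ha => ?_))
    have h2 := commutator_mem_commutator ha (subset_normalClosure hy : y ∈ K₁)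
    obtain ⟨l, hl⟩ := hRp ⟨_, (h h2).1⟩
    exact commutatorElement_eq_one_iff_mul_comm.1 (commute_of_coprime
      ((h h2).2 y (subset_normalClosure hy)).symm (Nat.coprime_two_right.2 hy.2 |>.pow_right l)
      (pow_orderOf_eq_one y) (congrArg Subtype.val hl))
  have hX := Core.isMinNormal_map_of_isChiefFactor (U := R) (W := R₁)
    ⟨lt_of_le_not_ge inf_le_left hR₁, hRn, inferInstance, fun N hN h3 h4 =>
      (hmin' N hN h4).imp_left fun h5 => h5.antisymm h3⟩
  have hXp := hRp.map (QuotientGroup.mk' R₁)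
  have hE := hX.isElementaryAbelian_of_isPGroup hXp
  have := hX.normal
  have h6 := hA.lin (Coprime.isPSolvable_quotient hG R₁) hE rfl (pCore_quotient_centralizer hX hXp)
    fun D' hD' => by
      obtain ⟨D, -, hD, rfl⟩ := exists_isPGroup_map_eq (f := QuotientGroup.mk' _) (K := ⊤) hD'
        (by rw [map_top_of_surjective _ (QuotientGroup.mk'_surjective _)]; exact le_top)
      rw [← map_gch, Core.map_mk_eq_bot_iff]
      refine (gch_mono (le_sup_right : D ≤ R ⊔ D) _).trans (by_contra fun h7 => ?_)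
      obtain ⟨h8, h9, h10⟩ := hL _ (hRp.to_sup_of_normal_left hD)
      have h11 := gch_le_dser (le_sup_left : R ≤ R ⊔ D) (n + 1)
      have h12 : R ≤ (R ⊔ D) ⊓ G₀ := le_inf le_sup_left (inf_eq_left.1 ((hmin' _ inferInstance
        inf_le_left).resolve_left fun h => h7 ((le_inf (gch_le _) (h11.trans h8)).trans h)))
      have h13 : R ⊓ centralizer R = R := (hmin' _ inferInstance inf_le_left).resolve_left fun h =>
        h7 ((le_inf (gch_le _) (commutator_eq_bot_iff_le_centralizer.1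
          (eq_bot_iff.2 ((commutator_mono h11 h12).trans h9.le)))).trans h)
      have hc := le_centralizer_iff_isMulCommutative.1 (h13.ge.trans inf_le_right)
      have h14 : ⁅R, K₁⁆ ≤ Core.powKer _ hc 2 := commutator_le.2 fun a ha b hb => by
        refine ⟨commutator_le_left _ _ (commutator_mem_commutator ha hb), ?_⟩
        have h15 : a ^ 2 ∈ R₁ := by
          rw [← QuotientGroup.eq_one_iff, QuotientGroup.mk_pow]
          exact hE.2 _ ⟨a, ha, rfl⟩
        rw [show ⁅a, b⁆ = a * (b * a⁻¹ * b⁻¹) by simp only [commutatorElement_def]; group,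
          Commute.mul_pow (Core.mul_comm_of_mem_of_isMulCommutative hc ha
            (hRn.conj_mem _ (inv_mem ha) b)), conj_pow, inv_pow,
          (show Commute b (a ^ 2) from h15.2 b hb).inv_right.eq, mul_inv_cancel_right, mul_inv_cancel]
      exact h7 ((le_inf (commutator_mono (gch_le _) le_rfl) h11).trans ((h10 R h12
        (fun r hr => (sq r).symm.trans (h14 (h1.ge hr)).2) le_normalizer_of_normal).le.trans bot_le))
  have h7 := hK₁.trans (hK ((QuotientGroup.mk' _).comp (QuotientGroup.mk' R₁)) h6)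
  refine hR₁ (h1.ge.trans (commutator_le.2 fun a ha b hb => ?_))
  rw [← QuotientGroup.eq_one_iff, ← QuotientGroup.mk'_apply, map_commutatorElement,
    commutatorElement_eq_one_iff_mul_comm]
  exact (QuotientGroup.eq_one_iff _).1 (h7 hb) _ ⟨a, ha, rfl⟩

theorem AStat.of_loc (hA : AStat.{u} n) (hG : IsPSolvable 2 G) {G₀ : Subgroup G} [G₀.Normal]
    (hL : LocD G₀ n) : PLengthLE 2 (n + 1) G := by
  obtain ⟨T, hT⟩ := Coprime.exists_isSylowIn 2 (pPrimePCore 2 G)
  have h1 := hT.frattini_argument le_top le_normalizer_of_normal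
  rw [top_inf_eq] at h1
  set L := normalizer (T : Set G)
  obtain ⟨K, hKn, h2, hK⟩ := exists_residual 2 n L
  have hf : Function.Surjective ((QuotientGroup.mk' (pPrimePCore 2 G)).comp L.subtype) := by
    rw [← MonoidHom.range_eq_top, MonoidHom.range_comp, range_subtype, eq_top_iff,
      ← map_top_of_surjective _ (QuotientGroup.mk'_surjective _), Core.map_mk_le_map_mk_iff, sup_comm, h1]
  refine pLengthLE_succ_of_quotient (pLengthLE_of_le_ker h2 hf ?_)
  have h3 : ∀ x ∈ K, ∃ l, x.1 ^ 2 ^ l ∈ pPrimePCore 2 G := fun x hx => by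
    obtain ⟨l, hl⟩ := Transfer.exists_pow_pow_coprime (p := 2) x
    exact ⟨l, Coprime.centralizer_le_pPrimePCore hG hT ((mem_centralizer_subgroupOf le_normalizer).1
      (hA.centralizes (Coprime.isPSolvable_subgroup hG L) (Coprime.isPGroup_subgroupOf hT.2.1 L)
        (hL.subgroup L) hK (pow_mem hx _) (Nat.coprime_two_right.1 hl)))⟩
  have hn := ((hKn.map _ hf).comap (QuotientGroup.mk' (pPrimePCore 2 G))).map _
    (QuotientGroup.mk'_surjective (pPrimeCore 2 G))
  have h4 := Core.le_pCore (hN := hn) (p := 2) (Core.isPGroup_of_forall_mem (by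
    rintro _ ⟨x, ⟨y, hy, e⟩, rfl⟩
    obtain ⟨l, hl⟩ := h3 y hy
    have h5 : x ^ 2 ^ l ∈ pPrimePCore 2 G := by
      rw [← QuotientGroup.eq_one_iff, ← QuotientGroup.mk'_apply, map_pow, ← e, ← map_pow]
      exact (QuotientGroup.eq_one_iff _).2 hl
    obtain ⟨j, hj⟩ := Core.isPGroup_pCore 2 ⟨_, h5⟩
    exact ⟨l + j, by rw [pow_add, pow_mul, ← map_pow]; exact congrArg Subtype.val hj⟩))
  exact fun x hx => (QuotientGroup.eq_one_iff _).2 (h4 ⟨x, ⟨x, hx, rfl⟩, rfl⟩)

theorem AStat.succ (hA : AStat.{u} n) : AStat.{u} (n + 1) := by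
  intro H V _ _ _ _ _ ρ hρ hH h0 hU
  obtain ⟨K, hKn, h1, hK⟩ := exists_residual 2 (n + 1) H
  by_contra hne
  obtain ⟨t, htK, ht⟩ := Core.exists_mem_orderOf_eq_of_dvd_card (p := 2) (H := K) (by_contra fun h =>
    hne (pLengthLE_of_quotient_coprime K ((Nat.prime_two.coprime_iff_not_dvd.2 h).symm) h1))
  set F := pPrimeCore 2 H
  have hF : (Nat.card F).Coprime 2 := Core.coprime_card_pPrimeCore 2
  have hodd : ∀ x ∈ F, x ^ 2 = 1 → x = 1 := fun x hx h => orderOf_eq_one_iff.1
    (Nat.eq_one_of_dvd_coprimes hF (F.orderOf_dvd_natCard hx) (orderOf_dvd_of_pow_eq_one h))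
  have ht2 : t ^ 2 = 1 := ht ▸ pow_orderOf_eq_one t
  have hcop : ∀ P ≤ F, (Nat.card (zpowers t)).Coprime (Nat.card P) := fun P hP => by
    rw [Nat.card_zpowers, ht]; exact (hF.of_dvd_left (card_dvd_of_le hP)).symm
  have h2 : F ≤ centralizer (zpowers t) := Coprime.le_of_forall_isSylowIn fun q hq hd => by
    have := Fact.mk hq
    obtain ⟨P, hP, hn⟩ := Coprime.exists_invariant_sylow q le_normalizer_of_normal (hcop F le_rfl)
      (Or.inl inferInstance)
    have hq2 : q ≠ 2 := by rintro rfl; exact Nat.prime_two.coprime_iff_not_dvd.1 hF.symm hd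
    obtain ⟨D, hDP, h2, h3, h4, h5⟩ := PGrp.exists_critical_subgroup_odd hq2 hP.2.1
    refine ⟨P, hP, le_centralizer_iff.1 (h5 _ hn (hcop P hP.1) (zpowers_le.2 ?_))⟩
    have h6 := hP.frattini_argument le_top le_normalizer_of_normal
    rw [top_inf_eq] at h6
    set L := normalizer (P : Set H)
    have hDL : D ≤ L := hDP.trans le_normalizer
    have hy : Hyp (ρ.comp L.subtype) q (D.subgroupOf L) :=
      ⟨hρ.comp L.subtype_injective, hq, hq2, Core.normal_subgroupOf_of_le_normalizer h2, by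
        rw [commutator_subgroupOf hDL hDL, centralizer_subgroupOf hDL]
        exact comap_mono ((commutator_mono le_rfl hDP).trans h3), fun x hx => Subtype.ext (h4 x hx)⟩
    have := hy.normal
    have hC := normal_iInf_kerAt (ρ := ρ.comp L.subtype) (Q := D.subgroupOf L)
    set C := ⨅ c ∈ comps (ρ.comp L.subtype) (D.subgroupOf L), kerAt (ρ.comp L.subtype) c (D.subgroupOf L)
    have := (normal_iInf_stab (ρ := ρ.comp L.subtype) (Q := D.subgroupOf L)).map _
      (QuotientGroup.mk'_surjective C)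
    have h7 := hA.of_loc (Coprime.isPSolvable_quotient (Coprime.isPSolvable_subgroup hH L) C)
      (locD hy (fun S hS => eq_bot_iff.2 (by
        simpa [hU _ (hS.map L.subtype)] using map_chain_le (ρ := ρ) (σ := ρ.comp L.subtype)
          (α := L.subtype) (β := MonoidHom.id L) (f := LinearMap.id) (fun _ _ => rfl) ⊤ S (n + 2)))
        (QuotientGroup.mk'_surjective C) (QuotientGroup.ker_mk' C))
    have hf : Function.Surjective ((QuotientGroup.mk' F).comp L.subtype) := by
      rw [← MonoidHom.range_eq_top, MonoidHom.range_comp, range_subtype, eq_top_iff,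
        ← map_top_of_surjective _ (QuotientGroup.mk'_surjective _), Core.map_mk_le_map_mk_iff, sup_comm, h6]
    have := hC.map _ hf
    have h8 := hK ((QuotientGroup.mk' (C.map ((QuotientGroup.mk' F).comp L.subtype))).comp
      (QuotientGroup.mk' F)) (pLengthLE_of_le_ker h7 (f := (QuotientGroup.mk' _).comp
        ((QuotientGroup.mk' F).comp L.subtype)) ((QuotientGroup.mk'_surjective _).comp hf) fun x hx => (QuotientGroup.eq_one_iff _).2 ⟨x, hx, rfl⟩) htK
    obtain ⟨c, hc, e⟩ := (QuotientGroup.eq_one_iff _).1 h8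
    let t' : L := ⟨t, hn (mem_zpowers t)⟩
    have h9 : t' ∈ C := by
      have h9 : (c⁻¹ * t').1 ^ Nat.card F = 1 :=
        congrArg Subtype.val (pow_card_eq_one' (x := (⟨_, QuotientGroup.eq.1 e⟩ : F)))
      rw [← QuotientGroup.eq_one_iff, ← orderOf_eq_one_iff]
      refine Nat.eq_one_of_dvd_coprimes hF (orderOf_dvd_of_pow_eq_one ?_) (orderOf_dvd_of_pow_eq_one ?_)
      · rw [show (t' : L ⧸ C) = ↑(c⁻¹ * t') by rw [QuotientGroup.mk_mul,
          (QuotientGroup.eq_one_iff _).2 (inv_mem hc), one_mul], ← QuotientGroup.mk_pow,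
          show (c⁻¹ * t') ^ Nat.card F = 1 from Subtype.ext h9, QuotientGroup.mk_one]
      · rw [← QuotientGroup.mk_pow, show t' ^ 2 = 1 from Subtype.ext ht2, QuotientGroup.mk_one]
    exact (mem_centralizer_subgroupOf hDL).1 (hy.centralizes h9 (l := 1) (Subtype.ext ht2))
  have := hodd t (Coprime.centralizer_pPrimeCore_le hH h0 (le_centralizer_iff.1 h2 (mem_zpowers t))) ht2
  rw [this, orderOf_one] at ht
  exact absurd ht (by decide)

theorem coprime_two (h : ∀ S : Subgroup G, IsPGroup 2 S → S = ⊥) : (Nat.card G).Coprime 2 :=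
  PExp.coprime fun x ⟨_, hl⟩ => by simpa using h _ (Core.isPGroup_zpowers_of_pow_eq_one hl)

theorem aStat (n : ℕ) : AStat.{u} n := by
  induction n with
  | zero =>
    intro H V _ _ _ _ _ ρ hρ _ _ hU
    exact pLengthLE_zero_iff.2 (coprime_two fun S hS => eq_bot_iff.2 fun x hx => hρ (LinearMap.ext
      fun v => by simpa [sub_eq_zero] using (hU S hS).le (sub_mem_cm hx (w := v) trivial)))
  | succ n ih => exact ih.succ

/-- The `2`-length of a `2`-solvable group is bounded by the derived length. -/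
theorem pLengthLE_two (hG : IsPSolvable 2 G) (h : ∀ S : Subgroup G, IsPGroup 2 S → dser S n = ⊥) :
    PLengthLE 2 n G := by
  rcases n with _ | n
  · exact pLengthLE_zero_iff.2 (coprime_two h)
  obtain ⟨G₂, _, _, π, hπ, hc, hV, hC⟩ := exists_reduction hG
  refine pLengthLE_succ_of_ker_le ((aStat n).lin (Coprime.isPSolvable_of_surjective hG π hπ) hV
    (le_antisymm hC (le_centralizer_iff_isMulCommutative.2 hV.1)) Core.pCore_quotient_pCore
    fun S hS => ?_) ((QuotientGroup.mk' _).comp π) fun x hx => ?_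
  · obtain ⟨T, -, hT, e⟩ := exists_isPGroup_map_eq (f := π) (K := ⊤)
      ((Core.isPGroup_pCore 2).to_sup_of_normal_left hS)
      (by rw [map_top_of_surjective _ hπ]; exact le_top)
    refine eq_bot_iff.2 ((gch_mono le_sup_right _).trans ((gch_le_dser le_sup_left _).trans ?_))
    rw [← e, ← map_dser, h T hT, Subgroup.map_bot]
  · rw [← hc]; exact (QuotientGroup.eq_one_iff (π x)).1 hx

end Cfsg.Agent.Reg.TwoDer
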