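import Mathlib

/-!
# Exceptional `2`-elements acting on a symplectic section

Local computations for the bound `l₂ ≤ e₂` on the `2`-length.  A group `Γ` acts faithfully on an
abelian group `E` of odd order, `z = h ^ 2 ^ b` is an involution whose `-1`-eigenspace is "rigid"
(two dimensional, in the application) and `h` fixes the `+1`-eigenspace of `z`.
-/

set_option autoImplicit false

namespace Cfsg.Agent.Reg.TwoLen

open scoped commutatorElement

variable {Γ E : Type*} [Group Γ] [AddCommGroup E] [DistribMulAction Γ E]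

variable (E) in
/-- `2` is invertible on `E`. -/
structure OddE : Prop where
  inj : ∀ v : E, v + v = 0 → v = 0
  surj : ∀ v : E, ∃ w, w + w = v

theorem OddE.eq_zero_of_eq_neg (hE : OddE E) {v : E} (h : v = -v) : v = 0 :=
  hE.inj v (by nth_rewrite 1 [h]; exact neg_add_cancel v)

theorem OddE.decomp (hE : OddE E) {z : Γ} (hz : z * z = 1) (v : E) :
    ∃ a b, z • a = -a ∧ z • b = b ∧ v = a + b := by
  obtain ⟨w, rfl⟩ := hE.surj v
  refine ⟨w - z • w, w + z • w, ?_, ?_, by abel⟩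
  · rw [smul_sub, ← mul_smul, hz, one_smul]; abel
  · rw [smul_add, ← mul_smul, hz, one_smul]; abel

theorem OddE.ext [FaithfulSMul Γ E] (hE : OddE E) {z x y : Γ} (hz : z * z = 1)
    (h1 : ∀ v : E, z • v = -v → x • v = y • v) (h2 : ∀ v : E, z • v = v → x • v = y • v) :
    x = y := eq_of_smul_eq_smul fun v : E => by
  obtain ⟨a, b, ha, hb, rfl⟩ := hE.decomp hz v
  rw [smul_add, smul_add, h1 a ha, h2 b hb]

theorem neg_of_commute {x z : Γ} (h : Commute x z) {v : E} (hv : z • v = -v) :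
    z • x • v = -(x • v) := by rw [← mul_smul, ← h.eq, mul_smul, hv, smul_neg]

theorem fix_of_commute {x z : Γ} (h : Commute x z) {v : E} (hv : z • v = v) :
    z • x • v = x • v := by rw [← mul_smul, ← h.eq, mul_smul, hv]

theorem pow_smul_of_fix {x : Γ} {v : E} (h : x • v = v) (n : ℕ) : x ^ n • v = v := by
  induction n with
  | zero => simp
  | succ n ih => rw [pow_succ, mul_smul, h, ih]

theorem inv_smul_of_fix {x : Γ} {v : E} (h : x • v = v) : x⁻¹ • v = v := by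
  rw [inv_smul_eq_iff, h]

variable (E) in
/-- The exceptional elements. -/
structure Special (𝒢 : Subgroup Γ) (h : Γ) (b : ℕ) : Prop where
  pos : 1 ≤ b
  fix : ∀ v : E, h ^ 2 ^ b • v = v → h • v = v
  rigid : ∀ γ ∈ 𝒢, (∀ v : E, h ^ 2 ^ b • v = -v → h ^ 2 ^ b • γ • v = -(γ • v)) →
    (∀ v : E, h ^ 2 ^ b • v = -v → γ • γ • v = v) →
    (∀ v : E, h ^ 2 ^ b • v = -v → γ • v = v) ∨ (∀ v : E, h ^ 2 ^ b • v = -v → γ • v = -v)

/-- The subgroups on which the exceptional elements act. -/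
structure Pair (𝒢 R Y : Subgroup Γ) : Prop where
  le : Y ≤ R
  leG : R ≤ 𝒢
  sq : ∀ y ∈ Y, y * y = 1
  cent : ∀ y ∈ Y, ∀ r ∈ R, Commute y r
  sqR : ∀ r ∈ R, r * r ∈ Y

theorem Pair.commutator_mem {𝒢 R Y : Subgroup Γ} (hP : Pair 𝒢 R Y) {r s : Γ} (hr : r ∈ R)
    (hs : s ∈ R) : ⁅r, s⁆ ∈ Y := by
  have : ⁅r, s⁆ = r * r * (r⁻¹ * s * (r⁻¹ * s)) * (s * s)⁻¹ := by
    simp only [commutatorElement_def]; group
  rw [this]
  exact mul_mem (mul_mem (hP.sqR r hr) (hP.sqR _ (mul_mem (inv_mem hr) hs))) (inv_mem (hP.sqR s hs))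

theorem conj_mem {K : Subgroup Γ} {x k : Γ} (hx : x ∈ Subgroup.normalizer (K : Set Γ))
    (hk : k ∈ K) : x * k * x⁻¹ ∈ K := (Subgroup.mem_normalizer_iff.1 hx k).1 hk

theorem commute_of_sq {x z : Γ} (hx : x * x = 1) (hz : z * z = 1) (h : x * z * (x * z) = 1) :
    Commute x z := by
  have h1 : x * z = (x * z)⁻¹ := eq_inv_of_mul_eq_one_left h
  rw [mul_inv_rev, inv_eq_of_mul_eq_one_left hx, inv_eq_of_mul_eq_one_left hz] at h1
  exact h1

section

variable [FaithfulSMul Γ E] (hE : OddE E) {𝒢 : Subgroup Γ} {h z : Γ} {b : ℕ}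
  (hS : Special E 𝒢 h b) (hz : z = h ^ 2 ^ b) (hz2 : z * z = 1) (hz1 : z ≠ 1) (hh : h ∈ 𝒢)

include hE hz2 hz1 in
theorem exists_neg : ∃ v : E, z • v = -v ∧ v ≠ 0 := by
  by_contra hne
  push Not at hne
  exact hz1 (hE.ext hz2 (fun v hv => by rw [hne v hv, smul_zero, smul_zero])
    fun v hv => by rw [hv, one_smul])

include hE hS hz hz2 hz1 hh in
theorem dichotomy {r : Γ} (hr : r ∈ 𝒢) (hc : Commute (r * z * r⁻¹) z) :
    Commute r z ∨ ∀ v : E, z • v = -v → z • r • v = r • v := by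
  have hzG : z ∈ 𝒢 := hz ▸ pow_mem hh _
  have hc' : Commute (r⁻¹ * z * r) z := by
    have := hc.symm.map (MulAut.conj r⁻¹)
    simpa [mul_assoc] using this
  have hs := hS.rigid
  rw [← hz] at hs
  rcases hs (r⁻¹ * z * r) (mul_mem (mul_mem (inv_mem hr) hzG) hr)
    (fun v hv => neg_of_commute hc' hv) (fun v _ => by
      rw [← mul_smul, show r⁻¹ * z * r * (r⁻¹ * z * r) = r⁻¹ * (z * z) * r by group, hz2]
      simp) with h1 | h1
  · exact Or.inr fun v hv => by
      have := h1 v hv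
      rwa [mul_smul, mul_smul, inv_smul_eq_iff] at this
  left
  have h2 : ∀ v : E, z • v = -v → z • r • v = -(r • v) := fun v hv => by
    have := h1 v hv
    rwa [mul_smul, mul_smul, inv_smul_eq_iff, smul_neg] at this
  have key : r * z * r⁻¹ = z := by
    rcases hs (r * z * r⁻¹) (mul_mem (mul_mem hr hzG) (inv_mem hr))
      (fun v hv => neg_of_commute hc hv) (fun v _ => by
        rw [← mul_smul, show r * z * r⁻¹ * (r * z * r⁻¹) = r * (z * z) * r⁻¹ by group, hz2]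
        simp) with h3 | h3
    · obtain ⟨v, hv, hv0⟩ := exists_neg hE hz2 hz1
      have h4 := h3 _ (h2 v hv)
      rw [mul_smul, mul_smul, inv_smul_smul, hv, smul_neg] at h4
      exact (hv0 ((smul_eq_zero_iff_eq r).1 (hE.eq_zero_of_eq_neg h4.symm))).elim
    · refine hE.ext hz2 (fun v hv => by rw [h3 v hv, hv]) fun w hw => ?_
      obtain ⟨a, c, ha, hc1, hac⟩ := hE.decomp hz2 (r⁻¹ • w)
      have h4 : w = r • a + r • c := by rw [← smul_add, ← hac, smul_inv_smul]
      have h5 : (r * z * r⁻¹) • w = -(r • a) + r • c := by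
        rw [mul_smul, mul_smul, hac, smul_add, ha, hc1, smul_add, smul_neg]
      have h6 := fix_of_commute hc hw
      have h7 : z • r • c = r • a + r • a + r • c := by
        have h8 := hw
        rw [h4, smul_add, h2 a ha] at h8
        rw [← add_left_cancel_iff (a := -(r • a)), h8]; abel
      rw [h5, smul_add, smul_neg, h2 a ha, h7] at h6
      have h9 : r • a = 0 := by
        refine hE.inj _ (hE.inj _ ?_)
        rw [← sub_eq_zero.2 h6]; abel
      rw [h5, hw, h4, h9, neg_zero]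
  exact mul_inv_eq_iff_eq_mul.1 key

include hE hS hz hz2 hz1 in
theorem not_sq_fix (h1 : ∀ v : E, z • v = -v → h • h • v = v) : False := by
  obtain ⟨v, hv, hv0⟩ := exists_neg hE hz2 hz1
  obtain ⟨c, rfl⟩ := Nat.exists_eq_add_of_le' hS.pos
  have h2 : z • v = v := by
    rw [hz, pow_succ', pow_mul]
    exact pow_smul_of_fix (by rw [sq, mul_smul, h1 v hv]) _
  exact hv0 (hE.eq_zero_of_eq_neg (h2.symm.trans hv))

omit [FaithfulSMul Γ E] in
include hS hz in
theorem commutator_smul {r : Γ} (h1 : ∀ v : E, z • v = -v → z • r⁻¹ • v = r⁻¹ • v) {v : E}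
    (hv : z • v = -v) : ⁅h, r⁆ • ⁅h, r⁆ • v = h • h • v := by
  have key : ∀ v : E, z • v = -v → ⁅h, r⁆ • v = h • v := fun v hv => by
    rw [commutatorElement_def, mul_smul, mul_smul, mul_smul,
      inv_smul_of_fix (hS.fix _ (hz ▸ h1 v hv)), smul_inv_smul]
  rw [key v hv, key _ (neg_of_commute (hz ▸ Commute.self_pow h _) hv)]

include hE hS hz hz2 hz1 hh in
/-- Involutions of an invariant elementary abelian group commute with `h`. -/
theorem lemY {y : Γ} (hy : y ∈ 𝒢) (hy2 : y * y = 1) (h1 : Commute (y * z * y⁻¹) z)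
    (h2 : ⁅h, y⁆ * ⁅h, y⁆ = 1) : Commute y h ∧
      ((∀ v : E, z • v = -v → y • v = v) ∨ (∀ v : E, z • v = -v → y • v = -v)) := by
  have hhz : Commute h z := hz ▸ Commute.self_pow h _
  rcases dichotomy hE hS hz hz2 hz1 hh hy h1 with h3 | h3
  · have hs := hS.rigid y hy
    rw [← hz] at hs
    have h4 := hs (fun v hv => neg_of_commute h3 hv) fun v _ => by rw [← mul_smul, hy2, one_smul]
    refine ⟨hE.ext hz2 (fun v hv => ?_) fun v hv => ?_, h4⟩
    · rw [mul_smul, mul_smul]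
      rcases h4 with h4 | h4
      · rw [h4 v hv, h4 _ (neg_of_commute hhz hv)]
      · rw [h4 v hv, h4 _ (neg_of_commute hhz hv), smul_neg]
    · rw [mul_smul, mul_smul, hS.fix v (hz ▸ hv), hS.fix _ (hz ▸ fix_of_commute h3 hv)]
  · refine (not_sq_fix hE hS hz hz2 hz1 fun v hv => ?_).elim
    rw [← commutator_smul hS hz (r := y) (by rwa [inv_eq_of_mul_eq_one_left hy2]) hv, ← mul_smul, h2,
      one_smul]

variable {R Y : Subgroup Γ} (hP : Pair 𝒢 R Y) (hR : h ∈ Subgroup.normalizer (R : Set Γ))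
  (hY : h ∈ Subgroup.normalizer (Y : Set Γ))

include hE hS hz hz2 hz1 hh hP hY in
theorem lemY' {y : Γ} (hy : y ∈ Y) : Commute y h ∧
      ((∀ v : E, z • v = -v → y • v = v) ∨ (∀ v : E, z • v = -v → y • v = -v)) := by
  have hzY : z ∈ Subgroup.normalizer (Y : Set Γ) := hz ▸ pow_mem hY _
  refine lemY hE hS hz hz2 hz1 hh (hP.leG (hP.le hy)) (hP.sq y hy) (commute_of_sq ?_ hz2 ?_)
    (hP.sq _ ?_)
  · rw [show y * z * y⁻¹ * (y * z * y⁻¹) = y * (z * z) * y⁻¹ by group, hz2]; group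
  · refine hP.sq _ ?_
    have := mul_mem hy (conj_mem hzY (inv_mem hy))
    rwa [inv_eq_of_mul_eq_one_left hz2, ← mul_assoc, ← mul_assoc] at this
  · exact mul_mem (conj_mem hY hy) (inv_mem hy)

include hE hS hz hz2 hz1 hh hP hR hY in
/-- The conjugates of `z` under `R` commute with `z`. -/
theorem lemK {r : Γ} (hr : r ∈ R) : Commute (r * z * r⁻¹) z := by
  have hzi : z⁻¹ = z := inv_eq_of_mul_eq_one_left hz2
  have hzR : z ∈ Subgroup.normalizer (R : Set Γ) := hz ▸ pow_mem hR _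
  set z' := r * z * r⁻¹ with hz'
  have hz'2 : z' * z' = 1 := by
    rw [hz', show r * z * r⁻¹ * (r * z * r⁻¹) = r * (z * z) * r⁻¹ by group, hz2]; group
  set u := z' * z with hu
  have hue : u = r * (z * r * z⁻¹)⁻¹ := by rw [hu, hz', mul_inv_rev, mul_inv_rev, inv_inv, hzi]; group
  have huR : u ∈ R := hue ▸ mul_mem hr (inv_mem (conj_mem hzR hr))
  have hy := hP.sqR u huR
  rcases (lemY' hE hS hz hz2 hz1 hh hP hY hy).2 with h1 | h1
  · refine commute_of_sq hz'2 hz2 (eq_of_smul_eq_smul fun v : E => ?_)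
    have h2 : ∀ w : E, (u * u) • (z • w - w) = z • w - w := fun w => h1 _ (by
      rw [smul_sub, ← mul_smul, hz2, one_smul, neg_sub])
    have h3 : ∀ w : E, (u * u) • (z' • w - w) = z' • w - w := fun w => by
      have : z' • w - w = r • (z • r⁻¹ • w - r⁻¹ • w) := by
        rw [smul_sub, smul_inv_smul, hz', mul_smul, mul_smul]
      rw [this, ← mul_smul, (hP.cent _ hy r hr).eq, mul_smul, h2]
    have h4 : (u * u) • v - v = (z' • z • z' • z • v - z • z' • z • v) +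
        (z • z' • z • v - z' • z • v) + (z' • z • v - z • v) + (z • v - v) := by
      rw [hu]; simp only [mul_smul]; abel
    have h5 : (u * u) • ((u * u) • v - v) = (u * u) • v - v := by
      conv_lhs => rw [h4]
      rw [smul_add, smul_add, smul_add, h3, h2, h3, h2, h4]
    rw [smul_sub, ← mul_smul, hP.sq _ hy, one_smul] at h5
    rw [one_smul, ← sub_eq_zero]
    exact hE.eq_zero_of_eq_neg (by rw [neg_sub, h5])
  · exfalso
    obtain ⟨c, rfl⟩ := Nat.exists_eq_add_of_le' hS.pos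
    set w := h ^ 2 ^ c with hw
    have hw2 : w * w = z := by rw [hz, pow_succ, pow_mul, sq]
    have hwz : Commute w z := hw2 ▸ (Commute.refl w).mul_right (Commute.refl w)
    have hwR : w ∈ Subgroup.normalizer (R : Set Γ) := pow_mem hR _
    have hwf : ∀ v : E, z • v = v → w • v = v := fun v hv =>
      pow_smul_of_fix (hS.fix v (hz ▸ hv)) _
    -- claim A
    have hA : Commute u (w * u * w⁻¹) := by
      have hr1 := conj_mem hwR hr
      have hc := hP.commutator_mem hr hr1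
      set κ := ⁅r, w * r * w⁻¹⁆ with hκ
      have hκw : w * κ * w⁻¹ = κ :=
        mul_inv_eq_iff_eq_mul.2 ((lemY' hE hS hz hz2 hz1 hh hP hY hc).1.pow_right _).symm.eq
      have hκ2 := hP.sq κ hc
      have step : ∀ a a' : Γ, a * a' = κ * a' * a →
          w * a * w⁻¹ * (w * a' * w⁻¹) = κ * (w * a' * w⁻¹) * (w * a * w⁻¹) := fun a a' e => by
        calc w * a * w⁻¹ * (w * a' * w⁻¹) = w * (a * a') * w⁻¹ := by group
          _ = (w * κ * w⁻¹) * (w * a' * w⁻¹) * (w * a * w⁻¹) := by rw [e]; group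
          _ = _ := by rw [hκw]
      have e0 : r * (w * r * w⁻¹) = κ * (w * r * w⁻¹) * r := by
        rw [hκ, commutatorElement_def]; group
      have e1 := step _ _ e0
      have e2 := step _ _ e1
      have e3 := step _ _ e2
      have f2 : w * (w * r * w⁻¹) * w⁻¹ = z * r * z⁻¹ := by rw [← hw2]; group
      have f4 : w * (w * (z * r * z⁻¹) * w⁻¹) * w⁻¹ = r := by
        rw [show w * (w * (z * r * z⁻¹) * w⁻¹) * w⁻¹ = w * w * z * r * (w * w * z)⁻¹ by group, hw2,
          hz2]; group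
      rw [f2] at e1 e2 e3
      rw [f4] at e3
      have hr2 := conj_mem hzR hr
      have hr3 := conj_mem hwR hr2
      have f5 : w * u * w⁻¹ = w * r * w⁻¹ * (w * (z * r * z⁻¹) * w⁻¹)⁻¹ := by rw [hue]; group
      rw [f5, hue]
      generalize w * r * w⁻¹ = r1 at *
      generalize w * (z * r * z⁻¹) * w⁻¹ = r3 at *
      generalize z * r * z⁻¹ = r2 at *
      have c0 := (hP.cent κ hc r hr).eq
      have c1 := (hP.cent κ hc r1 hr1).eq
      have c2 := (hP.cent κ hc r2 hr2).eq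
      have c3 := (hP.cent κ hc r3 hr3).eq
      refine Commute.mul_right ?_ (Commute.inv_right ?_)
      · change r * r2⁻¹ * r1 = r1 * (r * r2⁻¹)
        have g1 : r2⁻¹ * r1 = κ * r1 * r2⁻¹ := by
          calc r2⁻¹ * r1 = r2⁻¹ * (r1 * r2) * r2⁻¹ := by group
            _ = r2⁻¹ * (κ * r2) * r1 * r2⁻¹ := by rw [e1]; group
            _ = _ := by rw [c2]; group
        calc r * r2⁻¹ * r1 = (r * κ) * r1 * r2⁻¹ := by rw [mul_assoc, g1]; group
          _ = κ * (r * r1) * r2⁻¹ := by rw [← c0]; group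
          _ = (κ * κ) * r1 * r * r2⁻¹ := by rw [e0]; group
          _ = _ := by rw [hκ2]; group
      · change r * r2⁻¹ * r3 = r3 * (r * r2⁻¹)
        have g1 : r3 * r2⁻¹ = κ * r2⁻¹ * r3 := by
          calc r3 * r2⁻¹ = r2⁻¹ * (r2 * r3) * r2⁻¹ := by group
            _ = r2⁻¹ * κ * r3 := by rw [e2]; group
            _ = r2⁻¹ * (κ * r2) * r2⁻¹ * r3 := by group
            _ = _ := by rw [c2]; group
        calc r * r2⁻¹ * r3 = (κ * κ) * r * r2⁻¹ * r3 := by rw [hκ2]; group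
          _ = κ * (κ * r) * r2⁻¹ * r3 := by group
          _ = κ * (r * κ) * r2⁻¹ * r3 := by rw [c0]
          _ = κ * r * (κ * r2⁻¹ * r3) := by group
          _ = κ * r * r3 * r2⁻¹ := by rw [← g1]; group
          _ = _ := by rw [← e3]; group
    -- claim B
    have hB : ∀ v : E, z • v = -v → z • u • v = u • v := fun v hv => by
      have e : z * u = u * (u * u)⁻¹ * z := by
        rw [hu, mul_inv_rev, mul_inv_rev, hzi, inv_eq_of_mul_eq_one_left hz'2]
        calc z * (z' * z) = (z' * (z * z) * z') * z * z' * z := by rw [hz2, mul_one, hz'2]; group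
          _ = _ := by group
      rw [← mul_smul, e, inv_eq_of_mul_eq_one_left (hP.sq _ hy), mul_smul, mul_smul, hv, smul_neg,
        h1 v hv, neg_neg]
    obtain ⟨v, hv, hv0⟩ := exists_neg hE hz2 hz1
    have hv1 := neg_of_commute hwz.inv_left hv
    have e1 : (u * (w * u * w⁻¹)) • v = -(w⁻¹ • v) := by
      rw [mul_smul u, mul_smul _ w⁻¹, mul_smul w, hwf _ (hB _ hv1), ← mul_smul, h1 _ hv1]
    have e2 : (w * u * w⁻¹ * u) • v = -(w • v) := by
      rw [mul_smul _ u, mul_smul _ w⁻¹, mul_smul w, inv_smul_of_fix (hwf _ (hB _ hv)), ← mul_smul u,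
        h1 _ hv, smul_neg]
    rw [hA.eq, e2, neg_inj, eq_inv_smul_iff, ← mul_smul, hw2, hv] at e1
    exact hv0 (hE.eq_zero_of_eq_neg e1.symm)

include hE hS hz hz2 hz1 hh hP hR hY in
theorem of_moves {r : Γ} (hr : r ∈ R) (h1 : ∀ v : E, z • v = -v → z • r • v = r • v) :
    b = 1 ∧ ∀ v : E, z • v = -v → h • h • v = -v := by
  have h2 : ∀ v : E, z • v = -v → z • r⁻¹ • v = r⁻¹ • v := fun v hv => by
    have hy := inv_mem (hP.sqR r hr)
    rw [show r⁻¹ = r * (r * r)⁻¹ by group, mul_smul]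
    rcases (lemY' hE hS hz hz2 hz1 hh hP hY hy).2 with h3 | h3
    · rw [h3 v hv, h1 v hv]
    · rw [h3 v hv, smul_neg, smul_neg, h1 v hv]
  have hc : ⁅h, r⁆ ∈ R := mul_mem (conj_mem hR hr) (inv_mem hr)
  rcases (lemY' hE hS hz hz2 hz1 hh hP hY (hP.sqR _ hc)).2 with h3 | h3
  · refine (not_sq_fix hE hS hz hz2 hz1 fun v hv => ?_).elim
    rw [← commutator_smul hS hz h2 hv, ← mul_smul, h3 v hv]
  have h4 : ∀ v : E, z • v = -v → h • h • v = -v := fun v hv => by
    rw [← commutator_smul hS hz h2 hv, ← mul_smul, h3 v hv]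
  refine ⟨?_, h4⟩
  by_contra hb
  obtain ⟨c, rfl⟩ := Nat.exists_eq_add_of_le' (show 2 ≤ b by have := hS.pos; omega)
  obtain ⟨v, hv, hv0⟩ := exists_neg hE hz2 hz1
  have h5 : z • v = v := by
    rw [hz, pow_add, mul_comm, pow_mul]
    refine pow_smul_of_fix ?_ _
    rw [show h ^ 2 ^ 2 = h * h * (h * h) by rw [← sq, ← sq, ← pow_mul]; rfl,
      mul_smul, mul_smul, mul_smul, h4 v hv, smul_neg, smul_neg, h4 v hv, neg_neg]
  exact hv0 (hE.eq_zero_of_eq_neg (h5.symm.trans hv))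

include hE hS hz hz2 hz1 hh hP hR hY in
theorem final {t z₁ : Γ} (ht : t ∈ R) (hz₁ : z₁ = (h * t) ^ 2 ^ b) (hz₁2 : z₁ * z₁ = 1)
    (hG : z₁ = 1 ∨ Special E 𝒢 (h * t) b) :
    (∀ r ∈ R, Commute (z⁻¹ * z₁) r) ∧ (t ∈ Y → z₁ = z) := by
  have hhz : Commute h z := hz ▸ Commute.self_pow h _
  have hzi : z⁻¹ = z := inv_eq_of_mul_eq_one_left hz2
  obtain ⟨c, rfl⟩ := Nat.exists_eq_add_of_le' hS.pos
  have ht2 : t ^ 2 ^ (c + 1) ∈ Y := by
    rw [pow_succ', pow_mul, sq]
    exact pow_mem (hP.sqR t ht) _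
  refine ⟨?_, fun htY => ?_⟩
  swap
  · rw [hz₁, (lemY' hE hS hz hz2 hz1 hh hP hY htY).1.symm.mul_pow, ← hz, pow_succ', pow_mul, sq,
      hP.sq t htY, one_pow, mul_one]
  obtain ⟨v₀, hv₀, hv₀0⟩ := exists_neg hE hz2 hz1
  rcases dichotomy hE hS hz hz2 hz1 hh (hP.leG ht) (lemK hE hS hz hz2 hz1 hh hP hR hY ht)
    with h1 | h1
  swap
  · exfalso
    obtain ⟨hb, h2⟩ := of_moves hE hS hz hz2 hz1 hh hP hR hY ht h1
    have h3 : ∀ v : E, z • v = -v → z₁ • v = h • (t * t) • v := fun v hv => by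
      rw [hz₁, hb, pow_one, sq, mul_smul, mul_smul, mul_smul, hS.fix (t • v) (hz ▸ h1 v hv),
        mul_smul]
    have h4 : z₁ • z₁ • v₀ = -v₀ := by
      have hv1 := neg_of_commute hhz hv₀
      rcases (lemY' hE hS hz hz2 hz1 hh hP hY (hP.sqR t ht)).2 with h5 | h5
      · rw [h3 _ hv₀, h5 _ hv₀, h3 _ hv1, h5 _ hv1, h2 _ hv₀]
      · rw [h3 _ hv₀, h5 _ hv₀, smul_neg, smul_neg, h3 _ hv1, h5 _ hv1, smul_neg, neg_neg, h2 _ hv₀]
    rw [← mul_smul, hz₁2, one_smul] at h4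
    exact hv₀0 (hE.eq_zero_of_eq_neg h4)
  set y₁ := t ^ 2 ^ (c + 1) with hy₁
  have h2 : ∀ (i : ℕ) (v : E), z • v = v → (h * t) ^ i • v = t ^ i • v := fun i => by
    induction i with
    | zero => simp
    | succ i ih =>
      intro v hv
      rw [pow_succ', mul_smul, ih v hv, mul_smul, ← mul_smul t, ← pow_succ']
      exact hS.fix _ (hz ▸ fix_of_commute (h1.pow_left _) hv)
  have h3 : ∀ v : E, z • v = v → z₁ • v = y₁ • v := fun v hv => hz₁ ▸ h2 _ v hv
  have hz₁z : Commute z₁ z := hz₁ ▸ (hhz.mul_left h1).pow_left _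
  have hs := hS.rigid
  rw [← hz] at hs
  have hA : (∀ v : E, z • v = -v → z₁ • v = -(y₁ • v)) → ∀ r ∈ R, Commute (z⁻¹ * z₁) r := by
    intro h4 r hr
    have : z⁻¹ * z₁ = y₁ := hE.ext hz2 (fun v hv => by
      rw [hzi, mul_smul, neg_of_commute hz₁z hv, h4 v hv, neg_neg]) fun v hv => by
      rw [hzi, mul_smul, fix_of_commute hz₁z hv, h3 v hv]
    exact this ▸ hP.cent _ ht2 r hr
  have hB : (∀ v : E, z • v = -v → z₁ • v = y₁ • v) → ∀ r ∈ R, Commute (z⁻¹ * z₁) r := by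
    intro h4 r hr
    have h5 : z₁ = y₁ := hE.ext hz2 h4 h3
    refine Commute.mul_left (Commute.inv_left ?_) (h5 ▸ hP.cent _ ht2 r hr)
    refine ((dichotomy hE hS hz hz2 hz1 hh (hP.leG hr)
      (lemK hE hS hz hz2 hz1 hh hP hR hY hr)).resolve_right fun h6 => ?_).symm
    obtain ⟨hb, h7⟩ := of_moves hE hS hz hz2 hz1 hh hP hR hY hr h6
    rcases (lemY' hE hS hz hz2 hz1 hh hP hY ht2).2 with h8 | h8
    · have h9 : ∀ v : E, z • v = -v → t • t • v = v := fun v hv => by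
        rw [← h8 v hv, hy₁, hb, pow_one, sq, mul_smul]
        have := h8 v hv
        rw [hy₁, hb, pow_one, sq, mul_smul] at this
        rw [this, this]
      have h10 : z₁ • v₀ = -v₀ := by
        have hv1 := neg_of_commute hhz hv₀
        rw [hz₁, hb, pow_one, sq, mul_smul, mul_smul, mul_smul]
        rcases hs t (hP.leG ht) (fun v hv => neg_of_commute h1 hv) h9 with h11 | h11
        · rw [h11 _ hv₀, h11 _ hv1, h7 _ hv₀]
        · rw [h11 _ hv₀, smul_neg, smul_neg, h11 _ hv1, neg_neg, h7 _ hv₀]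
      rw [h5, h8 _ hv₀] at h10
      exact hv₀0 (hE.eq_zero_of_eq_neg h10)
    · have hne : z₁ ≠ 1 := fun e => by
        have := h8 _ hv₀
        rw [← h5, e, one_smul] at this
        exact hv₀0 (hE.eq_zero_of_eq_neg this)
      have hs₁ := (hG.resolve_left hne).rigid z (hz ▸ pow_mem hh _)
      rw [← hz₁] at hs₁
      rcases hs₁ (fun v hv => neg_of_commute hz₁z.symm hv)
        (fun v _ => by rw [← mul_smul, hz2, one_smul]) with h9 | h9
      · exact hv₀0 (hE.eq_zero_of_eq_neg ((h9 v₀ (h5 ▸ h8 _ hv₀)).symm.trans hv₀))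
      · have h10 := h9 (r • v₀) (neg_of_commute (h5 ▸ (hP.cent _ ht2 r hr).symm) (h5 ▸ h8 _ hv₀))
        rw [h6 _ hv₀] at h10
        exact hv₀0 ((smul_eq_zero_iff_eq r).1 (hE.eq_zero_of_eq_neg h10))
  rcases hs z₁ (hz₁ ▸ pow_mem (mul_mem hh (hP.leG ht)) _) (fun v hv => neg_of_commute hz₁z hv)
    (fun v _ => by rw [← mul_smul, hz₁2, one_smul]) with h4 | h4 <;>
  rcases (lemY' hE hS hz hz2 hz1 hh hP hY ht2).2 with h5 | h5
  · exact hB fun v hv => by rw [h4 v hv, h5 v hv]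
  · exact hA fun v hv => by rw [h4 v hv, h5 v hv, neg_neg]
  · exact hA fun v hv => by rw [h4 v hv, h5 v hv]
  · exact hB fun v hv => by rw [h4 v hv, h5 v hv]

end

/-- **The local lemma.** -/
theorem local_lemma [FaithfulSMul Γ E] (hE : OddE E) {𝒢 R Y : Subgroup Γ} (hP : Pair 𝒢 R Y)
    {h t : Γ} {b : ℕ} (hh : h ∈ 𝒢) (hR : h ∈ Subgroup.normalizer (R : Set Γ))
    (hY : h ∈ Subgroup.normalizer (Y : Set Γ)) (ht : t ∈ R)
    (h1 : h ^ 2 ^ b * h ^ 2 ^ b = 1) (h2 : (h * t) ^ 2 ^ b * (h * t) ^ 2 ^ b = 1)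
    (h3 : h ^ 2 ^ b = 1 ∨ Special E 𝒢 h b) (h4 : (h * t) ^ 2 ^ b = 1 ∨ Special E 𝒢 (h * t) b) :
    (∀ r ∈ R, Commute ((h ^ 2 ^ b)⁻¹ * (h * t) ^ 2 ^ b) r) ∧
      (t ∈ Y → (h * t) ^ 2 ^ b = h ^ 2 ^ b) := by
  by_cases e : h ^ 2 ^ b = 1
  · by_cases e' : (h * t) ^ 2 ^ b = 1
    · rw [e, e']
      exact ⟨fun r _ => by simp, fun _ => rfl⟩
    have htY : t ∈ Subgroup.normalizer (Y : Set Γ) := Subgroup.centralizer_le_normalizer _
      fun y hy => (hP.cent y hy t ht).eq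
    have := final hE (h4.resolve_left e') rfl h2 e' (mul_mem hh (hP.leG ht)) hP
      (mul_mem hR (Subgroup.le_normalizer ht)) (mul_mem hY htY) (inv_mem ht)
      (z₁ := h ^ 2 ^ b) (by rw [mul_inv_cancel_right]) h1 (by rwa [mul_inv_cancel_right])
    refine ⟨fun r hr => ?_, fun h => (this.2 (inv_mem h)).symm⟩
    simpa using (this.1 r hr).inv_left
  · exact final hE (h3.resolve_left e) rfl h1 e hh hP hR hY ht rfl h2 h4

end Cfsg.Agent.Reg.TwoLen
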