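import Cfsg.Agent.Lib.Reg.TwoLenExc
import Cfsg.Agent.Lib.Reg.TwoLenLocal

/-!
# The local property of linear groups with exceptional `2`-elements
-/

set_option autoImplicit false

namespace Cfsg.Agent.Reg.TwoLen

open Module Subgroup Cfsg.Agent.Mod
open scoped commutatorElement

universe u

section Sec

variable {H Γ E : Type*} [Group H] [Group Γ] [AddCommGroup E] [DistribMulAction Γ E]

/-- automorphisms of a commutative group act on its additive version -/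
@[reducible] def autAction (M : Type*) [CommGroup M] : DistribMulAction (MulAut M) (Additive M) where
  smul γ v := Additive.ofMul (γ v.toMul)
  one_smul _ := rfl
  mul_smul _ _ _ := rfl
  smul_zero γ := map_one γ
  smul_add γ _ _ := map_mul γ _ _

/-- the action of `S` on the abelian section `Q / (Q ∩ N)` -/
structure Sec (Q N S : Subgroup H) (π : H → E) (τ : S →* Γ) : Prop where
  map_mul : ∀ a ∈ Q, ∀ b ∈ Q, π (a * b) = π a + π b
  eq_zero : ∀ a ∈ Q, π a = 0 ↔ a ∈ N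
  surj : ∀ v, ∃ a ∈ Q, π a = v
  conj : ∀ x : S, ∀ a ∈ Q, τ x • π a = π (x * a * (x : H)⁻¹)

open scoped IsMulCommutative in
theorem exists_sec {H : Type u} [Group H] {Q N S : Subgroup H} (h1 : S ≤ normalizer (Q : Set H))
    (h2 : S ≤ normalizer (N : Set H)) (h3 : ⁅Q, Q⁆ ≤ N) :
    ∃ (Γ E : Type u) (_ : Group Γ) (_ : AddCommGroup E) (_ : DistribMulAction Γ E)
      (_ : FaithfulSMul Γ E) (π : H → E) (τ : S →* Γ), Sec Q N S π τ := by
  classical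
  have hle : _root_.commutator Q ≤ N.subgroupOf Q := by
    rw [subgroupOf, ← map_le_iff_le_comap, map_subtype_commutator]; exact h3
  have hn : (N.subgroupOf Q).Normal := Normal.of_commutator_le _ hle
  have hc : IsMulCommutative (Q ⧸ N.subgroupOf Q) := Normal.quotient_commutative_iff_commutator_le.mpr hle
  let this := autAction (Q ⧸ N.subgroupOf Q)
  refine ⟨MulAut (Q ⧸ N.subgroupOf Q), Additive (Q ⧸ N.subgroupOf Q), inferInstance, inferInstance,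
    this, ⟨fun h => MulEquiv.ext fun v => h (Additive.ofMul v)⟩,
    fun a => if h : a ∈ Q then Additive.ofMul ((⟨a, h⟩ : Q) : Q ⧸ N.subgroupOf Q) else 0,
    Coprime.sectionHom h1 h2, fun a ha b hb => ?_, fun a ha => ?_, fun v => ?_, fun x a ha => ?_⟩
  · rw [dif_pos ha, dif_pos hb, dif_pos (mul_mem ha hb)]; rfl
  · rw [dif_pos ha]; exact QuotientGroup.eq_one_iff _
  · obtain ⟨a, ha⟩ := QuotientGroup.mk_surjective v.toMul
    exact ⟨a, a.2, by rw [dif_pos a.2]; exact ha⟩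
  · rw [dif_pos ha, dif_pos (Coprime.conj_mem_of_le_normalizer h1 x.2 ha)]; rfl

namespace Sec

variable {Q N S : Subgroup H} {π : H → E} {τ : S →* Γ} (h : Sec Q N S π τ)
include h

/-- the quotient map as a homomorphism -/
def hom : Q →* Multiplicative E := MonoidHom.mk' (fun a => Multiplicative.ofAdd (π a))
  fun a b => h.map_mul a a.2 b b.2

theorem map_zpow {a : H} (ha : a ∈ Q) (i : ℤ) : π (a ^ i) = i • π a :=
  _root_.map_zpow h.hom ⟨a, ha⟩ i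

theorem map_div {a b : H} (ha : a ∈ Q) (hb : b ∈ Q) : π (a * b⁻¹) = π a - π b := by
  rw [h.map_mul a ha _ (inv_mem hb), ← zpow_neg_one, h.map_zpow hb, neg_one_zsmul, sub_eq_add_neg]

theorem mem_of_eq {a b : H} (ha : a ∈ Q) (hb : b ∈ Q) (e : π a = π b) : a * b⁻¹ ∈ N := by
  rw [← h.eq_zero _ (mul_mem ha (inv_mem hb)), h.map_div ha hb, e, sub_self]

variable [Q.Normal]

theorem commutator (x : S) {a : H} (ha : a ∈ Q) : π ⁅a, (x : H)⁆ = π a - τ x • π a := by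
  rw [h.conj x a ha, ← h.map_div ha (‹Q.Normal›.conj_mem a ha _)]
  simp [commutatorElement_def, mul_assoc]

theorem fix_iff (x : S) {a : H} (ha : a ∈ Q) : τ x • π a = π a ↔ ⁅a, (x : H)⁆ ∈ N := by
  rw [← h.eq_zero _ (commutator_le_left Q ⊤ (commutator_mem_commutator ha (mem_top _))),
    h.commutator x ha, sub_eq_zero, eq_comm]

theorem eq_one_iff [FaithfulSMul Γ E] (x : S) : τ x = 1 ↔ ∀ a ∈ Q, ⁅a, (x : H)⁆ ∈ N :=
  ⟨fun e a ha => (h.fix_iff x ha).1 (by rw [e, one_smul]), fun e => eq_of_smul_eq_smul fun v : E => by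
    obtain ⟨a, ha, rfl⟩ := h.surj v
    rw [one_smul, (h.fix_iff x ha).2 (e a ha)]⟩

omit [Q.Normal] in
theorem oddE {q : ℕ} (hq : Odd q) (hexp : ∀ x ∈ Q, x ^ q = 1) : OddE E := by
  obtain ⟨m, rfl⟩ := hq
  have key : ∀ v : E, m • (v + v) + v = 0 := fun v => by
    obtain ⟨a, ha, rfl⟩ := h.surj v
    have := map_pow h.hom ⟨a, ha⟩ (2 * m + 1)
    rw [show (⟨a, ha⟩ : Q) ^ (2 * m + 1) = 1 from Subtype.ext (hexp a ha), map_one] at this
    rw [← two_nsmul, ← mul_nsmul, ← succ_nsmul]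
    exact this.symm
  exact ⟨fun v hv => by simpa [hv] using key v, fun v => ⟨-(m • v), by
    rw [← neg_add, ← smul_add, eq_comm, ← add_eq_zero_iff_eq_neg, add_comm, key v]⟩⟩

end Sec

theorem rigid_aux {q : ℕ} (hq : q.Prime) {U : AddSubgroup E} (hU : Nat.card U = q ^ 2)
    (half : ∀ v ∈ U, ∃ w ∈ U, w + w = v) (γ : Γ) (h1 : ∀ v ∈ U, γ • v ∈ U) (h2 : ∀ v ∈ U, γ • γ • v = v)
    {B : E → E → Prop} (b1 : ∀ (v : E) (i j : ℤ), B (i • v) (j • v))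
    (b2 : ∀ v w w', B v w → B v w' → B v (w + w')) (b3 : ∀ v w, B v w → B w v)
    (b4 : ∀ v w, γ • v = v → γ • w = -w → B v w) (hB : ¬ ∀ v ∈ U, ∀ w ∈ U, B v w) :
    (∀ v ∈ U, γ • v = v) ∨ ∀ v ∈ U, γ • v = -v := by
  have := Fact.mk hq
  have : Finite U := Nat.finite_of_card_ne_zero (hU ▸ pow_ne_zero _ hq.ne_zero)
  have key : ∀ f g : E →+ E, ¬ (∀ v ∈ U, f v = g v) → ∀ v ∈ U, f v = g v → ∀ w ∈ U, f w = g w →
      B v w := fun f g hne v hv e w hw e' => by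
    set P := (f.eqLocus g).addSubgroupOf U
    have h3 : Nat.card P ∣ q := by
      obtain ⟨i, hi, h3⟩ := (Nat.dvd_prime_pow hq).1 (hU ▸ AddSubgroup.card_addSubgroup_dvd_card P)
      have : i ≠ 2 := fun e => hne fun v hv => by
        have : P = ⊤ := AddSubgroup.eq_top_of_card_eq _ (by rw [h3, hU, e])
        exact (this ▸ AddSubgroup.mem_top _ : (⟨v, hv⟩ : U) ∈ P)
      rw [h3]
      exact (pow_dvd_pow q (by omega : i ≤ 1)).trans (pow_one q).dvd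
    obtain ⟨u, hu⟩ := (isAddCyclic_of_card_dvd_prime h3).exists_generator
    obtain ⟨i, hi⟩ := hu ⟨⟨v, hv⟩, e⟩
    obtain ⟨j, hj⟩ := hu ⟨⟨w, hw⟩, e'⟩
    have := b1 u.1.1 i j
    rwa [show i • u.1.1 = v from congrArg (·.1.1) hi, show j • u.1.1 = w from congrArg (·.1.1) hj] at this
  by_contra hne
  rw [not_or] at hne
  have k1 := key (DistribSMul.toAddMonoidHom E γ) (AddMonoidHom.id E) hne.1
  have k2 := key (DistribSMul.toAddMonoidHom E γ) (-AddMonoidHom.id E) hne.2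
  have dec : ∀ v ∈ U, ∃ a ∈ U, ∃ b ∈ U, γ • a = a ∧ γ • b = -b ∧ v = a + b := fun v hv => by
    obtain ⟨w, hw, rfl⟩ := half v hv
    exact ⟨w + γ • w, add_mem hw (h1 w hw), w - γ • w, sub_mem hw (h1 w hw),
      by rw [smul_add, h2 w hw, add_comm], by rw [smul_sub, h2 w hw, neg_sub], by abel⟩
  refine hB fun v hv w hw => ?_
  obtain ⟨a, ha, b, hb, e1, e2, rfl⟩ := dec v hv
  obtain ⟨a', ha', b', hb', e1', e2', rfl⟩ := dec w hw
  exact b2 _ _ _ (b3 _ _ (b2 _ _ _ (k1 _ ha' e1' _ ha e1) (b4 _ _ e1' e2)))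
    (b3 _ _ (b2 _ _ _ (b3 _ _ (b4 _ _ e1 e2')) (k2 _ hb' e2' _ hb e2)))

theorem commutator_sq_eq_one {α β ξ : H} (h0 : ⁅α, β⁆ ∈ center H) (h1 : ξ * α * ξ⁻¹ * α⁻¹ ∈ center H)
    (h2 : ξ * β * ξ⁻¹ * β ∈ center H) : ⁅α, β⁆ ^ 2 = 1 := by
  have c : ∀ {x : H}, x ∈ center H → ∀ y, Commute x y := fun hx y => (mem_center_iff.1 hx y).symm
  have e : ξ * ⁅α, β⁆ * ξ⁻¹ = ⁅ξ * α * ξ⁻¹ * α⁻¹ * α, ξ * β * ξ⁻¹ * β * β⁻¹⁆ := by
    simp [commutatorElement_def, mul_assoc]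
  rw [← (c h0 ξ).eq, mul_inv_cancel_right] at e
  generalize ξ * α * ξ⁻¹ * α⁻¹ = ν at *
  generalize ξ * β * ξ⁻¹ * β = μ at *
  have e2 : ⁅ν * α, μ * β⁻¹⁆ = β⁻¹ * ⁅α, β⁆⁻¹ * β := calc
    _ = ν * (α * (μ * (β⁻¹ * α⁻¹)) * ν⁻¹) * (β * μ⁻¹) := by simp only [commutatorElement_def]; group
    _ = α * (μ * (β⁻¹ * α⁻¹ * β) * μ⁻¹) := by rw [← mul_assoc ν, (c h1 _).eq]; group
    _ = _ := by rw [(c h2 _).eq, mul_inv_cancel_right]; simp only [commutatorElement_def]; group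
  rw [e2, ← (c (inv_mem h0) β⁻¹).eq, inv_mul_cancel_right] at e
  rw [sq]; nth_rewrite 1 [e]; exact inv_mul_cancel _

end Sec

variable {k V : Type*} {H : Type u} [Field k] [Group H] [AddCommGroup V] [Module k V]
  {ρ : Representation k H V} {c : Submodule k V} {g : H} {n q : ℕ} {Q : Subgroup H}
  [CharP k 2] [Finite H] [FiniteDimensional k V] [IsAlgClosed k]

theorem Hyp.special {Γ E : Type*} [Group Γ] [AddCommGroup E] [DistribMulAction Γ E] [FaithfulSMul Γ E]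
    (h : Hyp ρ q Q) (hc : c ∈ comps ρ Q) {π : H → E} {τ : stab ρ c →* Γ}
    (hs : Sec Q (scal ρ c) (stab ρ c) π τ) (hg : Unip ρ g n) :
    ∃ j ≤ n, (∀ m, g ^ m ∈ stab ρ c ↔ 2 ^ j ∣ m) ∧ ∀ x : stab ρ c, (x : H) = g ^ 2 ^ j →
      τ x ^ 2 ^ (n - j) * τ x ^ 2 ^ (n - j) = 1 ∧
        (τ x ^ 2 ^ (n - j) = 1 ∨ Special E τ.range (τ x) (n - j)) := by
  have := h.normal
  obtain ⟨j, hj, hp, h1⟩ := h.exc hg hc
  refine ⟨j, hj, hp, fun x hx => ?_⟩
  have hz : ((x ^ 2 ^ (n - j) : stab ρ c) : H) = g ^ 2 ^ n := by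
    rw [SubgroupClass.coe_pow, hx, ← pow_mul, ← pow_add, Nat.add_sub_cancel' hj]
  have hz2 : x ^ 2 ^ (n - j) * x ^ 2 ^ (n - j) = 1 := Subtype.ext (by
    rw [coe_mul, hz, ← pow_add, ← mul_two, ← pow_succ, hg.pow_eq_one h.inj]; rfl)
  have hz3 : τ (x ^ 2 ^ (n - j)) * τ (x ^ 2 ^ (n - j)) = 1 := by rw [← map_mul, hz2, map_one]
  refine ⟨by rwa [← map_pow], h1.imp (fun h1 => by rwa [← map_pow, hs.eq_one_iff, hz]) ?_⟩
  rintro ⟨h1, h2, h3, h4⟩
  refine ⟨by omega, fun v hv => ?_, ?_⟩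
  · obtain ⟨a, ha, rfl⟩ := hs.surj v
    rw [← map_pow, hs.fix_iff _ ha, hz] at hv
    exact (hs.fix_iff x ha).2 (hx ▸ h2 a ha hv)
  rw [← hz] at h3 h4
  rw [← map_pow]
  generalize x ^ 2 ^ (n - j) = z at *
  set Q₁ := ⁅Q, zpowers (z : H)⁆
  have hle : Q₁ ≤ Q := commutator_le_left _ _
  have hE := hs.oddE (h.prime.odd_of_ne_two h.ne) h.exp
  let U : AddSubgroup E := (DistribSMul.toAddMonoidHom E (τ z)).eqLocus (-AddMonoidHom.id E)
  have hU : ∀ v, v ∈ U ↔ τ z • v = -v := fun _ => Iff.rfl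
  have half : ∀ v ∈ U, ∃ w ∈ U, w + w = v := fun v hv => by
    obtain ⟨w, rfl⟩ := hE.surj v
    refine ⟨w, eq_neg_of_add_eq_zero_left (hE.inj _ ?_), rfl⟩
    change τ z • w + w + (τ z • w + w) = 0
    rw [add_add_add_comm, ← smul_add, (hU _).1 hv, neg_add_cancel]
  have hmap : (Q₁.subgroupOf Q).map hs.hom = U.toSubgroup := by
    refine le_antisymm ?_ fun v hv => ?_
    · rw [map_le_iff_le_comap, ← map_le_map_iff_of_injective Q.subtype_injective,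
        map_subgroupOf_eq_of_le hle, commutator_le]
      rintro a ha _ ⟨i, rfl⟩
      refine ⟨⟨_, commutator_le_left Q ⊤ (commutator_mem_commutator ha (mem_top _))⟩, ?_, rfl⟩
      change τ z • π ⁅a, ((z ^ i : stab ρ c) : H)⁆ = -π ⁅a, ((z ^ i : stab ρ c) : H)⁆
      rw [hs.commutator _ ha, ← zpow_mod_orderOf]
      rcases (Nat.dvd_prime Nat.prime_two).1 (orderOf_dvd_of_pow_eq_one ((sq z).trans hz2)) with e | e
      · simp [e]
      · rcases Int.emod_two_eq_zero_or_one i with e' | e'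
        · simp [e, e']
        · simp [e, e', smul_sub, ← mul_smul, hz3]
    · obtain ⟨w, hw, e⟩ := half _ hv
      obtain ⟨a, ha, rfl⟩ := hs.surj w
      have h5 := commutator_mem_commutator ha (mem_zpowers (z : H))
      refine ⟨⟨_, hle h5⟩, h5, ?_⟩
      change π ⁅a, (z : H)⁆ = v.toAdd
      rw [hs.commutator z ha, (hU _).1 hw, sub_neg_eq_add, e]
      rfl
  have hcard : Nat.card U = q ^ 2 := by
    rw [← h3, ← relIndex_subgroupOf hle, show (scal ρ c).subgroupOf Q = hs.hom.ker from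
      Subgroup.ext fun a => (hs.eq_zero a a.2).symm, relIndex_ker, hmap]
    rfl
  rintro _ ⟨y, rfl⟩ h5 h6
  obtain ⟨G', _, _, f, σ, hf⟩ := exists_isFaithfulOn (isInv_stab (ρ := ρ) c)
  have hQ := isInv_iff_le_stab.1 (isInv_of_mem_comps hc)
  have hZ : ∀ a : stab ρ c, (a : H) ∈ scal ρ c → f a ∈ center G' := fun a ha =>
    scal_top_le_center hf.inj (hf.mem_scal_iff.2 ha)
  have hB : ∀ a b a' b' : stab ρ c, a.1 ∈ Q → b.1 ∈ Q → a'.1 ∈ Q → b'.1 ∈ Q → π a' = π a → π b' = π b →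
      Commute (f a) (f b) → Commute (f a') (f b') := fun a b a' b' ha hb ha' hb' e1 e2 h7 => by
    have c1 := mem_center_iff.1 (hZ (a' * a⁻¹) (hs.mem_of_eq ha' ha e1))
    have c2 := mem_center_iff.1 (hZ (b' * b⁻¹) (hs.mem_of_eq hb' hb e2))
    rw [← inv_mul_cancel_right a' a, ← inv_mul_cancel_right b' b, map_mul, map_mul f (b' * b⁻¹)]
    exact Commute.mul_left (c1 _).symm (Commute.mul_right (c2 _) h7)
  refine rigid_aux h.prime hcard half (τ y) h5 h6 (B := fun v w => ∀ a b : stab ρ c, a.1 ∈ Q → b.1 ∈ Q →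
    π a = v → π b = w → Commute (f a) (f b)) (fun v i j a b ha hb e1 e2 => ?_)
    (fun v w w' h7 h8 a b ha hb e1 e2 => ?_) (fun v w h7 a b ha hb e1 e2 => (h7 b a hb ha e2 e1).symm)
    (fun v w h7 h8 a b ha hb e1 e2 => ?_) fun h7 => h4 (commutator_le.2 fun a ha b hb => ?_)
  · obtain ⟨u, hu, rfl⟩ := hs.surj v
    refine hB (⟨u, hQ hu⟩ ^ i) (⟨u, hQ hu⟩ ^ j) a b (zpow_mem hu i) (zpow_mem hu j) ha hb
      (e1.trans (hs.map_zpow hu i).symm) (e2.trans (hs.map_zpow hu j).symm) ?_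
    rw [map_zpow, map_zpow]
    exact (Commute.refl _).zpow_zpow i j
  · obtain ⟨u, hu, rfl⟩ := hs.surj w
    obtain ⟨u', hu', rfl⟩ := hs.surj w'
    refine hB a (⟨u, hQ hu⟩ * ⟨u', hQ hu'⟩) a b ha (mul_mem hu hu') ha hb rfl
      (e2.trans (hs.map_mul u hu u' hu').symm) ?_
    rw [map_mul]
    exact (h7 a _ ha hu e1 rfl).mul_right (h8 a _ ha hu' e1 rfl)
  · subst e1 e2
    have h9 := commutator_mem_commutator ha hb
    have z0 := hZ ⁅a, b⁆ (h.comm_le hc h9)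
    have z1 := hZ (y * a * y⁻¹ * a⁻¹)
      (hs.mem_of_eq (this.conj_mem _ ha _) ha ((hs.conj y a ha).symm.trans h7))
    have z2 := hZ (y * b * y⁻¹ * b) ((hs.eq_zero _ (mul_mem (this.conj_mem _ hb _) hb)).1
      ((hs.map_mul _ (this.conj_mem _ hb _) _ hb).trans
        (by rw [← neg_add_cancel (π b), ← h8, hs.conj y b hb])))
    simp only [map_commutatorElement, map_mul, map_inv] at z0 z1 z2
    have h10 := commutator_sq_eq_one z0 z1 z2
    have h11 : ⁅f a, f b⁆ ^ q = 1 := by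
      rw [← map_commutatorElement, ← map_pow,
        show ⁅a, b⁆ ^ q = 1 from Subtype.ext (h.exp _ (commutator_le_left Q Q h9)), map_one]
    rw [← commutatorElement_eq_one_iff_commute, ← orderOf_eq_one_iff]
    exact Nat.eq_one_of_dvd_coprimes ((Nat.coprime_primes Nat.prime_two h.prime).2 h.ne.symm)
      (orderOf_dvd_of_pow_eq_one h10) (orderOf_dvd_of_pow_eq_one h11)
  · have hm : ∀ a ∈ Q₁, π a ∈ U := fun a ha => hmap.le ⟨⟨a, hle ha⟩, ha, rfl⟩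
    have := h7 _ (hm a ha) _ (hm b hb) ⟨a, hQ (hle ha)⟩ ⟨b, hQ (hle hb)⟩ (hle ha) (hle hb) rfl rfl
    rw [← commutatorElement_eq_one_iff_commute, ← map_commutatorElement, hf.eq_one_iff] at this
    exact this

section Grp

variable {G : Type*} [Group G]

theorem pow_mul_mem {R : Subgroup G} {g t : G} (hg : g ∈ normalizer (R : Set G)) (ht : t ∈ R) (m : ℕ) :
    (g ^ m)⁻¹ * (g * t) ^ m ∈ R := by
  induction m with
  | zero => simp
  | succ m ih =>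
    have := mul_mem (conj_mem (inv_mem hg) ih) ht
    rwa [show g⁻¹ * ((g ^ m)⁻¹ * (g * t) ^ m) * g⁻¹⁻¹ * t = (g ^ (m + 1))⁻¹ * (g * t) ^ (m + 1) by
      rw [pow_succ, pow_succ]; group] at this

theorem commute_of_coprime {a x : G} (h : Commute ⁅a, x⁆ x) {m l : ℕ} (hc : m.Coprime l)
    (hx : x ^ m = 1) (hl : ⁅a, x⁆ ^ l = 1) : ⁅a, x⁆ = 1 := by
  have h1 : ⁅a, x⁆ ^ m = 1 := by
    have := h.mul_pow m
    rwa [hx, mul_one, commutatorElement_def, inv_mul_cancel_right, conj_pow, hx, mul_one,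
      mul_inv_cancel, eq_comm] at this
  exact orderOf_eq_one_iff.1 (Nat.eq_one_of_dvd_coprimes hc (orderOf_dvd_of_pow_eq_one h1)
    (orderOf_dvd_of_pow_eq_one hl))

/-- The local property of the `2`-elements. -/
def Loc (G₀ : Subgroup G) (m : ℕ) : Prop := ∀ s : G, (∃ l, s ^ 2 ^ l = 1) → s ^ m ∈ G₀ ∧
  ∀ R Y, Pair G₀ R Y → s ∈ normalizer (R : Set G) → s ∈ normalizer (Y : Set G) → ∀ t ∈ R,
    (∃ l, (s * t) ^ 2 ^ l = 1) →
      (∀ r ∈ R, Commute ((s ^ m)⁻¹ * (s * t) ^ m) r) ∧ (t ∈ Y → (s * t) ^ m = s ^ m)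

theorem Loc.subgroup {G₀ : Subgroup G} {m : ℕ} (h : Loc G₀ m) (L : Subgroup G) :
    Loc (G₀.subgroupOf L) m := fun s ⟨l, hl⟩ => by
  obtain ⟨h1, h2⟩ := h s ⟨l, congrArg Subtype.val hl⟩
  refine ⟨h1, fun R Y hP hR hY t ht ⟨l', hl'⟩ => ?_⟩
  obtain ⟨h3, h4⟩ := h2 (R.map L.subtype) (Y.map L.subtype) ⟨map_mono hP.le,
    map_le_iff_le_comap.2 hP.leG, by rintro _ ⟨y, hy, rfl⟩; exact congrArg Subtype.val (hP.sq y hy),
    by rintro _ ⟨y, hy, rfl⟩ _ ⟨r, hr, rfl⟩; exact (hP.cent y hy r hr).map _,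
    by rintro _ ⟨r, hr, rfl⟩; exact ⟨_, hP.sqR r hr, rfl⟩⟩ (le_normalizer_map _ ⟨s, hR, rfl⟩)
    (le_normalizer_map _ ⟨s, hY, rfl⟩) t ⟨t, ht, rfl⟩ ⟨l', congrArg Subtype.val hl'⟩
  exact ⟨fun r hr => Subtype.ext (h3 r ⟨r, hr, rfl⟩), fun e => Subtype.ext (h4 ⟨t, e, rfl⟩)⟩

end Grp

omit [CharP k 2] [Finite H] [FiniteDimensional k V] [IsAlgClosed k]

variable (ρ Q c) in
/-- the elements stabilizing `c` and centralizing `Q` modulo the scalars on `c` -/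
def kerAt : Subgroup H where
  carrier := {x | x ∈ stab ρ c ∧ ∀ a ∈ Q, ⁅a, x⁆ ∈ scal ρ c}
  one_mem' := ⟨one_mem _, fun a _ => by simp⟩
  mul_mem' := fun {x y} hx hy => ⟨mul_mem hx.1 hy.1, fun a ha => by
    have := mul_mem (hx.2 a ha) (conj_mem (normalizer_scal (isInv_stab c) hx.1) (hy.2 a ha))
    rwa [show ⁅a, x⁆ * (x * ⁅a, y⁆ * x⁻¹) = ⁅a, x * y⁆ by
      simp only [commutatorElement_def]; group] at this⟩
  inv_mem' := fun {x} hx => ⟨inv_mem hx.1, fun a ha => by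
    have := conj_mem (normalizer_scal (isInv_stab c) (inv_mem hx.1)) (inv_mem (hx.2 a ha))
    rwa [show x⁻¹ * ⁅a, x⁆⁻¹ * x⁻¹⁻¹ = ⁅a, x⁻¹⁆ by simp only [commutatorElement_def]; group] at this⟩

theorem conj_mem_stab {x : H} (h : H) (hx : x ∈ stab ρ (c.map (ρ h⁻¹))) : h * x * h⁻¹ ∈ stab ρ c := by
  rw [mem_stab, map_rho_mul, map_rho_mul, mem_stab.1 hx, map_rho_map_inv]

theorem normal_iInf_stab [hQ : Q.Normal] : (⨅ c ∈ comps ρ Q, stab ρ c).Normal := ⟨fun x hx h => by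
  simp only [mem_iInf] at hx ⊢
  exact fun c hc => conj_mem_stab h (hx _ (map_rho_mem_comps hc (le_normalizer_of_normal (mem_top _))))⟩

theorem normal_iInf_kerAt [hQ : Q.Normal] : (⨅ c ∈ comps ρ Q, kerAt ρ c Q).Normal := ⟨fun x hx h => by
  simp only [mem_iInf] at hx ⊢
  intro c hc
  obtain ⟨h1, h2⟩ := hx _ (map_rho_mem_comps hc (le_normalizer_of_normal (mem_top h⁻¹)))
  refine ⟨conj_mem_stab h h1, fun a ha => ?_⟩
  obtain ⟨t, ht⟩ := h2 _ (hQ.conj_mem' a ha h)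
  refine ⟨t, fun w hw => ?_⟩
  rw [show ⁅a, h * x * h⁻¹⁆ = h * ⁅h⁻¹ * a * h, x⁆ * h⁻¹ by simp only [commutatorElement_def]; group,
    rho_mul_apply, rho_mul_apply, ht _ ⟨w, hw, rfl⟩, map_smul, ← rho_mul_apply, mul_inv_cancel, map_one,
    Module.End.one_apply]⟩

variable [CharP k 2] [Finite H] [FiniteDimensional k V]

theorem Hyp.centralizes (h : Hyp ρ q Q) {x : H} (hx : x ∈ ⨅ c ∈ comps ρ Q, kerAt ρ c Q) {l : ℕ}
    (hl : x ^ 2 ^ l = 1) : x ∈ centralizer (Q : Set H) := fun a ha => by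
  have := h.normal
  simp only [mem_iInf] at hx
  refine commutatorElement_eq_one_iff_mul_comm.1 (commute_of_coprime (l := q) ?_ ?_ hl
    (h.exp _ (commutator_le_left Q ⊤ (commutator_mem_commutator ha (mem_top _)))))
  · exact commutatorElement_eq_one_iff_commute.1 (eq_one_of_kerOn h.inj (h.card_ne le_rfl) fun c hc =>
      commutator_mem_kerOn_of_mem_scal ((hx c hc).2 a ha) (hx c hc).1)
  · exact ((Nat.coprime_primes Nat.prime_two h.prime).2 h.ne.symm).pow_left _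

variable [IsAlgClosed k]

theorem Hyp.loc_at (h : Hyp ρ q Q) (hc : c ∈ comps ρ Q) {t : H} (hg : Unip ρ g n)
    (hg' : Unip ρ (g * t) n) {R Y : Subgroup H} (h1 : Y ≤ R) (h2 : R ≤ stab ρ c)
    (h3 : ∀ y ∈ Y, y * y ∈ kerAt ρ c Q) (h4 : ∀ y ∈ Y, ∀ r ∈ R, ⁅y, r⁆ ∈ kerAt ρ c Q)
    (h5 : ∀ r ∈ R, r * r ∈ Y) (hR : g ∈ normalizer (R : Set H)) (hY : g ∈ normalizer (Y : Set H))
    (ht : t ∈ R) : (∀ r ∈ R, ⁅(g ^ 2 ^ n)⁻¹ * (g * t) ^ 2 ^ n, r⁆ ∈ kerAt ρ c Q) ∧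
      (t ∈ Y → (g ^ 2 ^ n)⁻¹ * (g * t) ^ 2 ^ n ∈ kerAt ρ c Q) := by
  have := h.normal
  obtain ⟨Γ, E, _, _, _, _, π, τ, hs⟩ := exists_sec (Q := Q) (S := stab ρ c) le_normalizer_of_normal
    (normalizer_scal (isInv_stab c)) (h.comm_le hc)
  have hk : ∀ x : stab ρ c, τ x = 1 ↔ x.1 ∈ kerAt ρ c Q := fun x =>
    (hs.eq_one_iff x).trans ⟨fun e => ⟨x.2, e⟩, fun e => e.2⟩
  obtain ⟨j, hj, hp, h6⟩ := h.special hc hs hg
  obtain ⟨j', -, hp', h6'⟩ := h.special hc hs hg'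
  have h7 : ∀ m, (g * t) ^ m ∈ stab ρ c ↔ g ^ m ∈ stab ρ c := fun m => by
    rw [← mul_inv_cancel_left (g ^ m) ((g * t) ^ m), mul_mem_cancel_right (h2 (pow_mul_mem hR ht m))]
  obtain rfl : j' = j := Nat.pow_right_injective le_rfl (Nat.dvd_antisymm
    ((hp' _).1 ((h7 _).2 ((hp _).2 dvd_rfl))) ((hp _).1 ((h7 _).1 ((hp' _).2 dvd_rfl))))
  let x : stab ρ c := ⟨_, (hp _).2 dvd_rfl⟩
  let u : stab ρ c := ⟨_, h2 (pow_mul_mem hR ht (2 ^ j'))⟩
  obtain ⟨h8, h9⟩ := h6 x rfl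
  obtain ⟨h8', h9'⟩ := h6' (x * u) (mul_inv_cancel_left _ _)
  rw [map_mul] at h8' h9'
  obtain ⟨h10, h11⟩ := local_lemma (hs.oddE (h.prime.odd_of_ne_two h.ne) h.exp)
    (R := (R.subgroupOf _).map τ) (Y := (Y.subgroupOf _).map τ) ⟨map_mono (comap_mono h1),
      map_le_range _ _, by rintro _ ⟨y, hy, rfl⟩; rw [← map_mul, hk]; exact h3 y hy, by
        rintro _ ⟨y, hy, rfl⟩ _ ⟨r, hr, rfl⟩
        rw [← commutatorElement_eq_one_iff_commute, ← map_commutatorElement, hk]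
        exact h4 y hy r hr, by rintro _ ⟨r, hr, rfl⟩; exact ⟨r * r, h5 r hr, map_mul _ _ _⟩⟩
    ⟨x, rfl⟩ (le_normalizer_map _ ⟨x, mem_normalizer_subgroupOf (pow_mem hR _), rfl⟩)
    (le_normalizer_map _ ⟨x, mem_normalizer_subgroupOf (pow_mem hY _), rfl⟩)
    ⟨u, pow_mul_mem hR ht _, rfl⟩ h8 h8' h9 h9'
  have e : (((x ^ 2 ^ (n - j'))⁻¹ * (x * u) ^ 2 ^ (n - j') : stab ρ c) : H) =
      (g ^ 2 ^ n)⁻¹ * (g * t) ^ 2 ^ n := by
    simp only [x, u, coe_mul, InvMemClass.coe_inv, SubgroupClass.coe_pow, mul_inv_cancel_left,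
      ← pow_mul, ← pow_add, Nat.add_sub_cancel' hj]
  rw [← e]
  refine ⟨fun r hr => (hk ⁅(x ^ 2 ^ (n - j'))⁻¹ * (x * u) ^ 2 ^ (n - j'), ⟨r, h2 hr⟩⁆).1 ?_, fun e' => (hk _).1 ?_⟩
  · rw [map_commutatorElement, commutatorElement_eq_one_iff_commute, map_mul, map_inv, map_pow, map_pow,
      map_mul]
    exact h10 _ ⟨_, hr, rfl⟩
  · rw [map_mul, map_inv, map_pow, map_pow, map_mul, h11 ⟨u, pow_mul_mem hY e' _, rfl⟩, inv_mul_cancel]

theorem Hyp.loc (h : Hyp ρ q Q) (hn : ∀ g : H, (∃ l, g ^ 2 ^ l = 1) → Unip ρ g n) {G : Type*} [Group G]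
    {π : H →* G} (hπ : Function.Surjective π) (hk : π.ker = ⨅ c ∈ comps ρ Q, kerAt ρ c Q) :
    Loc ((⨅ c ∈ comps ρ Q, stab ρ c).map π) (2 ^ n) := by
  have hk' : ∀ x, π x = 1 ↔ ∀ c ∈ comps ρ Q, x ∈ kerAt ρ c Q := fun x => by
    rw [← MonoidHom.mem_ker, hk]; simp only [mem_iInf]
  rintro s ⟨l, hl⟩
  obtain ⟨g, rfl, hg⟩ := exists_pow_pow_eq_one_map_eq hπ hl
  refine ⟨⟨g ^ 2 ^ n, ?_, map_pow _ _ _⟩, fun R Y hP hR hY t ht ⟨l', hl'⟩ => ?_⟩
  · simp only [SetLike.mem_coe, mem_iInf]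
    intro c hc
    obtain ⟨j, hj, hp, -⟩ := h.exc (hn g hg) hc
    exact (hp _).2 (pow_dvd_pow 2 hj)
  obtain ⟨g', e, hg'⟩ := exists_pow_pow_eq_one_map_eq hπ hl'
  obtain ⟨t, rfl⟩ : ∃ t, g' = g * t := ⟨g⁻¹ * g', (mul_inv_cancel_left _ _).symm⟩
  rw [map_mul, mul_left_cancel_iff] at e
  subst e
  have h2 : ∀ c ∈ comps ρ Q, R.comap π ≤ stab ρ c := fun c hc x hx => by
    obtain ⟨y, hy, e⟩ := hP.leG hx
    simp only [SetLike.mem_coe, mem_iInf] at hy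
    rw [← mul_inv_cancel_left y x]
    exact mul_mem (hy c hc) ((hk' _).1 (by rw [map_mul, map_inv, e, inv_mul_cancel]) c hc).1
  have key := fun c hc => h.loc_at hc (hn g hg) (hn _ hg') (comap_mono hP.le) (h2 c hc)
    (fun y hy => (hk' _).1 (by rw [map_mul, hP.sq _ hy]) c hc)
    (fun y hy r hr => (hk' _).1 (by rw [map_commutatorElement, (hP.cent _ hy _ hr).commutator_eq]) c hc)
    (fun r hr => by rw [mem_comap, map_mul]; exact hP.sqR _ hr) (le_normalizer_comap _ hR)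
    (le_normalizer_comap _ hY) ht
  refine ⟨fun r hr => ?_, fun e => ?_⟩
  · obtain ⟨r, rfl⟩ := hπ r
    have := (hk' _).2 fun c hc => (key c hc).1 r hr
    rwa [map_commutatorElement, commutatorElement_eq_one_iff_commute, map_mul, map_inv, map_pow, map_pow,
      map_mul] at this
  · have := (hk' _).2 fun c hc => (key c hc).2 e
    rwa [map_mul, map_inv, map_pow, map_pow, map_mul, inv_mul_eq_one, eq_comm] at this

end Cfsg.Agent.Reg.TwoLen
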