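import Cfsg.Agent.Lib.Reg.DerChain
import Cfsg.Agent.Lib.Reg.TwoLenLoc
import Cfsg.Agent.Lib.Coprime.Generate

/-!
# Elementary abelian `2`-groups acting on an irreducible module of a group of class two
-/

set_option autoImplicit false

namespace Cfsg.Agent.Reg.TwoDer

open Module Subgroup Cfsg.Agent.Mod Cfsg.Agent.Reg.TwoLen
open scoped commutatorElement

section Grp

variable {G : Type*} [Group G] {x s t : G}

/-- `s` inverts `x` -/
def Inverts (s x : G) : Prop := s * x * s⁻¹ = x⁻¹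

theorem Inverts.mul (hs : Inverts s x) (ht : Inverts t x) : Commute (s * t) x := by
  have : s * (t * x * t⁻¹) * s⁻¹ = x := by
    rw [ht, ← conj_inv, hs, inv_inv]
  rw [Commute, SemiconjBy]
  nth_rewrite 2 [← this]
  group

theorem Inverts.mul_left (ht : Inverts t x) (hs : Commute s x) : Inverts (s * t) x := by
  rw [Inverts, show s * t * x * (s * t)⁻¹ = s * (t * x * t⁻¹) * s⁻¹ by group, ht, hs.inv_right.eq,
    mul_inv_cancel_right]

/-- hyperbolic pairs of weight vectors -/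
structure HPair (Q R : Subgroup G) (x y : G) : Prop where
  left : x ∈ Q
  right : y ∈ Q
  ne : ⁅x, y⁆ ≠ 1
  act : ∀ r ∈ R, (Commute r x ∧ Commute r y) ∨ Inverts r x

theorem isMulCommutative_of_sq {R : Subgroup G} (hR : ∀ r ∈ R, r * r = 1) : IsMulCommutative R :=
  Core.isMulCommutative_of_forall fun a ha b hb =>
    commute_of_sq (hR a ha) (hR b hb) (hR _ (mul_mem ha hb))

end Grp

variable {k G V : Type*} [Field k] [Group G] [AddCommGroup V] [Module k V]
  {ρ : Representation k G V} {q : ℕ} {Q R : Subgroup G} {U : Submodule k V} {x y s : G} {ζ : k}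

theorem stab_top : stab ρ ⊤ = ⊤ := eq_top_iff.2 (isInv_iff_le_stab.1 (isInv_top ⊤))

theorem exists_eproj (hq : (q : k) ≠ 0) (hx : x ^ q = 1) (hζ : ζ ^ q = 1) : ∃ π : End k V,
    (∀ g, Commute g x → Commute (ρ g) π) ∧ (x ∈ stab ρ U → ∀ w ∈ U, π w ∈ U) ∧
      (∀ w, ρ x (π w) = ζ • π w) ∧ ∀ w, ρ x w = ζ • w → π w = w := by
  have h0 : ζ ≠ 0 := by
    rintro rfl
    rw [zero_pow (by rintro rfl; simp at hq)] at hζ
    exact zero_ne_one hζ
  refine ⟨(q : k)⁻¹ • ∑ i ∈ Finset.range q, (ζ⁻¹ • ρ x) ^ i, fun g hg => ?_, fun hU w hw => ?_,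
    fun w => ?_, fun w hw => ?_⟩
  · exact (Commute.sum_right _ _ _ fun i _ => ((hg.map ρ).smul_right _).pow_right i).smul_right _
  · rw [LinearMap.smul_apply, LinearMap.sum_apply]
    refine U.smul_mem _ (U.sum_mem fun i _ => ?_)
    rw [smul_pow, ← map_pow]
    exact U.smul_mem _ (isInv_stab U _ (pow_mem hU i) w hw)
  · have := LinearMap.congr_fun (mul_geom_sum (ζ⁻¹ • ρ x) q) w
    rw [smul_pow, ← map_pow, hx, inv_pow, hζ, map_one, inv_one, one_smul, sub_self, sub_mul, one_mul,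
      LinearMap.sub_apply, LinearMap.zero_apply, sub_eq_zero, End.mul_apply, LinearMap.smul_apply,
      inv_smul_eq_iff₀ h0] at this
    rw [LinearMap.smul_apply, map_smul, this, smul_comm]
  · have : ∀ i, ((ζ⁻¹ • ρ x) ^ i) w = w := fun i => by
      induction i with
      | zero => rfl
      | succ i ih => rw [pow_succ, End.mul_apply, LinearMap.smul_apply, hw, inv_smul_smul₀ h0, ih]
    simp [this, ← Nat.cast_smul_eq_nsmul k, smul_smul, hq]

theorem Inverts.smul (hs : Inverts s x) {v : V} (hv : ρ x v = ζ • v) : ζ • ρ x (ρ s v) = ρ s v := by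
  have : x * s * x = s := by
    rw [show x * s * x = x * (s * x * s⁻¹) * s by group, hs]; group
  rw [← map_smul, ← map_smul, ← hv, ← rho_mul_apply, ← rho_mul_apply, this]

variable [CharP k 2]

variable (k) in
include k in
theorem add_self (v : V) : v + v = 0 := by
  rw [← two_smul k, CharTwo.two_eq_zero, zero_smul]

theorem eq_zero_of_eig (hζ : ζ ≠ 1) {v : V} (h1 : ρ x v = ζ • v) (h2 : ζ • ρ x v = v) : v = 0 := by
  rw [h1, smul_smul, ← sub_eq_zero] at h2
  nth_rewrite 2 [← one_smul k v] at h2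
  rw [← sub_smul, smul_eq_zero, mul_self_sub_one, CharTwo.sub_eq_add, mul_self_eq_zero,
    ← CharTwo.sub_eq_add, sub_eq_zero] at h2
  exact h2.resolve_left hζ

variable [FiniteDimensional k V]

omit [CharP k 2] in
theorem mem_stab_inf {g : G} (hg : g ∈ stab ρ U) (h : Commute g x) :
    g ∈ stab ρ (U ⊓ End.eigenspace (ρ x) ζ) := by
  refine mem_stab_of_map_le ?_
  rintro _ ⟨w, ⟨hw, hw'⟩, rfl⟩
  refine ⟨isInv_stab U g hg w hw, End.mem_eigenspace_iff.2 ?_⟩
  rw [← rho_mul_apply, ← h.eq, rho_mul_apply, End.mem_eigenspace_iff.1 hw', map_smul]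

theorem exists_fix_of_odd (hU : Odd (finrank k U)) (hs : s ∈ stab ρ U) (h2 : s * s = 1) :
    ∃ v ∈ U, ρ s v = v ∧ v ∉ U.map (ρ s + 1) := by
  by_contra hne
  push Not at hne
  have h1 : ∀ w ∈ U, (ρ s + 1) w ∈ U := fun w hw => add_mem (isInv_stab U s hs w hw) hw
  have h3 : LinearMap.ker ((ρ s + 1).restrict h1) = LinearMap.range ((ρ s + 1).restrict h1) := by
    ext ⟨v, hv⟩
    constructor
    · intro e
      obtain ⟨w, hw, e'⟩ := hne v hv (by
        have e : ρ s v + v = 0 := congrArg Subtype.val e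
        exact add_right_cancel (e.trans (add_self k v).symm))
      exact ⟨⟨w, hw⟩, Subtype.ext e'⟩
    · rintro ⟨w, e⟩
      obtain rfl : ρ s w + w = v := congrArg Subtype.val e
      refine Subtype.ext ?_
      change ρ s (ρ s w + w) + (ρ s w + w) = 0
      rw [map_add, ← rho_mul_apply, h2, map_one, End.one_apply, add_comm w.1, add_self k]
  have := LinearMap.finrank_range_add_finrank_ker ((ρ s + 1).restrict h1)
  rw [h3] at this
  exact Nat.not_even_iff_odd.2 hU ⟨_, this.symm⟩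

variable [Finite G] [IsAlgClosed k] (h : Hyp ρ q Q) (hi : IsIrr ρ Q ⊤)
include h hi

omit [CharP k 2] [Finite G] in
theorem centralizer_le : centralizer (Q : Set G) ≤ center G := fun _ hx =>
  scal_top_le_center h.inj (hi.mem_scal_of_commute (stab_top (ρ := ρ) ▸ mem_top _) hx)

omit h [CharP k 2] [Finite G] in
theorem center_le : center G ≤ scal ρ ⊤ := fun _ hx =>
  hi.mem_scal_of_commute (stab_top (ρ := ρ) ▸ mem_top _) (center_le_centralizer _ hx)

omit [Finite G] in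
theorem eq_one_of_two {l : ℕ} (hl : x ^ 2 ^ l = 1) (hx : ∀ a ∈ Q, ⁅a, x⁆ ∈ center G) : x = 1 := by
  have := h.normal
  obtain ⟨t, ht⟩ := center_le hi (centralizer_le h hi (show x ∈ _ from fun a ha =>
    commutatorElement_eq_one_iff_mul_comm.1 (commute_of_coprime (l := q)
      (mem_center_iff.1 (hx a ha) x).symm
      (((Nat.coprime_primes Nat.prime_two h.prime).2 h.ne.symm).pow_left _) hl
      (h.exp _ (commutator_le_left Q ⊤ (commutator_mem_commutator ha (mem_top _)))))))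
  have h1 : ρ x = t • 1 := LinearMap.ext fun v => ht v trivial
  obtain ⟨w, -, hw⟩ := Submodule.exists_mem_ne_zero_of_ne_bot hi.ne_bot
  have h2 : t ^ 2 ^ l = 1 := smul_left_injective k hw (by
    simpa [h1, smul_pow] using congrArg (ρ · w) hl)
  rw [← sub_eq_zero, ← one_pow (2 ^ l), ← sub_pow_char_pow, pow_eq_zero_iff (by positivity),
    sub_eq_zero] at h2
  exact h.inj (by rw [h1, h2, one_smul, map_one])

omit hi [CharP k 2] [FiniteDimensional k V] [Finite G] [IsAlgClosed k] in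
theorem eq_one_of_sq (hx : x ∈ Q) (h2 : x ^ 2 = 1) : x = 1 :=
  orderOf_eq_one_iff.1 (Nat.eq_one_of_dvd_coprimes ((Nat.coprime_primes Nat.prime_two h.prime).2
    h.ne.symm) (orderOf_dvd_of_pow_eq_one h2) (orderOf_dvd_of_pow_eq_one (h.exp x hx)))

omit [CharP k 2] [Finite G] in
theorem Inverts.commute (hx : x ∈ Q) (hy : y ∈ Q) (h1 : Inverts s x) (h2 : Commute s y) :
    Commute y x :=
  commutatorElement_eq_one_iff_commute.1 (eq_one_of_sq h
    (Coprime.commutator_le_of_le_normalizer le_normalizer (commutator_mem_commutator hy hx))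
    (commutator_sq_eq_one (ξ := s) (centralizer_le h hi (h.two (commutator_mem_commutator hy hx)))
      (by rw [h2.eq]; simp) (by rw [h1]; simp)))

omit hi [CharP k 2] [FiniteDimensional k V] [Finite G] [IsAlgClosed k] in
theorem HPair.not (hp : HPair Q R x y) (h1 : Inverts s x) : ¬ Commute s x := fun h2 => by
  rw [Inverts, h2.eq, mul_inv_cancel_right, ← mul_eq_one_iff_eq_inv, ← sq] at h1
  exact hp.ne (by rw [eq_one_of_sq h hp.left h1, commutatorElement_one_left])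

theorem exists_hpair (hR : ∀ r ∈ R, r * r = 1) (hs : s ∈ R) (h1 : s ≠ 1) :
    ∃ x y, HPair Q R x y ∧ Inverts s x := by
  have := h.normal
  have hc := isMulCommutative_of_sq hR
  have key : ∀ K, ¬ Q ≤ K → ∃ B ≤ R, (∀ a ∈ R, ∀ b ∈ R, a * b ∈ B ↔ (a ∈ B ↔ b ∈ B)) ∧
      ∃ a ∈ Q, a ∈ centralizer (B : Set G) ∧ a ∉ K := fun K hK => by
    by_contra hne
    refine hK (Coprime.le_of_forall_hyperplane (p := 2) hc (fun a ha => (sq a).trans (hR a ha))
      (fun e => h1 (mem_bot.1 (e ▸ hs))) le_normalizer_of_normal ?_ fun B hB e a ha => by_contra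
        fun e' => hne ⟨B, hB, fun a ha b hb => mul_mem_iff_of_index_two (H := B.subgroupOf R) e
          (a := ⟨a, ha⟩) (b := ⟨b, hb⟩), a, ha.1, ha.2, e'⟩)
    obtain ⟨m, hm⟩ := IsPGroup.iff_card.1 (Core.isPGroup_of_forall_mem (p := 2) (P := R)
      fun a ha => ⟨1, (sq a).trans (hR a ha)⟩)
    exact hm ▸ (h.coprime le_rfl).pow_left m
  obtain ⟨B, hB, h2, a, ha, ha1, ha2⟩ := key ((centralizer {(s : G ⧸ center G)}).comap
    (QuotientGroup.mk' _)) fun e => h1 (eq_one_of_two h hi (l := 1) ((sq s).trans (hR s hs))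
      fun a ha => by
        rw [← QuotientGroup.eq_one_iff, ← QuotientGroup.mk'_apply, map_commutatorElement,
          commutatorElement_eq_one_iff_mul_comm]
        exact (e ha _ rfl).symm)
  have h3 : ⁅a, s⁆ ∉ center G := fun e => ha2 (by
    rw [← QuotientGroup.eq_one_iff, ← QuotientGroup.mk'_apply, map_commutatorElement,
      commutatorElement_eq_one_iff_mul_comm] at e
    rintro _ rfl
    exact e.symm)
  have h4 : s ∉ B := fun e => h3 (by
    rw [commutatorElement_eq_one_iff_mul_comm.2 (ha1 s e).symm]; exact one_mem _)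
  have h5 : ⁅a, s⁆ ∈ Q := commutator_le_left Q ⊤ (commutator_mem_commutator ha (mem_top _))
  have h6 : ∀ b ∈ B, Commute b ⁅a, s⁆ := fun b hb => by
    have c1 : Commute b a := ha1 b hb
    have c2 : Commute b s := Coprime.mul_comm_of_mem hc (hB hb) hs
    exact ((c1.mul_right c2).mul_right c1.inv_right).mul_right c2.inv_right
  have h7 : Inverts s ⁅a, s⁆ := by
    rw [Inverts, commutatorElement_inv, commutatorElement_def, commutatorElement_def,
      inv_eq_of_mul_eq_one_left (hR s hs), mul_assoc, mul_assoc, hR s hs]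
    group
  have h8 : ∀ r ∈ R, r ∉ B → Inverts r ⁅a, s⁆ := fun r hr e => by
    have := h7.mul_left (h6 _ ((h2 r hr s hs).2 (iff_of_false e h4)))
    rwa [mul_assoc, hR s hs, mul_one] at this
  obtain ⟨B', hB', h9, y, hy, hy1, hy2⟩ := key (centralizer {⁅a, s⁆}) fun e =>
    h3 (centralizer_le h hi fun b hb => (e hb _ rfl).symm)
  have h10 : B' ≤ B := fun r hr => by_contra fun e => hy2 (by
    rintro _ rfl
    exact ((h8 r (hB' hr) e).commute h hi h5 hy (hy1 r hr)).symm)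
  refine ⟨_, y, ⟨h5, hy, fun e => hy2 (by
    rintro _ rfl
    exact commutatorElement_eq_one_iff_mul_comm.1 e), fun r hr => or_iff_not_imp_right.2 fun e => ?_⟩, h7⟩
  have h11 : r ∈ B := by_contra fun e' => e (h8 r hr e')
  refine ⟨h6 r h11, hy1 r (by_contra fun e' => h4 ?_)⟩
  exact (mul_mem_cancel_left h11).1 (h10 ((h9 r hr s hs).2 (iff_of_false e' fun e => h4 (h10 e))))

theorem HPair.exists_eig (hp : HPair Q R x y) (hx : x ∈ stab ρ U) (hy : y ∈ stab ρ U)
    (hU : Odd (finrank k U)) : ∃ ζ ≠ 1, Odd (finrank k ↥(U ⊓ End.eigenspace (ρ x) ζ)) := by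
  have h1 : iSupIndep fun ζ => U ⊓ End.eigenspace (ρ x) ζ :=
    (End.eigenspaces_iSupIndep (ρ x)).mono fun _ => inf_le_right
  have h2 := Submodule.finite_ne_bot_of_iSupIndep h1
  have h3 : U = ⨆ ζ ∈ h2.toFinset, U ⊓ End.eigenspace (ρ x) ζ := by
    refine le_antisymm (IsInv.le_of_forall_isIrr (h.card_ne (zpowers_le.2 hp.left))
      (isInv_iff_le_stab.2 (zpowers_le.2 hx)) fun W hW hW' => ?_) (iSup₂_le fun _ _ => inf_le_left)
    obtain ⟨t, ht⟩ := hW'.mem_scal_of_commute (isInv_iff_le_stab.1 hW'.inv (mem_zpowers x))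
      (le_centralizer_iff_isMulCommutative.2 inferInstance (mem_zpowers x))
    have h3 : W ≤ U ⊓ End.eigenspace (ρ x) t := le_inf hW fun w hw => End.mem_eigenspace_iff.2 (ht w hw)
    exact h3.trans (le_iSup₂_of_le t (h2.mem_toFinset.2 fun e => hW'.ne_bot (eq_bot_iff.2 (e ▸ h3))) le_rfl)
  obtain ⟨ζ, h4⟩ : ∃ ζ, Odd (finrank k ↥(U ⊓ End.eigenspace (ρ x) ζ)) := by
    by_contra hne
    rw [h3, finrank_biSup_of_iSupIndep h1] at hU
    exact Nat.not_even_iff_odd.2 hU (Finset.even_sum _ fun ζ _ =>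
      Nat.not_odd_iff_even.1 fun e => hne ⟨ζ, e⟩)
  refine (ne_or_eq ζ 1).elim (⟨ζ, ·, h4⟩) ?_
  rintro rfl
  obtain ⟨η, hη⟩ := center_le hi (centralizer_le h hi (h.two (commutator_mem_commutator hp.left hp.right)))
  refine ⟨η, fun e => hp.ne (h.inj (LinearMap.ext fun v => by simpa [e] using hη v trivial)), ?_⟩
  rwa [← finrank_map_rho (ρ := ρ) _ y, show (U ⊓ End.eigenspace (ρ x) 1).map (ρ y) =
    U ⊓ End.eigenspace (ρ x) η from Submodule.ext fun v => by
      rw [mem_map_rho, Submodule.mem_inf, Submodule.mem_inf, ← mem_map_rho, mem_stab.1 hy,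
        End.mem_eigenspace_iff, End.mem_eigenspace_iff, one_smul,
        ← (rho_injective ρ (⁅x, y⁆ * y)).eq_iff, ← rho_mul_apply, ← rho_mul_apply, ← rho_mul_apply,
        mul_inv_cancel_right, hη v trivial, show ⁅x, y⁆ * y * x * y⁻¹ = x by
          simp only [commutatorElement_def]; group]] at h4

theorem odd_finrank : Odd (finrank k (⊤ : Submodule k V)) := by
  have := Fact.mk h.prime
  obtain ⟨d, hd⟩ := hi.exists_finrank_eq_pow h.isPGroup (h.card_ne le_rfl)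
  exact hd ▸ (h.prime.odd_of_ne_two h.ne).pow

theorem not_quadratic (hR : ∀ r ∈ R, r * r = 1) (h0 : cm ρ (cm ρ ⊤ R) R = ⊥) {a b : G} (ha : a ∈ R)
    (hb : b ∈ R) (hb1 : b ≠ 1) (hp : HPair Q R x y) (h1 : Inverts a x) (h2 : Commute b x) : False := by
  obtain ⟨x', y', hp', h3⟩ := exists_hpair h hi hR hb hb1
  obtain ⟨a, ha, h1, h4⟩ : ∃ a ∈ R, Inverts a x ∧ Commute a x' := by
    rcases hp'.act a ha with e | e
    · exact ⟨a, ha, h1, e.1⟩
    · exact ⟨b * a, mul_mem hb ha, h1.mul_left h2, h3.mul e⟩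
  have h5 := ((hp'.act a ha).resolve_right fun e => hp'.not h e h4).2
  have ht : ∀ g, g ∈ stab ρ ⊤ := fun g => stab_top (ρ := ρ) ▸ mem_top g
  obtain ⟨ζ, h6, h7⟩ := hp.exists_eig h hi (ht _) (ht _) (odd_finrank h hi)
  obtain ⟨ζ', h8, h9⟩ := hp'.exists_eig h hi
    (mem_stab_inf (ht _) (h1.commute h hi hp.left hp'.left h4))
    (mem_stab_inf (ht _) (h1.commute h hi hp.left hp'.right h5)) h7
  obtain ⟨v, ⟨⟨-, e1⟩, e2⟩, hv⟩ := Submodule.exists_mem_ne_zero_of_ne_bot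
    (fun e => by rw [e] at h9; simp at h9 : (⊤ ⊓ End.eigenspace (ρ x) ζ) ⊓ End.eigenspace (ρ x') ζ' ≠ ⊥)
  replace e1 := End.mem_eigenspace_iff.1 e1
  replace e2 := End.mem_eigenspace_iff.1 e2
  have e3 : ρ x (ρ b v - v) = ζ • (ρ b v - v) := by
    rw [map_sub, ← rho_mul_apply, ← h2.eq, rho_mul_apply, e1, map_smul, smul_sub]
  have e4 := h1.smul e3
  rw [sub_eq_zero.1 ((Submodule.mem_bot k).1 (h0.le (sub_mem_cm ha (sub_mem_cm hb (w := v) trivial))))] at e4
  have e5 := h3.smul e2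
  rw [sub_eq_zero.1 (eq_zero_of_eig h6 e3 e4)] at e5
  exact hv (eq_zero_of_eig h8 e2 e5)

/-- A quadratic group has order at most two. -/
theorem eq_of_quadratic (h0 : cm ρ (cm ρ ⊤ R) R = ⊥) {a b : G} (ha : a ∈ R) (hb : b ∈ R)
    (ha1 : a ≠ 1) (hb1 : b ≠ 1) : a = b := by
  have hR : ∀ r ∈ R, r * r = 1 := fun r hr => h.inj (LinearMap.ext fun v => by
    have := (Submodule.mem_bot k).1 (h0.le (sub_mem_cm hr (sub_mem_cm hr (w := v) trivial)))
    rw [map_sub, ← rho_mul_apply, sub_sub, ← add_sub_assoc, add_self k,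
      zero_sub, sub_neg_eq_add, ← add_self k v, add_left_inj] at this
    simpa using this)
  by_contra hne
  obtain ⟨x, y, hp, h1⟩ := exists_hpair h hi hR (mul_mem ha hb) fun e =>
    hne (mul_left_cancel ((hR a ha).trans e.symm))
  have e : a * (a * b) = b := by rw [← mul_assoc, hR a ha, one_mul]
  rcases hp.act a ha with h2 | h2
  · exact not_quadratic h hi hR h0 hb ha ha1 hp (e ▸ h1.mul_left h2.1) h2.1
  · exact not_quadratic h hi hR h0 ha hb hb1 hp h2 (e ▸ h2.mul h1)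

theorem exists_sep (hR : ∀ r ∈ R, r * r = 1) (R₀ R' : Subgroup G) (h1 : R' ≤ R) (h2 : ¬ R' ≤ R₀)
    (hU : Odd (finrank k U)) (h3 : R' ≤ stab ρ U)
    (h4 : ∀ x y, HPair Q R x y → (∃ s ∈ R', Inverts s x) → x ∈ stab ρ U ∧ y ∈ stab ρ U) :
    ∃ r₀ ∈ R', r₀ ∉ R₀ ∧ ∃ v ∈ U, ρ r₀ v = v ∧ ∃ M : Submodule k V, v ∉ M ∧
      (∀ w ∈ U, ρ r₀ w + w ∈ M) ∧ ∀ r ∈ R', r ≠ 1 → r ≠ r₀ → ∀ w ∈ U, ρ r w = w → w ∈ M := by
  induction R' using WellFoundedLT.induction generalizing U with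
  | ind R' ih =>
  by_cases hc : ∃ x y, HPair Q R x y ∧ (∃ s ∈ R', Inverts s x) ∧ ¬ R' ⊓ centralizer {x} ≤ R₀
  swap
  · push Not at hc
    obtain ⟨r₀, h5, h6⟩ := SetLike.not_le_iff_exists.1 h2
    obtain ⟨v, hv, h7, h8⟩ := exists_fix_of_odd hU (h3 h5) (hR _ (h1 h5))
    refine ⟨r₀, h5, h6, v, hv, h7, _, h8, fun w hw => ⟨w, hw, rfl⟩, fun r hr e1 e2 => (h6 ?_).elim⟩
    have key : ∀ s ∈ R', s ≠ 1 → r₀ * s ∈ R₀ := fun s hs e => by
      obtain ⟨x, y, hp, h9⟩ := exists_hpair h hi hR (h1 hs) e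
      have h10 := hc x y hp ⟨s, hs, h9⟩
      refine h10 ⟨mul_mem h5 hs, mem_centralizer_singleton_iff.2 (Inverts.mul ?_ h9)⟩
      exact (hp.act r₀ (h1 h5)).resolve_left fun e => h6 (h10 ⟨h5, mem_centralizer_singleton_iff.2 e.1⟩)
    have h9 := key _ (mul_mem h5 hr) fun e => e2 (mul_left_cancel (e.trans (hR _ (h1 h5)).symm))
    rw [← mul_assoc, hR _ (h1 h5), one_mul] at h9
    exact (mul_mem_cancel_right h9).1 (key r hr e1)
  obtain ⟨x, y, hp, ⟨s, hs, h5⟩, h6⟩ := hc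
  obtain ⟨hx, hy⟩ := h4 x y hp ⟨s, hs, h5⟩
  obtain ⟨ζ, hζ, h7⟩ := hp.exists_eig h hi hx hy hU
  obtain ⟨r₀, ⟨h8, h8'⟩, h9, v, ⟨hv, hv'⟩, h10, M, h11, h12, h13⟩ := ih (R' ⊓ centralizer {x})
    (inf_lt_left.2 fun e => hp.not h h5 (mem_centralizer_singleton_iff.1 (e hs))) (inf_le_left.trans h1)
    h6 h7 (fun r hr => mem_stab_inf (h3 hr.1) (mem_centralizer_singleton_iff.1 hr.2)) (by
      rintro x' y' hp' ⟨t, ⟨ht, ht'⟩, h8⟩
      obtain ⟨h9, h10⟩ := h4 x' y' hp' ⟨t, ht, h8⟩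
      obtain ⟨a, ha, h11, h12⟩ : ∃ a ∈ R, Inverts a x ∧ Commute a x' := by
        rcases hp'.act s (h1 hs) with e | e
        · exact ⟨s, h1 hs, h5, e.1⟩
        · exact ⟨t * s, h1 (mul_mem ht hs), h5.mul_left (mem_centralizer_singleton_iff.1 ht'), h8.mul e⟩
      exact ⟨mem_stab_inf h9 (h11.commute h hi hp.left hp'.left h12), mem_stab_inf h10
        (h11.commute h hi hp.left hp'.right ((hp'.act a ha).resolve_right fun e => hp'.not h e h12).2)⟩)
  replace hv' := End.mem_eigenspace_iff.1 hv'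
  have hq : ζ ^ q = 1 := smul_left_injective k (fun e : v = 0 => h11 (e ▸ zero_mem _)) (by
    have := End.HasEigenvector.pow_apply ⟨End.mem_eigenspace_iff.2 hv', fun e => h11 (e ▸ zero_mem _)⟩ q
    simpa [← map_pow, h.exp x hp.left] using this.symm)
  obtain ⟨π, p1, p2, p3, p4⟩ := exists_eproj (ρ := ρ) (U := U) (natCast_ne_zero_of_not_dvd k
    fun e => h.ne ((Nat.prime_dvd_prime_iff_eq Nat.prime_two h.prime).1 e).symm) (h.exp x hp.left) hq
  have p5 : ∀ w ∈ U, π w ∈ U ⊓ End.eigenspace (ρ x) ζ := fun w hw =>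
    ⟨p2 hx w hw, End.mem_eigenspace_iff.2 (p3 w)⟩
  have p6 : ∀ r ∈ centralizer {x}, ∀ w, π (ρ r w) = ρ r (π w) := fun r hr w =>
    (LinearMap.congr_fun (p1 r (mem_centralizer_singleton_iff.1 hr)) w).symm
  have hc : ∀ r ∈ R', ∀ w, ρ s (ρ r w) = ρ r (ρ s w) := fun r hr w => by
    rw [← rho_mul_apply, ← rho_mul_apply,
      Coprime.mul_comm_of_mem (isMulCommutative_of_sq hR) (h1 hs) (h1 hr)]
  have hU' : ∀ w ∈ U, ρ s w + w ∈ U := fun w hw => add_mem (isInv_stab U s (h3 hs) w hw) hw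
  refine ⟨r₀, h8, h9, v, hv, h10, M.comap (π ∘ₗ (ρ s + 1)), fun e => h11 ?_, fun w hw => ?_,
    fun r hr e1 e2 w hw e3 => ?_⟩
  · change π (ρ s v + v) ∈ M at e
    rwa [map_add, p4 v hv', eq_zero_of_eig hζ (p3 _) (by
      rw [← p6 x (mem_centralizer_singleton_iff.2 rfl), ← map_smul, h5.smul hv']), zero_add] at e
  · change π (ρ s (ρ r₀ w + w) + (ρ r₀ w + w)) ∈ M
    rw [map_add (ρ s), hc _ h8, add_add_add_comm, ← map_add, map_add π, p6 _ h8']
    exact h12 _ (p5 _ (hU' w hw))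
  change π (ρ s w + w) ∈ M
  rcases hp.act r (h1 hr) with h14 | h14
  · have h15 := mem_centralizer_singleton_iff.2 h14.1
    exact h13 r ⟨hr, h15⟩ e1 e2 _ (p5 _ (hU' w hw)) (by rw [← p6 r h15, map_add, ← hc r hr, e3])
  have h15 := mem_centralizer_singleton_iff.2 (h5.mul h14)
  nth_rewrite 1 [← e3]
  rw [← rho_mul_apply, map_add, p6 _ h15]
  by_cases e4 : s * r = 1
  · rw [e4, map_one, End.one_apply, add_self k]; exact zero_mem _
  by_cases e5 : s * r = r₀
  · exact e5 ▸ h12 _ (p5 w hw)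
  refine h13 _ ⟨mul_mem hs hr, h15⟩ e4 e5 _ (add_mem (isInv_stab _ _ (mem_stab_inf (h3 (mul_mem hs hr))
    (h5.mul h14)) _ (p5 w hw)) (p5 w hw)) ?_
  rw [map_add, ← rho_mul_apply, hR _ (h1 (mul_mem hs hr)), map_one, End.one_apply, add_comm]

/-- **The local lemma.** -/
theorem le_centralizer_dser (hR : ∀ r ∈ R, r * r = 1) {D : Subgroup G} (hD : IsPGroup 2 D)
    (hDR : D ≤ normalizer (R : Set G)) {u : G} (hu : u ∈ R) (hu1 : u ≠ 1) {t : ℕ}
    (hc : u ∈ centralizer (dser D t : Set G)) (h0 : chain ρ ⊤ D (t + 1) ≤ fix ρ (zpowers u)) :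
    R ≤ centralizer (dser D t : Set G) := by
  by_contra hne
  have ht : ∀ g, g ∈ stab ρ ⊤ := fun g => stab_top (ρ := ρ) ▸ mem_top g
  obtain ⟨r₀, h1, h2, v, -, h3, M, h4, -, h5⟩ := exists_sep h hi hR _ R le_rfl hne (odd_finrank h hi)
    (fun g _ => ht g) fun x y _ _ => ⟨ht x, ht y⟩
  have h6 : ∀ r ∈ R, r ≠ 1 → r ≠ r₀ → fix ρ (zpowers r) ≤ M := fun r hr e1 e2 w hw =>
    h5 r hr e1 e2 w trivial (mem_fix_zpowers.1 hw)
  have h7 : ∀ g r, (fix ρ (zpowers r)).map (ρ g) = fix ρ (zpowers (g * r * g⁻¹)) := fun g r => by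
    ext w
    rw [mem_map_rho, mem_fix_zpowers, mem_fix_zpowers, rho_mul_apply, rho_mul_apply,
      eq_comm, ρ.inv_apply_eq_iff, eq_comm]
  have h8 : r₀ ≠ 1 := fun e => h2 (e ▸ one_mem _)
  refine h4 (((le_chain_sup' (X := fix ρ (zpowers r₀)) (t := t + 1) hD
    (𝒳 := {X | ∃ r ∈ R, r ≠ 1 ∧ X = fix ρ (zpowers r)}) ?_ ⟨r₀, h1, h8, rfl⟩ fun s hs e => h2 fun g hg => ?_).trans
      (sup_le (h0.trans (h6 u hu hu1 fun e => h2 (e ▸ hc))) (sSup_le ?_))) (mem_fix_zpowers.2 h3))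
  · rintro g hg _ ⟨r, hr, e, rfl⟩
    exact ⟨_, conj_mem (hDR hg) hr, by simpa using e, h7 g r⟩
  · have h9 := e (dser_anti D (Nat.le_of_lt_succ hs) hg)
    rw [mem_stab, h7] at h9
    refine mul_inv_eq_iff_eq_mul.1 (by_contra fun e' => h4 (h6 _ (conj_mem (hDR (dser_le D t hg)) h1)
      (by simpa using h8) e' (h9.ge (mem_fix_zpowers.2 h3))))
  · rintro _ ⟨⟨r, hr, e, rfl⟩, e'⟩
    exact h6 r hr e fun e => e' (by rw [e]; rfl)

end Cfsg.Agent.Reg.TwoDer
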