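import Mathlib
import Cfsg.Agent.Lib.Reg.Metacyclic
import Cfsg.Agent.Lib.PGrp.Frattini

/-!
# Metacyclic p-groups, p odd: centralizers, derived subgroups of subgroups (Topic Reg)
-/

set_option autoImplicit false

open scoped commutatorElement

namespace Cfsg.Agent.Reg

/-- The orthogonal complement for the determinant form on `(ZMod N)²`. -/
def detPerp {N : ℕ} (W : Submodule (ZMod N) (ZMod N × ZMod N)) :
    Submodule (ZMod N) (ZMod N × ZMod N) where
  carrier := {v | ∀ w ∈ W, w.1 * v.2 = v.1 * w.2}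
  zero_mem' := by simp
  add_mem' := by
    intro a b ha hb w hw
    simp only [Prod.snd_add, Prod.fst_add, mul_add, add_mul, ha w hw, hb w hw]
  smul_mem' := by
    intro c a ha w hw
    simp only [Prod.smul_snd, Prod.smul_fst, smul_eq_mul]
    linear_combination c * ha w hw

theorem card_mul_card_detPerp {N : ℕ} [NeZero N] (W : Submodule (ZMod N) (ZMod N × ZMod N)) :
    Nat.card W * Nat.card (detPerp W) = N ^ 2 := by
  let β : W →+ (ZMod N × ZMod N) →+ ZMod N :=
    { toFun := fun w =>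
        { toFun := fun v => w.1.1 * v.2 - v.1 * w.1.2
          map_zero' := by simp
          map_add' := by intro a b; simp; ring }
      map_zero' := by ext; simp
      map_add' := by intro a b; ext; simp; ring }
  have h := index_ker_eq_index_ker_flip_zmod β
  have h1 : β.ker = ⊥ := by
    rw [eq_bot_iff]
    intro w hw
    have ha := DFunLike.congr_fun (AddMonoidHom.mem_ker.mp hw) (1, 0)
    have hb := DFunLike.congr_fun (AddMonoidHom.mem_ker.mp hw) (0, 1)
    simp only [β, AddMonoidHom.coe_mk, ZeroHom.coe_mk, mul_zero, one_mul, zero_sub,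
      AddMonoidHom.zero_apply, neg_eq_zero, mul_one, zero_mul, sub_zero] at ha hb
    rw [AddSubgroup.mem_bot]
    exact Subtype.ext (Prod.ext hb ha)
  have h2 : β.flip.ker = (detPerp W).toAddSubgroup := by
    ext v
    rw [AddMonoidHom.mem_ker, DFunLike.ext_iff]
    constructor
    · intro hv w hw
      exact sub_eq_zero.mp (hv ⟨w, hw⟩)
    · intro hv w
      exact sub_eq_zero.mpr (hv w.1 w.2)
  rw [h1, h2, AddSubgroup.index_bot] at h
  rw [h, mul_comm]
  have := (detPerp W).toAddSubgroup.card_mul_index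
  rw [Nat.card_prod, Nat.card_zmod, ← sq] at this
  exact this

theorem zmod_pow_mul_eq_zero_iff {p : ℕ} (hp : p.Prime) {n i : ℕ} (hi : i ≤ n) (u : ZMod (p ^ n)) :
    ((p ^ i : ℕ) : ZMod (p ^ n)) * u = 0 ↔ p ^ (n - i) ∣ u.val := by
  have : NeZero (p ^ n) := ⟨pow_ne_zero _ hp.ne_zero⟩
  conv_lhs => rw [← ZMod.natCast_zmod_val u, ← Nat.cast_mul, ZMod.natCast_eq_zero_iff]
  generalize u.val = m
  have : p ^ n = p ^ i * p ^ (n - i) := by rw [← pow_add]; congr 1; omega
  conv_lhs => rw [this]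
  exact Nat.mul_dvd_mul_iff_left (pow_pos hp.pos i)

theorem card_zmod_torsion {p : ℕ} (hp : p.Prime) {n i : ℕ} (hi : i ≤ n) :
    Nat.card {u : ZMod (p ^ n) // (p ^ i) • u = 0} = p ^ i := by
  have : NeZero (p ^ n) := ⟨pow_ne_zero _ hp.ne_zero⟩
  have h := IsAddCyclic.card_nsmulAddMonoidHom_ker (ZMod (p ^ n)) (p ^ i)
  rw [Nat.card_zmod, Nat.gcd_eq_right (pow_dvd_pow p hi)] at h
  exact h

variable {G : Type*} [Group G]

/-- If `K = H ⟨g⟩` with `H` normal in `K` then `g ^ m ∈ H` iff the index of `H` in `K` divides `m`. -/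
theorem pow_mem_iff_relIndex_dvd {H K : Subgroup G} [hn : (H.subgroupOf K).Normal] {g : G}
    (hg : g ∈ K) (hgen : ∀ k ∈ K, ∃ m : ℕ, k * (g ^ m)⁻¹ ∈ H) (m : ℕ) :
    g ^ m ∈ H ↔ H.relIndex K ∣ m := by
  have h1 : orderOf ((⟨g, hg⟩ : K) : K ⧸ H.subgroupOf K) = H.relIndex K := by
    apply orderOf_eq_card_of_forall_mem_powers
    rintro ⟨k, hk⟩
    obtain ⟨l, hl⟩ := hgen k hk
    refine ⟨l, ?_⟩
    change (((⟨g, hg⟩ : K) : K ⧸ H.subgroupOf K)) ^ l = ((⟨k, hk⟩ : K) : K ⧸ H.subgroupOf K)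
    rw [← QuotientGroup.mk_pow, eq_comm, QuotientGroup.eq_iff_div_mem, div_eq_mul_inv]
    exact hl
  rw [← h1, orderOf_dvd_iff_pow_eq_one, ← QuotientGroup.mk_pow, QuotientGroup.eq_one_iff]
  rfl

namespace MetaGens

variable {p : ℕ} {D : MetaGens p G} [hp : Fact p.Prime] (hp2 : p ≠ 2) {n : ℕ}
  (hN : orderOf D.z = p ^ n)
include hN hp2

theorem centralizer_eq (R : Subgroup G) :
    Subgroup.centralizer (R : Set G) = preimage hN (detPerp (image hp2 hN R)) := by
  ext g
  rw [Subgroup.mem_centralizer_iff, mem_preimage]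
  constructor
  · rintro h _ ⟨k, hk, rfl⟩
    exact (commute_iff_φ hN k g).mp (h k hk)
  · intro h k hk
    exact (commute_iff_φ hN k g).mpr (h _ ⟨k, hk, rfl⟩)

theorem card_mul_card_centralizer (R : Subgroup G) :
    Nat.card R * Nat.card (Subgroup.centralizer (R : Set G)) =
      Nat.card (Subgroup.center G ⊓ R : Subgroup G) * Nat.card G := by
  have : NeZero (p ^ n) := ⟨pow_ne_zero _ hp.out.ne_zero⟩
  rw [centralizer_eq hp2 hN, card_preimage hp2 hN, ← PGrp.card_inf_mul_relIndex (Subgroup.center G) R,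
    relIndex_center hp2 hN, ← (Subgroup.center G).card_mul_index, index_center hp2 hN,
    ← card_mul_card_detPerp (image hp2 hN R)]
  ring

theorem image_zpowers (g : G) :
    image hp2 hN (Subgroup.zpowers g) = Submodule.span _ {D.φ (p ^ n) g} := by
  apply le_antisymm
  · rintro _ ⟨k, hk, rfl⟩
    exact (Subgroup.zpowers_le.mpr
      ((mem_preimage hN).mpr (Submodule.mem_span_singleton_self _)) : _ ≤ preimage hN _) hk
  · rw [Submodule.span_singleton_le_iff_mem]
    exact ⟨g, Subgroup.mem_zpowers g, rfl⟩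

theorem index_centralizer [Finite G] (g : G) :
    (Subgroup.centralizer ({g} : Set G)).index = addOrderOf (D.φ (p ^ n) g) := by
  have : NeZero (p ^ n) := ⟨pow_ne_zero _ hp.out.ne_zero⟩
  have h := card_mul_card_centralizer hp2 hN (Subgroup.zpowers g)
  have e : Subgroup.centralizer (Subgroup.zpowers g : Set G) = Subgroup.centralizer {g} := by
    rw [Subgroup.zpowers_eq_closure, Subgroup.centralizer_closure]
  rw [e, ← PGrp.card_inf_mul_relIndex (Subgroup.center G) (Subgroup.zpowers g),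
    relIndex_center hp2 hN, image_zpowers, ← (Subgroup.centralizer {g}).card_mul_index, mul_assoc,
    Nat.mul_right_inj Nat.card_pos.ne', mul_comm, Nat.mul_right_inj Nat.card_pos.ne'] at h
  rw [← h, ← Nat.card_zmultiples]
  have : (Submodule.span (ZMod (p ^ n)) {D.φ (p ^ n) g}).toAddSubgroup =
      AddSubgroup.zmultiples (D.φ (p ^ n) g) := by
    apply le_antisymm
    · intro v hv
      obtain ⟨c, rfl⟩ := Submodule.mem_span_singleton.mp hv
      rw [← ZMod.natCast_zmod_val c, Nat.cast_smul_eq_nsmul]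
      exact AddSubgroup.nsmul_mem _ (AddSubgroup.mem_zmultiples _) _
    · rw [AddSubgroup.zmultiples_le]
      exact Submodule.mem_span_singleton_self _
  rw [← this]
  rfl

theorem exists_index_card_commutator [Finite G] (hG : IsPGroup p G) (L : Subgroup G) :
    ∃ k : ℕ, L.index = p ^ k ∧ Nat.card (⁅L, L⁆ : Subgroup G) = p ^ (n - k) := by
  have := D.zpowers_x_normal
  set N := Subgroup.zpowers D.x with hNdef
  obtain ⟨i, hi⟩ : ∃ i, L.relIndex N = p ^ i := (hG.to_subgroup N).index _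
  obtain ⟨j, hj⟩ : ∃ j, (L ⊔ N).index = p ^ j := hG.index _
  have hxN : D.x ∈ N := Subgroup.mem_zpowers _
  have hLN : (L ⊔ N).Normal := PGrp.normal_of_commutator_le (by
    rw [D.commutator_eq, Subgroup.zpowers_le]
    exact Subgroup.mem_sup_right (N.pow_mem hxN _))
  have hx : ∀ m, D.x ^ m ∈ L ↔ p ^ i ∣ m := by
    rw [← hi]
    refine pow_mem_iff_relIndex_dvd hxN fun k hk => ?_
    obtain ⟨m, rfl⟩ := (mem_powers_iff_mem_zpowers).mpr hk
    exact ⟨m, by simp⟩
  have hy : ∀ m, D.y ^ m ∈ L ⊔ N ↔ p ^ j ∣ m := by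
    rw [← hj, ← Subgroup.relIndex_top_right]
    refine pow_mem_iff_relIndex_dvd (Subgroup.mem_top _) fun k _ => ?_
    obtain ⟨a, b, rfl⟩ := D.gen k
    exact ⟨b, by simpa using Subgroup.mem_sup_right (N.pow_mem hxN a)⟩
  refine ⟨i + j, ?_, ?_⟩
  · rw [← Subgroup.relIndex_mul_index (le_sup_left : L ≤ L ⊔ N), hj, pow_add, ← hi]
    congr 1
    have h1 := PGrp.card_sup_mul_card_inf L N
    rw [← PGrp.card_mul_relIndex (le_sup_left : L ≤ L ⊔ N), ← PGrp.card_inf_mul_relIndex L N,
      mul_assoc, Nat.mul_right_inj Nat.card_pos.ne', mul_comm,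
      Nat.mul_right_inj Nat.card_pos.ne'] at h1
    exact h1
  · obtain ⟨w, hw, u, hu, hwu⟩ := Subgroup.mem_sup_of_normal_right.mp ((hy _).mpr dvd_rfl)
    have hw' : ∃ e : ℕ, w = D.x ^ e * D.y ^ p ^ j := by
      have h1 : w * u * w⁻¹ ∈ N := Subgroup.Normal.conj_mem inferInstance _ hu _
      obtain ⟨e, he⟩ := (mem_powers_iff_mem_zpowers).mpr (N.inv_mem h1)
      exact ⟨e, by simp only at he; rw [he, ← hwu]; group⟩
    obtain ⟨e, rfl⟩ := hw'
    set w := D.x ^ e * D.y ^ p ^ j with hwdef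
    have hcl : L = Subgroup.closure {w, D.x ^ p ^ i} := by
      refine le_antisymm (fun g hg => ?_) (closure_pair_le hw ((hx _).mpr dvd_rfl))
      obtain ⟨a, b, rfl⟩ := D.gen g
      have h1 : D.y ^ b ∈ L ⊔ N := by
        have := Subgroup.mul_mem _ (Subgroup.mem_sup_right (N.inv_mem (N.pow_mem hxN a)))
          (Subgroup.mem_sup_left hg : _ ∈ L ⊔ N)
        simpa using this
      obtain ⟨c, rfl⟩ := (hy _).mp h1
      have h2 : D.x ^ a * D.y ^ (p ^ j * c) * (w ^ c)⁻¹ ∈ N := by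
        rw [hwdef, D.pow_eq]
        simpa [mul_assoc] using N.mul_mem (N.pow_mem hxN a) (N.inv_mem (N.pow_mem hxN _))
      obtain ⟨m, hm⟩ := (mem_powers_iff_mem_zpowers).mpr h2
      simp only at hm
      obtain ⟨l, rfl⟩ := (hx m).mp (hm ▸ L.mul_mem hg (L.inv_mem (L.pow_mem hw c)))
      rw [eq_mul_inv_iff_mul_eq] at hm
      rw [← hm, pow_mul]
      exact Subgroup.mul_mem _ (Subgroup.pow_mem _ (right_mem_closure_pair _ _) _)
        (Subgroup.pow_mem _ (left_mem_closure_pair _ _) _)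
    have hc : ⁅w, D.x ^ p ^ i⁆ = D.z ^ (p ^ i * geo D.r (p ^ j)) := by
      simpa using D.commutator_mul_zpow e (p ^ j) (p ^ i) 0
    have hcomm : ⁅L, L⁆ = Subgroup.zpowers (D.z ^ (p ^ i * geo D.r (p ^ j))) := by
      apply le_antisymm
      · have : (Subgroup.zpowers (D.z ^ (p ^ i * geo D.r (p ^ j)))).Normal := by
          rw [z, ← pow_mul]; exact D.zpowers_xpow_normal _
        conv_lhs => rw [hcl]
        refine commutator_closure_pair_le ?_ ?_ (hc ▸ Subgroup.mem_zpowers _)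
        · rw [Subgroup.normalizer_eq_top]; trivial
        · rw [Subgroup.normalizer_eq_top]; trivial
      · rw [Subgroup.zpowers_le, ← hc]
        exact Subgroup.commutator_mem_commutator hw ((hx _).mpr dvd_rfl)
    obtain ⟨m, hm⟩ := (pow_dvd_geo_iff hp.out hp2 D.t j (p ^ j)).mpr dvd_rfl
    have hm' : ¬ p ∣ m := by
      intro h
      have : p ^ (j + 1) ∣ geo (1 + p * D.t) (p ^ j) := by
        rw [hm, pow_succ]; exact Nat.mul_dvd_mul_left _ h
      rw [pow_dvd_geo_iff hp.out hp2, Nat.pow_dvd_pow_iff_le_right hp.out.one_lt] at this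
      omega
    rw [hcomm, Nat.card_zpowers, orderOf_pow, hN, r, hm, ← mul_assoc, ← pow_add,
      Nat.Coprime.gcd_mul_right_cancel_right _
        (Nat.Coprime.pow_right n ((Nat.Prime.coprime_iff_not_dvd hp.out).mpr hm').symm)]
    rcases le_total n (i + j) with h | h
    · rw [Nat.gcd_eq_left (pow_dvd_pow p h), Nat.div_self (pow_pos hp.out.pos _),
        Nat.sub_eq_zero_of_le h, pow_zero]
    · rw [Nat.gcd_eq_right (pow_dvd_pow p h), Nat.pow_div h hp.out.pos]

theorem powClosure_eq {s : ℕ} (hs : s ≤ n) (g : G) :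
    g ∈ powClosure (p ^ s) (⊤ : Subgroup G) ↔ (p ^ (n - s)) • D.φ (p ^ n) g = 0 := by
  have : NeZero (p ^ n) := ⟨pow_ne_zero _ hp.out.ne_zero⟩
  constructor
  · intro hg
    let W : Submodule (ZMod (p ^ n)) (ZMod (p ^ n) × ZMod (p ^ n)) :=
      Submodule.torsionBy _ _ ((p ^ (n - s) : ℕ) : ZMod (p ^ n))
    have : powClosure (p ^ s) (⊤ : Subgroup G) ≤ preimage hN W := by
      rw [powClosure_le_iff]
      intro k _
      obtain ⟨t, ht⟩ := φ_pow hN k
      obtain ⟨m, hm⟩ := (pow_dvd_geo_iff hp.out hp2 t s (p ^ s)).mpr dvd_rfl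
      rw [mem_preimage, Submodule.mem_torsionBy_iff, ht, hm, smul_smul, ← Nat.cast_mul, ← mul_assoc,
        ← pow_add, Nat.sub_add_cancel hs, Nat.cast_mul, ZMod.natCast_self, zero_mul, zero_smul]
    have h := this hg
    rwa [mem_preimage, Submodule.mem_torsionBy_iff, Nat.cast_smul_eq_nsmul] at h
  · obtain ⟨a, b, rfl⟩ := D.gen g
    rw [φ_eq hN, Prod.smul_mk, Prod.mk_eq_zero, nsmul_eq_mul, nsmul_eq_mul, ← Nat.cast_mul,
      ← Nat.cast_mul, ZMod.natCast_eq_zero_iff, ZMod.natCast_eq_zero_iff]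
    have e : p ^ n = p ^ (n - s) * p ^ s := by rw [← pow_add]; congr 1; omega
    rintro ⟨h1, h2⟩
    rw [e, Nat.mul_dvd_mul_iff_left (pow_pos hp.out.pos _)] at h1 h2
    rw [r, pow_dvd_geo_iff hp.out hp2] at h2
    exact Subgroup.mul_mem _ (pow_mem_powClosure_of_dvd trivial h1)
      (pow_mem_powClosure_of_dvd trivial h2)

theorem card_torsion {i : ℕ} (hi : i ≤ n) :
    Nat.card {g : G // p ^ i • D.φ (p ^ n) g = 0} = Nat.card (Subgroup.center G) * p ^ (2 * i) := by
  let W : Submodule (ZMod (p ^ n)) (ZMod (p ^ n) × ZMod (p ^ n)) :=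
    Submodule.torsionBy _ _ ((p ^ i : ℕ) : ZMod (p ^ n))
  have h1 : Nat.card W = p ^ (2 * i) := by
    rw [two_mul, pow_add]
    conv_rhs => rw [← card_zmod_torsion hp.out hi, ← Nat.card_prod]
    refine Nat.card_congr ((Equiv.subtypeEquivRight ?_).trans (Equiv.subtypeProdEquivProd))
    rintro ⟨u, v⟩
    simp only [W, Submodule.mem_torsionBy_iff, Nat.cast_smul_eq_nsmul, Prod.smul_mk,
      Prod.mk_eq_zero]
  rw [← h1, ← card_preimage hp2 hN]
  refine Nat.card_congr (Equiv.subtypeEquivRight fun g => ?_)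
  rw [mem_preimage, Submodule.mem_torsionBy_iff, Nat.cast_smul_eq_nsmul]

end MetaGens

section Main

variable [Finite G] {p : ℕ} [hp : Fact p.Prime] (hp2 : p ≠ 2) (hG : IsPGroup p G)
  (hmc : Cfsg.IsMetacyclic G)
include hp2 hG hmc

theorem metacyclic_index_center : (Subgroup.center G).index = Nat.card (commutator G) ^ 2 := by
  obtain ⟨D⟩ := nonempty_metaGens hG hmc
  obtain ⟨n, hn⟩ := PGrp.exists_card_eq_pow hG (commutator G)
  rw [hn, MetaGens.index_center hp2 (D.orderOf_z.trans hn)]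

theorem metacyclic_card_mul_card_centralizer (R : Subgroup G) :
    Nat.card R * Nat.card (Subgroup.centralizer (R : Set G)) =
      Nat.card (Subgroup.center G ⊓ R : Subgroup G) * Nat.card G := by
  obtain ⟨D⟩ := nonempty_metaGens hG hmc
  obtain ⟨n, hn⟩ := PGrp.exists_card_eq_pow hG (commutator G)
  exact MetaGens.card_mul_card_centralizer hp2 (D.orderOf_z.trans hn) R

theorem metacyclic_isMulCommutative_iff (L : Subgroup G) :
    IsMulCommutative L ↔ Nat.card L ≤ (commutator G).index := by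
  obtain ⟨D⟩ := nonempty_metaGens hG hmc
  obtain ⟨n, hn⟩ := PGrp.exists_card_eq_pow hG (commutator G)
  obtain ⟨k, h1, h2⟩ := MetaGens.exists_index_card_commutator hp2 (D.orderOf_z.trans hn) hG L
  rw [← Subgroup.commutator_self_eq_bot_iff, ← Subgroup.card_eq_one, h2,
    Nat.pow_eq_one, or_iff_right hp.out.ne_one, Nat.sub_eq_zero_iff_le,
    ← Nat.pow_le_pow_iff_right hp.out.one_lt, ← h1, ← hn]
  have e1 := L.card_mul_index
  have e2 := (commutator G).card_mul_index
  have p1 : 0 < Nat.card L := Nat.card_pos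
  have p2 : 0 < Nat.card (commutator G) := Nat.card_pos
  constructor
  · intro h
    apply Nat.le_of_mul_le_mul_left _ p2
    rw [e2, ← e1, mul_comm]
    exact Nat.mul_le_mul_left _ h
  · intro h
    apply Nat.le_of_mul_le_mul_left _ p1
    rw [e1, ← e2, mul_comm]
    exact Nat.mul_le_mul_left _ h

theorem metacyclic_card_commutator_mul_index {L : Subgroup G} (hL : ¬ IsMulCommutative L) :
    Nat.card (⁅L, L⁆ : Subgroup G) * L.index = Nat.card (commutator G) := by
  obtain ⟨D⟩ := nonempty_metaGens hG hmc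
  obtain ⟨n, hn⟩ := PGrp.exists_card_eq_pow hG (commutator G)
  obtain ⟨k, h1, h2⟩ := MetaGens.exists_index_card_commutator hp2 (D.orderOf_z.trans hn) hG L
  rw [← Subgroup.commutator_self_eq_bot_iff, ← Subgroup.card_eq_one, h2,
    Nat.pow_eq_one, or_iff_right hp.out.ne_one] at hL
  rw [h1, h2, hn, ← pow_add]
  congr 1
  omega

theorem metacyclic_maximal_iff (L : Subgroup G) :
    Maximal (fun K : Subgroup G => IsMulCommutative K) L ↔ Nat.card L = (commutator G).index := by
  constructor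
  · intro h
    have h1 := (metacyclic_isMulCommutative_iff hp2 hG hmc L).mp h.1
    obtain ⟨k, hk⟩ := hG.index (commutator G)
    obtain ⟨K, hLK, -, hK⟩ := PGrp.exists_card_between (hG.to_subgroup ⊤) (le_top : L ≤ ⊤) (k := k)
      (hk ▸ h1) (by
        rw [← hk, Subgroup.card_top]
        exact Nat.le_of_dvd Nat.card_pos (Subgroup.index_dvd_card _))
    have h2 := h.2 ((metacyclic_isMulCommutative_iff hp2 hG hmc K).mpr (by rw [hK, hk])) hLK
    rw [le_antisymm hLK h2, hK, hk]
  · intro h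
    refine ⟨(metacyclic_isMulCommutative_iff hp2 hG hmc L).mpr h.le, fun K hK hLK => ?_⟩
    exact (Subgroup.eq_of_le_of_card_ge hLK
      (h ▸ (metacyclic_isMulCommutative_iff hp2 hG hmc K).mp hK)).ge

theorem metacyclic_mem_powClosure_iff {n : ℕ} (hn : Nat.card (commutator G) = p ^ n) {s : ℕ}
    (hs : s ≤ n) (g : G) : g ∈ powClosure (p ^ s) (⊤ : Subgroup G) ↔
      (Subgroup.centralizer ({g} : Set G)).index ≤ p ^ (n - s) := by
  obtain ⟨D⟩ := nonempty_metaGens hG hmc
  have hN := D.orderOf_z.trans hn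
  obtain ⟨k, hk⟩ := hG.index (Subgroup.centralizer ({g} : Set G))
  rw [MetaGens.powClosure_eq hp2 hN hs, ← addOrderOf_dvd_iff_nsmul_eq_zero,
    ← MetaGens.index_centralizer hp2 hN, hk, Nat.pow_dvd_pow_iff_le_right hp.out.one_lt,
    Nat.pow_le_pow_iff_right hp.out.one_lt]

theorem metacyclic_card_index_centralizer_le {n : ℕ} (hn : Nat.card (commutator G) = p ^ n) {i : ℕ}
    (hi : i ≤ n) : Nat.card {g : G // (Subgroup.centralizer ({g} : Set G)).index ≤ p ^ i} =
      Nat.card (Subgroup.center G) * p ^ (2 * i) := by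
  obtain ⟨D⟩ := nonempty_metaGens hG hmc
  have hN := D.orderOf_z.trans hn
  rw [← MetaGens.card_torsion hp2 hN hi]
  refine Nat.card_congr (Equiv.subtypeEquivRight fun g => ?_)
  obtain ⟨k, hk⟩ := hG.index (Subgroup.centralizer ({g} : Set G))
  rw [← addOrderOf_dvd_iff_nsmul_eq_zero,
    ← MetaGens.index_centralizer hp2 hN, hk, Nat.pow_dvd_pow_iff_le_right hp.out.one_lt,
    Nat.pow_le_pow_iff_right hp.out.one_lt]

end Main

end Cfsg.Agent.Reg
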