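import Mathlib
import Cfsg.Agent.Lib.Reg.Commutator
import Cfsg.Agent.Lib.PGrp.Basic
import Cfsg.Agent.Lib.Cls.Basic

/-!
# Elements in small conjugacy classes (Isaacs, Mann) (Topic Reg)
-/

set_option autoImplicit false

open scoped commutatorElement

namespace Cfsg.Agent.Reg

theorem card_lt_of_injective_not_surjective {α β : Type*} [Finite β] (f : α → β)
    (h₁ : Function.Injective f) (h₂ : ¬ Function.Surjective f) : Nat.card α < Nat.card β := by
  have := Finite.of_injective f h₁
  have := Fintype.ofFinite α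
  have := Fintype.ofFinite β
  rw [Nat.card_eq_fintype_card, Nat.card_eq_fintype_card]
  exact Fintype.card_lt_of_injective_not_surjective f h₁ h₂

variable {G : Type*} [Group G]

/-- For an abelian normal subgroup `K`, the map `k ↦ ⁅k, x⁆` is a homomorphism. -/
def commHom (K : Subgroup G) [hn : K.Normal] (hK : IsMulCommutative K) (x : G) : K →* G where
  toFun k := ⁅(k : G), x⁆
  map_one' := by simp
  map_mul' a b := by
    have h1 : ⁅(b : G), x⁆ ∈ K :=
      Subgroup.commutator_le_left K ⊤ (Subgroup.commutator_mem_commutator b.2 trivial)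
    have h2 : ⁅(a : G), x⁆ ∈ K :=
      Subgroup.commutator_le_left K ⊤ (Subgroup.commutator_mem_commutator a.2 trivial)
    rw [Subgroup.coe_mul, commutatorElement_mul_left_eq_conj_mul,
      setLike_mul_comm (s := K) a.2 h1, mul_inv_cancel_right,
      setLike_mul_comm (s := K) h1 h2]

theorem commHom_apply (K : Subgroup G) [K.Normal] (hK : IsMulCommutative K) (x : G) (k : K) :
    commHom K hK x k = ⁅(k : G), x⁆ := rfl

theorem ker_commHom (K : Subgroup G) [K.Normal] (hK : IsMulCommutative K) (x : G) :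
    (commHom K hK x).ker = (Subgroup.centralizer {x}).subgroupOf K := by
  ext k
  rw [MonoidHom.mem_ker, commHom_apply, commutatorElement_eq_one_iff_mul_comm,
    Subgroup.mem_subgroupOf, Subgroup.mem_centralizer_singleton_iff]

theorem card_range_commHom (K : Subgroup G) [K.Normal] (hK : IsMulCommutative K) (x : G) :
    Nat.card (commHom K hK x).range = (Subgroup.centralizer {x}).relIndex K := by
  rw [← Subgroup.index_ker, ker_commHom, Subgroup.relIndex]

/-- Isaacs' lemma: for `t` in an abelian normal subgroup and `x` non-central, the commutator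
`⁅t, x⁆` has a larger centralizer than `x`. -/
theorem card_centralizer_lt_card_centralizer_commutator [Finite G] (K : Subgroup G) [hn : K.Normal]
    (hK : IsMulCommutative K) {x : G} (hx : x ∉ Subgroup.center G) {t : G} (ht : t ∈ K) :
    Nat.card (Subgroup.centralizer ({x} : Set G)) <
      Nat.card (Subgroup.centralizer ({⁅t, x⁆} : Set G)) := by
  by_cases hy : ⁅t, x⁆ = 1
  · rw [hy, Cls.centralizer_single_eq_top_iff.mpr (Subgroup.one_mem _)]
    exact PGrp.card_lt_of_lt (lt_top_iff_ne_top.mpr (mt Cls.centralizer_single_eq_top_iff.mp hx))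
  set C := Subgroup.centralizer ({x} : Set G) with hC
  set N := (commHom K hK x).range with hN
  have hyK : ∀ s ∈ K, ⁅s, x⁆ ∈ K := fun s hs =>
    Subgroup.commutator_le_left K ⊤ (Subgroup.commutator_mem_commutator hs trivial)
  have hyH : ⁅t, x⁆ ∈ C ⊔ K := Subgroup.mem_sup_right (hyK t ht)
  have h1 : Nat.card (C ⊔ K : Subgroup G) = Nat.card C * Nat.card N := by
    have := PGrp.card_sup_mul_card_inf C K
    rw [← PGrp.card_inf_mul_relIndex C K, ← card_range_commHom K hK x, mul_comm (Nat.card ↥(C ⊓ K)),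
      ← mul_assoc] at this
    exact Nat.eq_of_mul_eq_mul_right Nat.card_pos this
  have h2 : (Subgroup.centralizer ({⁅t, x⁆} : Set G)).relIndex (C ⊔ K) < Nat.card N := by
    rw [← Cls.index_centralizer_subgroup (⟨⁅t, x⁆, hyH⟩ : (C ⊔ K : Subgroup G)), ← Cls.card_isConj]
    have key : ∀ z : (C ⊔ K : Subgroup G), IsConj (⟨⁅t, x⁆, hyH⟩ : (C ⊔ K : Subgroup G)) z →
        (z : G) ∈ N := by
      intro z hz
      obtain ⟨⟨h, hh⟩, rfl⟩ := isConj_iff.mp hz
      obtain ⟨c, hc, k, hk, rfl⟩ := Subgroup.mem_sup_of_normal_right.mp hh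
      refine ⟨⟨c * t * c⁻¹, hn.conj_mem t ht c⟩, ?_⟩
      have e1 : c * x * c⁻¹ = x := by
        rw [Subgroup.mem_centralizer_singleton_iff.mp hc, mul_inv_cancel_right]
      change ⁅c * t * c⁻¹, x⁆ = c * k * ⁅t, x⁆ * (c * k)⁻¹
      rw [mul_assoc c k, setLike_mul_comm (s := K) hk (hyK t ht), mul_inv_rev,
        ← mul_assoc, mul_assoc c (⁅t, x⁆ * k), mul_inv_cancel_right, conjugate_commutatorElement, e1]
    refine card_lt_of_injective_not_surjective
      (fun z : {z // IsConj (⟨⁅t, x⁆, hyH⟩ : (C ⊔ K : Subgroup G)) z} => (⟨z.1, key z.1 z.2⟩ : N))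
      (fun a b h => Subtype.ext (Subtype.ext (Subtype.ext_iff.mp h :))) fun hs => ?_
    obtain ⟨⟨z, hz⟩, h⟩ := hs 1
    have : z = 1 := Subtype.ext (Subtype.ext_iff.mp h :)
    rw [this, isConj_one_left] at hz
    exact hy (Subtype.ext_iff.mp hz :)
  have h3 := PGrp.card_inf_mul_relIndex (Subgroup.centralizer ({⁅t, x⁆} : Set G)) (C ⊔ K)
  have h4 := Subgroup.card_le_of_le
    (inf_le_left : Subgroup.centralizer ({⁅t, x⁆} : Set G) ⊓ (C ⊔ K) ≤ _)
  by_contra h5
  push Not at h5
  have h6 : 0 < Nat.card C := Nat.card_pos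
  have := Nat.mul_le_mul_right ((Subgroup.centralizer ({⁅t, x⁆} : Set G)).relIndex (C ⊔ K))
    (h4.trans h5)
  rw [h3, h1] at this
  exact absurd (Nat.le_of_mul_le_mul_left this h6) (not_le.mpr h2)

theorem index_centralizer_commutator_lt [Finite G] (K : Subgroup G) [K.Normal]
    (hK : IsMulCommutative K) {x : G} (hx : x ∉ Subgroup.center G) {t : G} (ht : t ∈ K) :
    (Subgroup.centralizer ({⁅t, x⁆} : Set G)).index < (Subgroup.centralizer ({x} : Set G)).index := by
  have h := card_centralizer_lt_card_centralizer_commutator K hK hx ht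
  have h1 := (Subgroup.centralizer ({⁅t, x⁆} : Set G)).card_mul_index
  have h2 := (Subgroup.centralizer ({x} : Set G)).card_mul_index
  by_contra h3
  push Not at h3
  have h4 := Nat.mul_lt_mul_of_lt_of_le h h3 (Nat.pos_of_ne_zero Subgroup.index_ne_zero_of_finite)
  omega

/-- If `x` lies in a non-central class of smallest size (or is central) then `⁅K, x⁆` is central
for every abelian normal subgroup `K`. -/
theorem commutator_mem_center_of_small_class [Finite G] (K : Subgroup G) [K.Normal]
    (hK : IsMulCommutative K) {x : G}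
    (hmin : ∀ y : G, 1 < (Subgroup.centralizer ({y} : Set G)).index →
      (Subgroup.centralizer ({x} : Set G)).index ≤ (Subgroup.centralizer ({y} : Set G)).index)
    {t : G} (ht : t ∈ K) : ⁅t, x⁆ ∈ Subgroup.center G := by
  by_cases hx : x ∈ Subgroup.center G
  · rw [commutatorElement_eq_one_iff_mul_comm.mpr (Subgroup.mem_center_iff.mp hx t)]
    exact Subgroup.one_mem _
  have h := index_centralizer_commutator_lt K hK hx ht
  rw [← Cls.index_centralizer_eq_one_iff]
  by_contra h1
  have h2 : (Subgroup.centralizer ({⁅t, x⁆} : Set G)).index ≠ 0 := Subgroup.index_ne_zero_of_finite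
  exact absurd (hmin _ (by omega)) (not_le.mpr h)

/-- If `A` is normal and self-centralizing and `⁅A, M⁆` is central, then `M` has class at most 3. -/
theorem lowerCentralSeries_three_eq_bot_of_commutator_le_center {A M : Subgroup G}
    (hCA : Subgroup.centralizer (A : Set G) ≤ A) (h : ⁅A, M⁆ ≤ Subgroup.center G) :
    M.lowerCentralSeries 3 = ⊥ := by
  have h1 : ⁅⁅A, M⁆, M⁆ = ⊥ := eq_bot_iff.mpr
    ((Subgroup.commutator_mono h le_rfl).trans (Subgroup.commutator_center_left (H := M)).le)
  have h2 : ⁅⁅M, M⁆, A⁆ = ⊥ := Subgroup.commutator_commutator_eq_bot_of_rotate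
    (by rwa [Subgroup.commutator_comm M A]) h1
  have h3 : ⁅M, M⁆ ≤ A := (Subgroup.commutator_eq_bot_iff_le_centralizer.mp h2).trans hCA
  exact eq_bot_iff.mpr ((Subgroup.commutator_mono (Subgroup.commutator_mono h3 le_rfl) le_rfl).trans
    h1.le)

theorem upperCentralSeries_eq_top_of_lowerCentralSeries_eq_bot {M : Subgroup G} {n : ℕ}
    (h : M.lowerCentralSeries n = ⊥) : Subgroup.upperCentralSeries M n = ⊤ := by
  rw [← Subgroup.lowerCentralSeries_eq_bot_iff_upperCentralSeries_eq_top,
    ← Subgroup.map_subtype_inj, Subgroup.top_subtype_lowerCentralSeries, h, Subgroup.map_bot]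

end Cfsg.Agent.Reg
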