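import Cfsg.Agent.Lib.Mod.PReduce
import Cfsg.Agent.Lib.Mod.Faithful
import Cfsg.Agent.Lib.Mod.ClassTwoAct
import Cfsg.Agent.S3784

/-!
# The structure of exceptional `2`-elements in the Hall–Higman theorem
-/

set_option autoImplicit false

namespace Cfsg.Agent.Reg.TwoLen

open Module Polynomial Subgroup Cfsg.Agent.Mod
open scoped commutatorElement

variable {k H V : Type*} [Field k] [Group H] [AddCommGroup V] [Module k V]
  {ρ : Representation k H V} {c : Submodule k V} {g : H} {n q : ℕ} {Q : Subgroup H}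

variable (ρ) in
/-- the minimal polynomial of `g` has degree less than `2 ^ (n + 1)` -/
abbrev Unip (g : H) (n : ℕ) : Prop := (ρ g - 1) ^ (2 ^ (n + 1) - 1) = 0

theorem pow_sub_one_mem (hg : g ∈ stab ρ c) (m : ℕ) {w : V} (hw : w ∈ c) :
    ((ρ g - 1) ^ m) w ∈ c := by
  induction m with
  | zero => simpa
  | succ m ih => rw [pow_succ']; exact sub_mem (isInv_stab c g hg _ ih) ih

theorem aeval_pow_sub_one (T : End k V) (m : ℕ) : aeval T ((X - C 1 : k[X]) ^ m) = (T - 1) ^ m := by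
  simp

theorem natDegree_pow_sub_one (m : ℕ) : ((X - C 1 : k[X]) ^ m).natDegree = m := by
  rw [natDegree_pow, natDegree_X_sub_C, mul_one]

theorem kerOn_anti {U W : Submodule k V} (h : U ≤ W) : kerOn ρ W ≤ kerOn ρ U :=
  fun _ hx w hw => hx w (h hw)

variable [CharP k 2]

theorem Unip.pow_eq_one (hρ : Function.Injective ρ) (h : Unip ρ g n) : g ^ 2 ^ (n + 1) = 1 := by
  apply hρ
  rw [map_one, ← sub_eq_zero, ← sub_one_pow_char_pow (p := 2),
    ← Nat.sub_add_cancel (Nat.one_le_two_pow (n := n + 1)), pow_succ, h, zero_mul]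

omit [CharP k 2] in
/-- Commutation of `T` with the `Q`-endomorphisms, one step. -/
theorem psi_step {T φ ψ : End k V} {U : Submodule k V} (hU : ∀ w ∈ U, T w ∈ U)
    (h1 : ∀ w ∈ U, T (φ w) = φ (T w) + ψ (T w)) (h2 : ∀ w ∈ U, T (ψ w) = ψ (T w)) (m : ℕ) :
    ∀ w ∈ U, ((T - 1) ^ (m + 1)) (φ w) =
      φ (((T - 1) ^ (m + 1)) w) + (m + 1) • ψ (((T - 1) ^ m) (T w)) := by
  have h3 : ∀ m : ℕ, ∀ w ∈ U, ((T - 1) ^ m) (ψ w) = ψ (((T - 1) ^ m) w) := fun m => by
    induction m with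
    | zero => simp
    | succ m ih =>
      intro w hw
      rw [pow_succ, End.mul_apply, End.mul_apply, ← ih ((T - 1) w) (sub_mem (hU w hw) hw)]
      simp [h2 w hw]
  induction m with
  | zero => intro w hw; simp [h1 w hw]; abel
  | succ m ih =>
    intro w hw
    have e : (T - 1) (φ w) = φ ((T - 1) w) + ψ (T w) := by simp [h1 w hw]; abel
    have e2 : T ((T - 1) w) = (T - 1) (T w) := by simp
    rw [pow_succ _ (m + 1), End.mul_apply, End.mul_apply, e, map_add,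
      ih ((T - 1) w) (sub_mem (hU w hw) hw),
      h3 _ _ (hU w hw), e2, ← End.mul_apply ((T - 1) ^ m), ← pow_succ, add_nsmul _ (m + 1), one_nsmul,
      add_assoc]

variable [Finite H] [FiniteDimensional k V]

theorem period (hρ : Function.Injective ρ) (hQ : (Nat.card Q : k) ≠ 0)
    (hg : g ∈ normalizer (Q : Set H)) (h : Unip ρ g n) (hc : c ∈ comps ρ Q) :
    ∃ j ≤ n, (∀ m, g ^ m ∈ stab ρ c ↔ 2 ^ j ∣ m) ∧
      ∀ w ∈ c, ((ρ (g ^ 2 ^ j) - 1) ^ (2 ^ (n + 1 - j) - 1) : End k V) w = 0 := by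
  obtain ⟨t, ht0, ht⟩ := exists_period (stab ρ c) g
  obtain ⟨j, hj, rfl⟩ := (Nat.dvd_prime_pow Nat.prime_two).1
    ((ht (2 ^ (n + 1))).1 (by rw [h.pow_eq_one hρ]; exact one_mem _))
  have hst := (ht _).2 dvd_rfl
  have key : ∀ w ∈ c, ((ρ (g ^ 2 ^ j) - 1) ^ (2 ^ (n + 1 - j) - 1) : End k V) w = 0 := fun w hw => by
    obtain ⟨f, hf0, hf1, hf2⟩ := exists_aeval_pow_eq_zero ht0 hst
      (iSupIndep_of_le_comps hQ (fun i => map_rho_mem_comps hc (pow_mem hg _))
        (map_pow_injective fun m => (ht m).1) fun _ => le_rfl)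
      (pow_ne_zero (2 ^ j - 1) (X_sub_C_ne_zero 1))
      (Set.singleton_subset_iff.2 (pow_sub_one_mem hst (2 ^ (n + 1 - j) - 1) hw)) (by
        rintro _ rfl
        rw [aeval_pow_sub_one, ← End.mul_apply, ← sub_one_pow_char_pow (p := 2), ← pow_mul, ← pow_add,
          show 2 ^ j - 1 + 2 ^ j * (2 ^ (n + 1 - j) - 1) = 2 ^ (n + 1) - 1 by
            have := Nat.one_le_two_pow (n := n + 1 - j)
            rw [Nat.mul_sub_one, ← pow_add, Nat.add_sub_cancel' hj]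
            have := Nat.pow_le_pow_right (n := 2) two_pos hj
            omega, h]
        rfl)
    rw [natDegree_pow_sub_one] at hf1
    obtain ⟨a, rfl⟩ := natDegree_eq_zero.1 (show f.natDegree = 0 by
      by_contra h0
      have := Nat.le_mul_of_pos_right (2 ^ j) (Nat.pos_of_ne_zero h0)
      omega)
    have := hf2 _ rfl
    rw [aeval_C, Module.algebraMap_end_apply, smul_eq_zero] at this
    exact this.resolve_left fun h => hf0 (by rw [h, map_zero])
  refine ⟨j, ?_, ht, key⟩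
  by_contra h0
  obtain ⟨w, hw, hw0⟩ := (Submodule.ne_bot_iff c).1 (ne_bot_of_mem_comps hc)
  exact hw0 (by simpa [show n + 1 - j = 0 by omega] using key w hw)

omit [CharP k 2] in
theorem eq_one_of_kerOn (hρ : Function.Injective ρ) (hQ : (Nat.card Q : k) ≠ 0)
    (h : ∀ c ∈ comps ρ Q, g ∈ kerOn ρ c) : g = 1 := by
  by_contra h0
  obtain ⟨c, hc, h1⟩ := exists_comp_not_le_fix hQ hρ (zpowers_ne_bot.2 h0)
  exact h1 (le_kerOn_iff.1 (zpowers_le.2 (h c hc)))

variable (ρ q Q) in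
/-- a normal subgroup of class two and odd prime exponent in a linear group of characteristic two -/
structure Hyp : Prop where
  inj : Function.Injective ρ
  prime : q.Prime
  ne : q ≠ 2
  normal : Q.Normal
  two : ⁅Q, Q⁆ ≤ centralizer (Q : Set H)
  exp : ∀ x ∈ Q, x ^ q = 1

omit [CharP k 2] [Finite H] [FiniteDimensional k V] in
theorem Hyp.isPGroup (h : Hyp ρ q Q) : IsPGroup q Q :=
  Core.isPGroup_of_forall_mem fun x hx => ⟨1, by rw [pow_one, h.exp x hx]⟩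

omit [CharP k 2] [FiniteDimensional k V] in
theorem Hyp.coprime (h : Hyp ρ q Q) {R : Subgroup H} (hR : R ≤ Q) : Nat.Coprime 2 (Nat.card R) := by
  have := Fact.mk h.prime
  obtain ⟨m, hm⟩ := IsPGroup.iff_card.1 (h.isPGroup.to_le hR)
  exact hm ▸ ((Nat.coprime_primes Nat.prime_two h.prime).2 h.ne.symm).pow_right _

omit [FiniteDimensional k V] in
theorem Hyp.card_ne (h : Hyp ρ q Q) {R : Subgroup H} (hR : R ≤ Q) : (Nat.card R : k) ≠ 0 :=
  natCast_ne_zero_of_not_dvd k (Nat.prime_two.coprime_iff_not_dvd.1 (h.coprime hR))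

omit [CharP k 2] [Finite H] [FiniteDimensional k V] in
theorem Hyp.norm (h : Hyp ρ q Q) (g : H) : g ∈ normalizer (Q : Set H) :=
  haveI := h.normal; Q.normalizer_eq_top ▸ mem_top g

variable [IsAlgClosed k]

omit [CharP k 2] in
theorem Hyp.comm_le (h : Hyp ρ q Q) (hc : c ∈ comps ρ Q) : ⁅Q, Q⁆ ≤ scal ρ c :=
  le_scal_of_mem_comps (Coprime.commutator_le_of_le_normalizer le_normalizer) h.two hc

omit [Finite H] [FiniteDimensional k V] [IsAlgClosed k] in
/-- In the critical case `x` commutes with the `R`-endomorphisms. -/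
theorem commute_endQ {R : Subgroup H} {x : H} (hx : x ∈ normalizer (R : Set H)) {U : Submodule k V}
    (hU : IsIrr ρ R U) (hxU : x ∈ stab ρ U) {e : ℕ} (he : 0 < e) (ho : x ^ 2 ^ e = 1)
    (h0 : ∀ w ∈ hcomp ρ R U, ((ρ x - 1) ^ (2 ^ e - 1) : End k V) w = 0)
    (h1 : ¬ ∀ w ∈ U, ((ρ x - 1) ^ (2 ^ e - 2) : End k V) w = 0) {φ : End k V} (hφ : φ ∈ endQ ρ R) :
    ∀ w ∈ U, ρ x (φ w) = φ (ρ x w) := by
  have hI := isInv_stab (ρ := ρ) U
  have hD : ∀ φ ∈ endQ ρ R, (conjRep ρ x - 1) φ ∈ endQ ρ R := fun φ hφ =>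
    sub_mem (conj_mem_endQ hφ hx) hφ
  have hE : ∀ (φ : End k V) w, ρ x (φ w) = φ (ρ x w) + (conjRep ρ x - 1) φ (ρ x w) := fun φ w => by
    simp [conjRep_apply, ← rho_mul_apply]
  have step : ∀ φ ∈ endQ ρ R, (∀ w ∈ U, (conjRep ρ x - 1) ((conjRep ρ x - 1) φ) w = 0) →
      ∀ w ∈ U, (conjRep ρ x - 1) φ w = 0 := fun φ hφ h2 => by
    rcases hU.injOn_or_map_eq_bot (hD φ hφ) with h3 | h3
    · refine (h1 fun w hw => ?_).elim
      have h4 : 2 ^ e - 2 + 1 = 2 ^ e - 1 := by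
        have := Nat.pow_le_pow_right (n := 2) two_pos he
        omega
      have hw' := hI _ (inv_mem hxU) w hw
      have := psi_step (hI x hxU) (fun w _ => hE φ w)
        (fun w hw => by rw [hE, h2 _ (hI x hxU w hw), add_zero]) (2 ^ e - 2) _ hw'
      rw [h4, h0 _ (map_le_hcomp hφ ⟨_, hw', rfl⟩), h0 _ (le_hcomp hw'), map_zero, zero_add,
        ← rho_mul_apply, mul_inv_cancel, map_one, End.one_apply, ← Nat.cast_smul_eq_nsmul k, eq_comm,
        smul_eq_zero] at this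
      refine h3 _ (pow_sub_one_mem hxU _ hw) (this.resolve_left (natCast_ne_zero_of_not_dvd k (p := 2) ?_))
      have := dvd_pow_self 2 he.ne'
      have := Nat.one_le_two_pow (n := e)
      omega
    · exact fun w hw => (Submodule.eq_bot_iff _).1 h3 _ ⟨w, hw, rfl⟩
  have key : ∀ m : ℕ, ∀ φ ∈ endQ ρ R, (∀ w ∈ U, ((conjRep ρ x - 1) ^ (m + 1)) φ w = 0) →
      ∀ w ∈ U, (conjRep ρ x - 1) φ w = 0 := fun m => by
    induction m with
    | zero => simp
    | succ m ih => exact fun φ hφ h2 => step φ hφ (ih _ (hD φ hφ) (by rwa [pow_succ] at h2))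
  intro w hw
  rw [hE, key (2 ^ e - 1) φ hφ (fun w _ => by
    rw [Nat.sub_add_cancel Nat.one_le_two_pow, sub_one_pow_char_pow (p := 2), ho, map_one, sub_self]
    rfl) _ (hI x hxU w hw), add_zero]

/-- **Exceptional elements.** -/
theorem Hyp.exc (h : Hyp ρ q Q) (hg : Unip ρ g n) (hc : c ∈ comps ρ Q) :
    ∃ j ≤ n, (∀ m, g ^ m ∈ stab ρ c ↔ 2 ^ j ∣ m) ∧ ((∀ a ∈ Q, ⁅a, g ^ 2 ^ n⁆ ∈ scal ρ c) ∨
      (j < n ∧ (∀ a ∈ Q, ⁅a, g ^ 2 ^ n⁆ ∈ scal ρ c → ⁅a, g ^ 2 ^ j⁆ ∈ scal ρ c) ∧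
        (scal ρ c).relIndex ⁅Q, zpowers (g ^ 2 ^ n)⁆ = q ^ 2 ∧
        ¬ ⁅⁅Q, zpowers (g ^ 2 ^ n)⁆, ⁅Q, zpowers (g ^ 2 ^ n)⁆⁆ ≤ kerOn ρ c)) := by
  have := Fact.mk h.prime
  have hQ := h.card_ne (k := k) le_rfl
  obtain ⟨j, hj, hp, -⟩ := period h.inj hQ (h.norm g) hg hc
  refine ⟨j, hj, hp, or_iff_not_imp_left.2 fun hne => ?_⟩
  set z := g ^ 2 ^ n with hz
  set Q₁ := ⁅Q, zpowers z⁆ with hQ₁
  have hg1 := hg.pow_eq_one h.inj
  have hz1 : ¬ z = 1 := fun e => hne fun a _ => by rw [e, commutatorElement_one_right]; exact one_mem _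
  have ho : orderOf g = 2 ^ (n + 1) := orderOf_eq_prime_pow hz1 hg1
  have hoz : orderOf z = 2 := orderOf_eq_prime (by rw [hz, ← pow_mul, ← pow_succ, hg1]) hz1
  have hzQ : zpowers z ≤ normalizer (Q : Set H) := fun x _ => h.norm x
  have hle : Q₁ ≤ Q := Coprime.commutator_le_of_le_normalizer hzQ
  have hQ1 := h.card_ne (k := k) hle
  have hsol := Coprime.isSolvable_of_isPGroup (h.isPGroup.to_le hle)
  have hC : Q ⊓ centralizer (zpowers z : Set H) ≤ centralizer (Q₁ : Set H) := by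
    refine commutator_eq_bot_iff_le_centralizer.1 (commutator_inf_centralizer_commutator ?_)
    rw [le_centralizer_iff, zpowers_le]
    intro y hy
    rw [← commutatorElement_eq_one_iff_mul_comm]
    refine eq_one_of_kerOn h.inj hQ fun d hd => commutator_mem_kerOn_of_mem_scal (h.comm_le hd hy) ?_
    obtain ⟨i, hi, h1, -⟩ := period h.inj hQ (h.norm g) hg hd
    exact (h1 _).2 (pow_dvd_pow 2 hi)
  have hsup : Q ⊓ centralizer (zpowers z : Set H) ⊔ Q₁ = Q := Coprime.centralizer_sup_commutator hzQ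
    (by rw [Nat.card_zpowers, hoz]; exact h.coprime le_rfl) (.inl inferInstance)
  have hgQ : ∀ m, g ^ m ∈ normalizer (Q₁ : Set H) := fun m => pow_mem
    (Core.le_normalizer_commutator (A := zpowers g) (fun x _ => h.norm x)
      (Coprime.centralizer_le_normalizer_of_le ((zpowers_le.2 (npow_mem_zpowers g _)).trans
        (le_centralizer _))) (mem_zpowers g)) _
  -- the component of `Q₁` above `c`
  obtain ⟨W, hW, rfl⟩ := hc
  have hc := hW.hcomp_mem_comps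
  obtain ⟨U₀, hU₀W, hU₀⟩ := (hW.inv.mono hle).exists_isIrr_le hW.ne_bot
  have hc₁ := hU₀.hcomp_mem_comps
  have hcc : hcomp ρ Q W ≤ hcomp ρ Q₁ U₀ := by
    have h1 : IsInv ρ Q (hcomp ρ Q₁ U₀) :=
      hsup ▸ (isInv_of_le_centralizer hC hc₁).sup_left (isInv_of_mem_comps hc₁)
    have h2 : W ≤ hcomp ρ Q₁ U₀ := inf_eq_left.1 ((hW.eq_bot_or_eq _ inf_le_left (hW.inv.inf h1)).resolve_left
      fun e => hU₀.ne_bot (eq_bot_iff.2 (e ▸ le_inf hU₀W le_hcomp)))
    exact hcomp_le fun φ hφ => (Submodule.map_mono h2).trans (hcomp_map_endQ_le (endQ_anti hle hφ))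
  have hU₀c := hU₀W.trans (le_hcomp (ρ := ρ) (Q := Q))
  obtain ⟨i, hi, hp1, hk⟩ := period h.inj hQ1 (pow_one g ▸ hgQ 1) hg hc₁
  obtain ⟨U, hUc, hU, hxU⟩ := exists_isIrr_stab hQ1 hc₁ (hgQ _) ((hp1 _).2 dvd_rfl)
  have hcU := hU.eq_hcomp_of_le hQ1 hc₁ hUc
  have hs : ∀ a ∈ Q₁, a ∈ scal ρ U ↔ a ∈ scal ρ (hcomp ρ Q W) := fun a ha => by
    rw [← mem_scal_hcomp ha, ← hcU]
    exact ⟨fun h1 => scal_anti hcc h1, fun h1 => (mem_scal_hcomp ha).2 (scal_anti hU₀c h1)⟩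
  have hn1 : ¬ Q₁ ≤ scal ρ U := fun h1 => hne fun a ha =>
    have := commutator_mem_commutator ha (mem_zpowers z); (hs _ this).1 (h1 this)
  have hd1 : finrank k U ≠ 1 := fun e => hn1 fun a ha => mem_scal_of_finrank_eq_one e (hU.inv a ha)
  have ho1 : orderOf (g ^ 2 ^ i) = 2 ^ (n + 1 - i) := by
    rw [orderOf_pow_of_dvd (pow_pos two_pos i).ne' (ho ▸ pow_dvd_pow 2 (by omega)), ho,
      Nat.pow_div (by omega) two_pos]
  have hxy : z ∈ zpowers (g ^ 2 ^ i) :=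
    ⟨(2 ^ (n - i) : ℕ), by simp only [zpow_natCast, ← pow_mul, ← pow_add, Nat.add_sub_cancel' hi, hz]⟩
  have hQU := isInv_iff_le_stab.1 hU.inv
  have hfpf : ∀ y ∈ zpowers (g ^ 2 ^ i), y ≠ 1 → ∀ a ∈ Q₁, ⁅a, y⁆ ∈ scal ρ U → a ∈ scal ρ U := by
    intro y hy hy1 a ha has
    have hy' : y ∈ zpowers g := zpowers_le.2 (npow_mem_zpowers g _) hy
    have hn : zpowers (g ^ 2 ^ i) ≤ normalizer ((Q₁ ⊓ scal ρ U : Subgroup H) : Set H) :=
      Core.le_normalizer_inf (zpowers_le.2 (hgQ _))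
        ((zpowers_le.2 hxU).trans (normalizer_scal (isInv_stab U)))
    have h3 : ⁅a, y⁆ ∈ Q₁ ⊓ scal ρ U := ⟨Coprime.commutator_le_of_le_normalizer (zpowers_le.2 (hgQ _))
      (commutator_mem_commutator ha hy), has⟩
    have h4 : ⁅a, z⁆ ∈ Q₁ ⊓ scal ρ U := Reg.commutator_mem_of_closure_right (T := {y})
      (fun t ht => ht ▸ hn hy) (fun t ht => ht ▸ h3)
      (zpowers_eq_closure y ▸ pow_mem_zpowers_of_ne_one Nat.prime_two ho hy' hy1)
    obtain ⟨b, hb, hab⟩ := exists_mul_commute_of_commutator_mem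
      (Core.le_normalizer_inf le_normalizer (normalizer_scal hU.inv) ha) (hn hxy)
      (hoz.symm ▸ h.coprime (inf_le_left.trans hle)) h4
    have h5 := Q₁.mul_mem ha hb.1
    exact ((scal ρ U).mul_mem_cancel_right hb.2).1 (hU.mem_scal_of_commute (hQU h5) (hC ⟨hle h5, hab⟩))
  have hcrit := fun (m : ℕ) h1 h2 => (critical_on hsol hQ1 hU (hgQ _) hxU hfpf
    (pow_ne_zero m (X_sub_C_ne_zero 1)) h1 h2).resolve_left hd1
  simp only [aeval_pow_sub_one, natDegree_pow_sub_one, ho1] at hcrit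
  have hN := Nat.pow_le_pow_right (n := 2) two_pos (show 1 ≤ n + 1 - i by omega)
  have hdim := (hcrit _ (fun w hw => hk w (hUc hw)) (by omega)).1
  have hcom := fun φ => commute_endQ (hgQ _) hU hxU (by omega) (ho1 ▸ pow_orderOf_eq_one _) (hcU ▸ hk)
    (fun h1 => by have := (hcrit _ h1 (by omega)).2; omega) (φ := φ)
  have hst : g ^ 2 ^ i ∈ stab ρ (hcomp ρ Q W) := by
    obtain ⟨φ, hφ, e⟩ := hU₀.exists_map_eq hQ1 hU.inv (hcU ▸ le_hcomp)
    by_contra h1
    refine hU₀.ne_bot (eq_bot_iff.2 ((le_inf ?_ hU₀c).trans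
      (disjoint_of_mem_comps hQ (map_rho_mem_comps hc (h.norm _)) hc h1).le_bot))
    rw [← e]
    rintro _ ⟨w, hw, rfl⟩
    have hw' := isInv_stab U _ (inv_mem hxU) w hw
    exact ⟨_, hU₀c (e.le ⟨_, hw', rfl⟩), by rw [hcom φ hφ _ hw', ← rho_mul_apply, mul_inv_cancel]; simp⟩
  obtain rfl : i = j := by
    refine le_antisymm ?_ ?_ <;> rw [← Nat.pow_dvd_pow_iff_le_right one_lt_two]
    · rw [← hp1]
      by_contra h1
      refine ne_bot_of_mem_comps hc (eq_bot_iff.2 ((le_inf ?_ hcc).trans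
        (disjoint_of_mem_comps hQ1 (map_rho_mem_comps hc₁ (hgQ _)) hc₁ h1).le_bot))
      exact (mem_stab.1 ((hp _).2 dvd_rfl)).ge.trans (Submodule.map_mono hcc)
    · exact (hp _).1 hst
  obtain ⟨d, hd⟩ := hU.exists_finrank_eq_pow (h.isPGroup.to_le hle) hQ1
  have hd0 : 1 ≤ d := Nat.pos_of_ne_zero fun e => hd1 (by rw [hd, e, pow_zero])
  obtain rfl : d = 1 := by
    rcases S3784.result 2 q _ d Nat.prime_two h.prime (by omega) hd0 (hd ▸ hdim.symm) with h1 | h1 | h1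
    · exact h1.2.1
    · exact absurd h1.1 h.ne
    · have := dvd_pow_self 2 (show n + 1 - i ≠ 0 by omega)
      omega
  refine ⟨?_, fun a ha h1 => ?_, ?_, fun h1 => ?_⟩
  · by_contra h1
    have := h.prime.two_le
    rw [hd, show n + 1 - i = 1 by omega] at hdim
    omega
  · have hI := isInv_of_mem_comps hc
    obtain ⟨b, hb, hab⟩ := exists_mul_commute_of_commutator_mem (N := Q ⊓ scal ρ (hcomp ρ Q W))
      (Core.le_normalizer_inf le_normalizer (normalizer_scal hI) ha)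
      (Core.le_normalizer_inf hzQ ((zpowers_le.2 ((hp _).2 (pow_dvd_pow 2 hi))).trans
        (normalizer_scal (isInv_stab _))) (mem_zpowers z)) (hoz.symm ▸ h.coprime inf_le_left)
      ⟨Coprime.commutator_le_of_le_normalizer hzQ (commutator_mem_commutator ha (mem_zpowers z)), h1⟩
    have h2 : ∀ w ∈ hcomp ρ Q₁ U₀, ρ (a * b) (ρ (g ^ 2 ^ i) w) = ρ (g ^ 2 ^ i) (ρ (a * b) w) := by
      have h3 : ρ (a * b) ∈ endQ ρ Q₁ := rho_mem_endQ fun y hy => by
        rw [hC ⟨mul_mem ha hb.1, hab⟩ y hy]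
      rw [hcU]
      intro w hw
      induction hw using Submodule.iSup_induction' with
      | mem φ w hw =>
        obtain ⟨u, hu, rfl⟩ := hw
        exact (congrArg _ (hcom _ φ.2 u hu)).trans (hcom _ (mul_mem h3 φ.2) u hu).symm
      | zero => simp
      | add _ _ _ _ h1 h2 => simp only [map_add, h1, h2]
    have h3 : ⁅a * b, g ^ 2 ^ i⁆ ∈ kerOn ρ (hcomp ρ Q W) := fun w hw => by
      have h4 := isInv_stab _ _ (inv_mem hst) w hw
      rw [commutatorElement_def, rho_mul_apply, rho_mul_apply, rho_mul_apply,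
        h2 _ (hcc (hI _ (inv_mem (mul_mem ha hb.1)) _ h4)), ← rho_mul_apply ρ (a * b), mul_inv_cancel,
        map_one, End.one_apply, ← rho_mul_apply, mul_inv_cancel, map_one, End.one_apply]
    have h4 := conj_mem_of_mem_normalizer (normalizer_kerOn hI ha)
      (commutator_mem_kerOn_of_mem_scal hb.2 hst)
    refine kerOn_le_scal _ ?_
    convert mul_mem (inv_mem h4) h3 using 1
    simp only [commutatorElement_def]; group
  · rw [← inf_relIndex_right, show scal ρ (hcomp ρ Q W) ⊓ Q₁ = scal ρ U ⊓ Q₁ from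
      Subgroup.ext fun a => ⟨fun h1 => ⟨(hs a h1.2).2 h1.1, h1.2⟩, fun h1 => ⟨(hs a h1.2).1 h1.1, h1.2⟩⟩,
      inf_relIndex_right, ← hU.sq_finrank_eq_on hQ1 fun a ha => (hs a
        (Coprime.commutator_le_of_le_normalizer le_normalizer ha)).2
          (h.comm_le hc (commutator_mono hle hle ha)), hd, pow_one]
  · exact hd1 ((hU₀.finrank_eq_of_le_hcomp hQ1 hU hUc).trans
      (hU₀.finrank_eq_one_of_comm (h1.trans (kerOn_anti hU₀c))))

end Cfsg.Agent.Reg.TwoLen
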