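import Cfsg.Agent.Lib.Reg.MaxClassPow
import Cfsg.Agent.Lib.Reg.Commutator
import Cfsg.Agent.Lib.PGrp.Soft
import Cfsg.Agent.Lib.Transfer.Alperin
import Cfsg.Agent.Lib.Transfer.Frobenius
import Cfsg.Agent.Lib.Core.PPrimeCore
import Cfsg.Agent.Lib.Transfer.Basic2
import Cfsg.Prelude.Def_CaseTheorems

/-!
# Uniform elements of a Sylow subgroup of maximal class
-/

set_option autoImplicit false

namespace Cfsg.Agent.Reg

open Subgroup
open scoped commutatorElement Pointwise

variable {X : Type*} [Group X]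

/-- the lower central series -/
abbrev lc (X : Type*) [Group X] (i : ℕ) : Subgroup X := (⊤ : Subgroup X).lowerCentralSeries i

theorem lc_anti {i j : ℕ} (h : i ≤ j) : lc X j ≤ lc X i :=
  (⊤ : Subgroup X).lowerCentralSeries_antitone h

/-- uniform elements -/
def Uni (n : ℕ) (s : X) : Prop := s ∉ lc X 1 ∧ ∀ i, i + 2 ≤ n → s ∉ twoStep X (i + 1)

theorem comm_lc {i j : ℕ} {x y : X} (hx : x ∈ lc X i) (hy : y ∈ lc X j) :
    ⁅x, y⁆ ∈ lc X (i + j + 1) :=
  commutator_lowerCentralSeries_le ⊤ i j (commutator_mem_commutator hx hy)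

theorem lc_le_twoStep (i : ℕ) : lc X 1 ≤ twoStep X i := fun x hx => mem_twoStep.2 fun y hy => by
  have := comm_lc hx hy
  rwa [show 1 + i + 1 = i + 2 by omega] at this

theorem map_mem_lc (φ : MulAut X) {i : ℕ} {x : X} (hx : x ∈ lc X i) : φ x ∈ lc X i :=
  characteristic_iff_le_comap.1 inferInstance φ hx

theorem Uni.map {n : ℕ} {s : X} (h : Uni n s) (φ : MulAut X) : Uni n (φ s) := by
  refine ⟨fun e => h.1 ?_, fun i hi e => h.2 i hi (mem_twoStep.2 fun y hy => ?_)⟩
  · simpa using map_mem_lc φ.symm e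
  · have := map_mem_lc φ.symm (mem_twoStep.1 e _ (map_mem_lc φ hy))
    rwa [← map_commutatorElement, MulEquiv.symm_apply_apply] at this

variable [Finite X] {p : ℕ} [hp : Fact p.Prime] {n : ℕ} (hX : Nat.card X = p ^ (n + 2))
  (hc : Group.nilpotencyClass X = n + 1)
include hX hc

theorem exists_uni {M : Subgroup X} (hM : M ≠ ⊤) (h1 : lc X 1 ≤ M) : ∃ s, s ∉ M ∧ Uni n s := by
  classical
  obtain ⟨s, hs⟩ := exists_forall_not_mem (IsPGroup.of_card hX) (Finset.range p) (by simp)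
    (fun i => if i ≠ 0 ∧ i + 1 ≤ n then twoStep X i else M) fun i _ => by
      split_ifs with h
      · exact twoStep_ne_top hX hc h.2
      · exact hM
  have h0 : s ∉ M := by simpa using hs 0 (Finset.mem_range.2 hp.out.pos)
  have key : ∀ j, j ≠ 0 → j + 1 ≤ n → s ∉ twoStep X j := fun j => by
    induction j using Nat.strong_induction_on with
    | _ j ih =>
      intro j0 hj
      by_cases h : j < p
      · have := hs j (Finset.mem_range.2 h)
        rwa [if_pos ⟨j0, hj⟩] at this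
      · obtain ⟨i, rfl⟩ := Nat.exists_eq_add_of_le' (not_lt.1 h)
        have := hp.out.two_le
        exact fun e => ih (i + 1) (by omega) (by omega) (by omega) (twoStep_add_le hX hc
          (mem_lcs_of_pow_mem n hX hc (i + 1) (by omega)) e)
  exact ⟨s, h0, fun e => h0 (h1 e), fun i hi => key _ (by omega) hi⟩

theorem Uni.mem_lc {s y : X} (hs : Uni n s) (hy : y ∈ lc X 1) {j : ℕ} (hj : j + 1 ≤ n)
    (h : ⁅s, y⁆ ∈ lc X (j + 2)) : y ∈ lc X (j + 1) := by
  have key : ∀ i, i ≤ j → y ∈ lc X (i + 1) := fun i => by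
    induction i with
    | zero => exact fun _ => hy
    | succ i ih =>
      exact fun hi => mem_lcs_of_not_mem_twoStep hX hc (hs.2 i (by omega)) (ih (by omega))
        (lc_anti (by omega) h)
  exact key j le_rfl

theorem card_lc_last (hn : 1 ≤ n) : Nat.card (lc X n) = p := by
  obtain ⟨m, rfl⟩ := Nat.exists_eq_add_of_le' hn
  rw [PGrp.card_lowerCentralSeries_of_maxClass hX hc (by omega), Nat.add_sub_cancel_left, pow_one]

theorem lc_last_le_center : lc X n ≤ center X := fun z hz => mem_center_iff.2 fun g => by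
  have := commutator_mem_lcs_succ g hz
  rwa [lcs_eq_bot_of_maxClass hX hc le_rfl, mem_bot, commutatorElement_eq_one_iff_mul_comm] at this

theorem center_eq_lc (hn : 1 ≤ n) : center X = lc X n := by
  obtain ⟨m, rfl⟩ := Nat.exists_eq_add_of_le' hn
  exact (eq_of_le_of_card_ge (lc_last_le_center hX hc) (by
    rw [card_lc_last hX hc hn, PGrp.card_center_of_maxClass hX hc])).symm

theorem Uni.mem_last (hn : 1 ≤ n) {s y : X} (hs : Uni n s) (hy : y ∈ lc X 1) (h : ⁅s, y⁆ = 1) :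
    y ∈ lc X n := by
  obtain ⟨m, rfl⟩ := Nat.exists_eq_add_of_le' hn
  exact hs.mem_lc hX hc hy le_rfl (h ▸ one_mem _)

theorem Uni.card_cent (hn : 1 ≤ n) {s : X} (hs : Uni n s) :
    Nat.card (centralizer ({s} : Set X)) = p ^ 2 := by
  have hP := IsPGroup.of_card hX
  have h1 : s ∉ lc X n := fun e => hs.1 (lc_anti hn e)
  have hne : centralizer ({s} : Set X) ≠ ⊤ := fun e => h1 (by
    rw [← center_eq_lc hX hc hn]
    exact mem_center_iff.2 fun g => mem_centralizer_singleton_iff.1 (e ▸ mem_top g))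
  have hle : lc X n ≤ centralizer ({s} : Set X) := fun z hz => mem_centralizer_singleton_iff.2
    (mem_center_iff.1 (lc_last_le_center hX hc hz) s).symm
  have h2 : lc X 1 ⊓ centralizer ({s} : Set X) = lc X n := le_antisymm (fun y hy =>
    hs.mem_last hX hc hn hy.1 (commutatorElement_eq_one_iff_mul_comm.2
      (mem_centralizer_singleton_iff.1 hy.2).symm)) (le_inf (lc_anti hn) hle)
  have h3 := PGrp.card_inf_mul_relIndex (lc X 1) (centralizer ({s} : Set X))
  rw [h2, card_lc_last hX hc hn] at h3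
  rcases (Nat.dvd_prime hp.out).1 (relIndex_commutator_dvd hX hc hne) with h | h
  · exact absurd (relIndex_eq_one.1 h (mem_centralizer_singleton_iff.2 rfl)) hs.1
  · rw [← h3, h, pow_two]

theorem Uni.of_not_mem {D : Subgroup X} (hD : D ≠ ⊤) {s s' : X} (hs : Uni n s) (h : s ∈ D)
    (h' : s' ∈ D) (h1 : s' ∉ lc X 1) : Uni n s' := by
  refine ⟨h1, fun i hi e => hs.2 i hi ?_⟩
  have h2 : (lc X 1 ⊓ D).relIndex D = p := by
    rw [inf_relIndex_right]
    exact ((Nat.dvd_prime hp.out).1 (relIndex_commutator_dvd hX hc hD)).resolve_left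
      fun e => hs.1 (relIndex_eq_one.1 e h)
  have h3 := PGrp.eq_of_lt_of_relIndex_eq_prime h2 (K := twoStep X (i + 1) ⊓ D)
    (lt_of_le_of_ne (inf_le_inf_right _ (lc_le_twoStep _)) fun e' => h1 (e'.ge ⟨e, h'⟩).1)
    inf_le_right
  exact (h3.ge h).1

theorem normal_cases {K : Subgroup X} [K.Normal] (hK : p ^ 2 ≤ Nat.card K) :
    lc X 1 ≤ K ∨ ∃ m, n = m + 2 ∧ lc X (m + 1) ≤ K ∧ K ≤ lc X 1 := by
  have hP := IsPGroup.of_card hX
  by_cases h : K.index ≤ p ^ (0 + 2)
  · exact Or.inl (PGrp.lowerCentralSeries_le_of_index_le hP h)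
  obtain ⟨k, hk⟩ := PGrp.exists_card_eq_pow hP K
  have h1 := K.card_mul_index
  rw [hk, Nat.pow_le_pow_iff_right hp.out.one_lt] at hK
  have h2 : k < n := by
    by_contra h3
    refine h (Nat.le_of_mul_le_mul_left ?_ (Nat.card_pos (α := K)))
    rw [h1, hX, hk, ← pow_add]
    exact Nat.pow_le_pow_right hp.out.pos (by omega)
  have h3 := PGrp.eq_lowerCentralSeries_of_maxClass hX hc (N := K) (i := n - k) (by omega)
    (by rw [hk]; congr 1; omega)
  exact Or.inr ⟨n - 2, by omega, h3 ▸ lc_anti (by omega), h3 ▸ lc_anti (by omega)⟩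

theorem Uni.tame {D K : Subgroup X} [K.Normal] (hK : p ^ 2 ≤ Nat.card K) (hD : D ≠ ⊤)
    (φ : D ≃* D) (hφ : ∀ d : D, (φ d : X) ∈ K ↔ (d : X) ∈ K) {s : D} (hs : Uni n (s : X))
    (hsK : (s : X) ∉ K) : Uni n (φ s : X) := by
  refine hs.of_not_mem hX hc hD s.2 (φ s).2 fun h1 => ?_
  have h2 : (φ s : X) ∉ K := fun e => hsK ((hφ s).1 e)
  obtain ⟨m, rfl, h3, h4⟩ := (normal_cases hX hc hK).resolve_left fun e => h2 (e h1)
  have key : ∀ d k, k + d = m → ∀ y : D, (y : X) ∈ lc X (k + 1) → (y : X) ∉ lc X (m + 2) →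
      ∃ u : D, (u : X) ∈ lc X (m + 1) ∧ (u : X) ∉ lc X (m + 2) := fun d => by
    induction d with
    | zero => exact fun k hk y h5 h6 => ⟨y, hk ▸ h5, h6⟩
    | succ d ih =>
      intro k hk y h5 h6
      by_cases h7 : (y : X) ∈ lc X (m + 1)
      · exact ⟨y, h7, h6⟩
      exact ih (k + 1) (by omega) ⁅s, y⁆ (commutator_mem_lcs_succ _ h5) fun e =>
        h7 (hs.mem_lc hX hc (lc_anti (by omega) h5) (by omega) e)
  obtain ⟨u, hu, hu'⟩ := key m 0 (by omega) (φ s) h1 fun e => h2 (h3 (lc_anti (by omega) e))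
  have h5 : (φ u : X) ∈ lc X 1 := h4 ((hφ u).2 (h3 hu))
  have h6 : ⁅s, ⁅s, φ u⁆⁆ = 1 := by
    obtain ⟨t, rfl⟩ := φ.surjective s
    rw [← map_commutatorElement, ← map_commutatorElement, map_eq_one_iff _ φ.injective,
      commutatorElement_eq_one_iff_mul_comm]
    exact Subtype.ext (mem_center_iff.1 (lc_last_le_center hX hc
      (commutator_mem_lcs_succ (t : X) hu)) t)
  have h7 := hs.mem_last hX hc (by omega) (y := ⁅(s : X), (φ u : X)⁆)
    (lc_anti (by omega) (commutator_mem_lcs_succ _ h5)) (congrArg Subtype.val h6)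
  have h8 := comm_lc h1 (hs.mem_lc hX hc h5 (by omega) h7)
  rw [show lc X (1 + (m + 1) + 1) = ⊥ from lcs_eq_bot_of_maxClass hX hc (by omega), mem_bot] at h8
  have h9 : ⁅s, u⁆ = 1 := φ.injective (by
    rw [map_commutatorElement, map_one]; exact Subtype.ext h8)
  exact hu' (hs.mem_last hX hc (by omega) (lc_anti (by omega) hu) (congrArg Subtype.val h9))

end Cfsg.Agent.Reg

namespace Cfsg.Agent.Reg

open Subgroup Transfer
open scoped commutatorElement Pointwise

variable {G : Type*} [Group G] [Finite G] {p : ℕ} [hp : Fact p.Prime] {n : ℕ} (P : Sylow p G)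
  (hX : Nat.card (P : Subgroup G) = p ^ (n + 2))
  (hc : Group.nilpotencyClass (P : Subgroup G) = n + 1) (hn : 1 ≤ n)
include hX hc hn

theorem exists_cent {K : Subgroup G} [hK : K.Normal] (h1 : ¬ (P : Subgroup G) ≤ K)
    (h2 : p ^ 2 ≤ Nat.card (K.subgroupOf P)) :
    ∃ x ∈ (P : Subgroup G), (Nat.card (centralizer ({x} : Set G))).factorization p = 2 := by
  have hM : K.subgroupOf P ⊔ lc P 1 ≠ ⊤ := by
    rcases normal_cases hX hc h2 with h | ⟨m, rfl, -, h⟩
    · rw [sup_eq_left.2 h]; exact fun e => h1 (subgroupOf_eq_top.1 e)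
    · rw [sup_eq_right.2 h]
      intro e
      have : (lc P 1).index = _ := index_lcs_of_maxClass hX hc (i := 0) (by omega)
      rw [e, index_top] at this
      exact absurd this.symm (Nat.one_lt_pow two_ne_zero hp.out.one_lt).ne'
  obtain ⟨s, hs, hu⟩ := exists_uni hX hc hM le_sup_right
  have hnorm : ∀ y ∈ normalizer ((P : Subgroup G) : Set G), ∀ x, ∀ hx : x ∈ (P : Subgroup G),
      Uni n (⟨x, hx⟩ : (P : Subgroup G)) →
      ∃ h : y * x * y⁻¹ ∈ (P : Subgroup G), Uni n (⟨_, h⟩ : (P : Subgroup G)) :=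
    fun y hy x hx h => ⟨_, h.map ((P : Subgroup G).normalizerMonoidHom ⟨y, hy⟩)⟩
  have key : ∀ {A : Subgroup G} {g : G}, A ≤ P → MulAut.conj g • A ≤ P → ∀ x ∈ A,
      ∀ hx : x ∈ (P : Subgroup G), Uni n (⟨x, hx⟩ : (P : Subgroup G)) → x ∉ K →
      ∃ h : g * x * g⁻¹ ∈ (P : Subgroup G), Uni n (⟨_, h⟩ : (P : Subgroup G)) := by
    intro A g hA hg
    refine alperin_induction P (T := fun A g => ∀ x ∈ A, ∀ hx : x ∈ (P : Subgroup G),
      Uni n (⟨x, hx⟩ : (P : Subgroup G)) → x ∉ K →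
      ∃ h : g * x * g⁻¹ ∈ (P : Subgroup G), Uni n (⟨_, h⟩ : (P : Subgroup G)))
      ⟨fun A B g h hB x hx => hB x (h hx), fun A B g h hA hB hle x hx hx' h3 h4 => ?_,
        fun y hy x _ hx h3 _ => hnorm y hy x hx h3⟩ (fun Q _ y hy _ x hx hx' h3 h4 => ?_) hA hg
    · obtain ⟨h5, h6⟩ := hA x hx hx' h3 h4
      have := hB _ (hle (conj_mem_conj_smul hx)) h5 h6 fun e => h4 (by
        simpa [mul_assoc] using hK.conj_mem _ e g⁻¹)
      rwa [show h * (g * x * g⁻¹) * h⁻¹ = h * g * x * (h * g)⁻¹ by group] at this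
    · by_cases hD : ((P : Subgroup G) ⊓ Q).subgroupOf P = ⊤
      · rw [inf_eq_left.2 ((subgroupOf_eq_top.1 hD).trans inf_le_right)] at hy
        exact hnorm y hy x hx' h3
      let e := subgroupOfEquivOfLe (inf_le_left : (P : Subgroup G) ⊓ Q ≤ P)
      exact ⟨_, Uni.tame hX hc h2 hD
        (e.trans ((((P : Subgroup G) ⊓ Q).normalizerMonoidHom ⟨y, hy⟩).trans e.symm))
        (fun d => ⟨fun h => by
          have : y⁻¹ * (y * d.1.1 * y⁻¹) * y⁻¹⁻¹ ∈ K := hK.conj_mem _ h y⁻¹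
          change d.1.1 ∈ K
          simpa [mul_assoc] using this, fun h => hK.conj_mem _ h y⟩) (s := ⟨⟨x, hx'⟩, hx⟩) h3 h4⟩
  have hcard : ∀ x : (P : Subgroup G), Uni n x →
      Nat.card ↥((P : Subgroup G) ⊓ centralizer ({(x : G)} : Set G)) = p ^ 2 := fun x hx => by
    rw [← hx.card_cent hX hc hn, ← card_map_of_injective (K := centralizer ({x} : Set _))
      (P : Subgroup G).subtype_injective]
    congr 2
    ext y
    refine ⟨fun h => ⟨⟨y, h.1⟩, mem_centralizer_singleton_iff.2 (Subtype.ext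
      (mem_centralizer_singleton_iff.1 h.2)), rfl⟩, ?_⟩
    rintro ⟨y, hy, rfl⟩
    exact ⟨y.2, mem_centralizer_singleton_iff.2
      (congrArg Subtype.val (mem_centralizer_singleton_iff.1 hy))⟩
  refine ⟨s, s.2, ?_⟩
  obtain ⟨R, hR, hR'⟩ := exists_isSylowIn_ge (X := (P : Subgroup G) ⊓ centralizer {(s : G)})
    (P.isPGroup'.to_le inf_le_left) inf_le_right
  obtain ⟨g, -, hg⟩ := (isSylowIn_top P).exists_conj_le hR'.isPGroup le_top
  have hsR : (s : G) ∈ R := hR ⟨s.2, mem_centralizer_singleton_iff.2 rfl⟩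
  obtain ⟨h3, h4⟩ := key (A := zpowers (s : G)) (g := g) (zpowers_le.2 s.2)
    ((conj_smul_mono g (zpowers_le.2 hsR)).trans hg) s (mem_zpowers _) s.2 hu
    fun e => hs (mem_sup_left e)
  have h5 : Nat.card R = p ^ 2 := le_antisymm (by
    rw [← hcard _ h4, ← card_conj_smul g R]
    refine card_le_of_le (le_inf hg (conj_smul_le_iff.2 fun r hr => ?_))
    refine mem_centralizer_singleton_iff.2 ?_
    change g * r * g⁻¹ * (g * s * g⁻¹) = g * s * g⁻¹ * (g * r * g⁻¹)
    rw [conj_mul, conj_mul, mem_centralizer_singleton_iff.1 (hR'.le hr)])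
    (hcard s hu ▸ card_le_of_le hR)
  have h6 := PGrp.card_mul_relIndex hR'.le
  rw [← h6, h5, Nat.factorization_mul (pow_pos hp.out.pos 2).ne'
      (show R.relIndex (centralizer {(s : G)}) ≠ 0 from index_ne_zero_of_finite),
    Finsupp.add_apply, Nat.factorization_eq_zero_of_not_dvd hR'.not_dvd, hp.out.factorization_pow,
    Finsupp.single_eq_same]

/-- a normal subgroup meeting `P` in a group of order `p` centralizes this intersection -/
theorem norm_le_cent {K : Subgroup G} [hK : K.Normal]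
    (h2 : Nat.card ↥((P : Subgroup G) ⊓ K) = p) {k : G} (hk : k ∈ K)
    (hkZ : k ∈ normalizer (((P : Subgroup G) ⊓ K : Subgroup G) : Set G)) :
    k ∈ centralizer (((P : Subgroup G) ⊓ K : Subgroup G) : Set G) := by
  set Z := (P : Subgroup G) ⊓ K with hZ
  have hP := P.isPGroup'
  have hZ1 : Nat.card (K.subgroupOf P) = p := by
    rw [← inf_subgroupOf_left, Nat.card_congr (subgroupOfEquivOfLe inf_le_left).toEquiv, h2]
  have hZc : K.subgroupOf P = center (P : Subgroup G) := eq_of_le_of_card_ge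
    (PGrp.le_center_of_card_eq_prime hP hZ1) (by
      rw [center_eq_lc hX hc hn, card_lc_last hX hc hn, hZ1])
  have hPZ : ∀ g ∈ (P : Subgroup G), ∀ z ∈ Z, g * z = z * g := fun g hg z hz =>
    congrArg Subtype.val (mem_center_iff.1 (hZc.le (show (⟨z, hz.1⟩ : (P : Subgroup G)) ∈ _
      from hz.2)) ⟨g, hg⟩)
  obtain ⟨A', hA', hAc⟩ := PGrp.exists_normal_card hP (k := 2) (by
    rw [hX]; exact Nat.pow_le_pow_right hp.out.pos (by omega))
  have hA'b : A' ≠ ⊥ := fun e => by
    rw [e, card_bot] at hAc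
    exact absurd hAc.symm (Nat.one_lt_pow two_ne_zero hp.out.one_lt).ne'
  have hZA' : K.subgroupOf P ≤ A' := by
    have h3 := PGrp.inf_center_ne_bot hP (N := A') hA'b
    rw [← hZc] at h3
    have h4 := (Nat.dvd_prime hp.out).1 (hZ1 ▸ card_dvd_of_le (inf_le_right (a := A')))
    exact (eq_of_le_of_card_ge inf_le_right (by
      rw [h4.resolve_left fun e => h3 (card_eq_one.1 e), hZ1])).ge.trans inf_le_left
  set A := A'.map (P : Subgroup G).subtype with hA
  have hAP : A ≤ P := map_subtype_le _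
  have hAc' : Nat.card A = p ^ 2 := by
    rw [hA, card_map_of_injective (P : Subgroup G).subtype_injective, hAc]
  have hZA : Z ≤ A := fun z hz => ⟨⟨z, hz.1⟩, hZA' hz.2, rfl⟩
  have hPA : ∀ g ∈ (P : Subgroup G), ∀ a ∈ A, g * a * g⁻¹ ∈ A := by
    rintro g hg _ ⟨a, ha, rfl⟩
    exact ⟨_, hA'.conj_mem a ha ⟨g, hg⟩, rfl⟩
  have hAA : ∀ a ∈ A, ∀ b ∈ A, a * b = b * a := fun a ha b hb =>
    congrArg Subtype.val ((IsPGroup.commGroupOfCardEqPrimeSq hAc').mul_comm ⟨a, ha⟩ ⟨b, hb⟩)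
  have hZS : IsSylowIn p Z K := isSylowIn_sylow_inf_normal P K
  -- `A` is a Sylow subgroup of `C_K(Z) A`
  set C := K ⊓ centralizer (Z : Set G) with hC
  have hZC : Z ≤ C := fun z hz => ⟨hz.2, fun w hw => (hPZ z hz.1 w hw).symm⟩
  have hAC : ∀ a ∈ A, a ∈ centralizer (Z : Set G) := fun a ha w hw => (hPZ a (hAP ha) w hw).symm
  have hZn : ∀ g ∈ normalizer (Z : Set G), g ∈ normalizer (C : Set G) := fun g hg =>
    mem_normalizer_of_conj_mem fun c hc => ⟨hK.conj_mem _ hc.1 g, fun w hw => by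
      have := hc.2 _ ((mem_normalizer_iff.1 (inv_mem hg) w).1 hw)
      calc w * (g * c * g⁻¹) = g * (g⁻¹ * w * g⁻¹⁻¹ * c) * g⁻¹ := by group
        _ = _ := by rw [this]; group⟩
  have hAn : A ≤ normalizer (C : Set G) := fun a ha => hZn a (centralizer_le_normalizer _ (hAC a ha))
  have hform : ∀ h ∈ C ⊔ A, ∃ c ∈ C, ∃ a ∈ A, h = c * a := fun h hh => by
    rw [← SetLike.mem_coe, Subgroup.coe_mul_of_right_le_normalizer_left _ _ hAn] at hh
    obtain ⟨c, hc, a, ha, e⟩ := hh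
    exact ⟨c, hc, a, ha, e.symm⟩
  have hAS : IsSylowIn p A (C ⊔ A) := isSylowIn_of_maximal (hP.to_le hAP) le_sup_right
    fun Y hY h3 h4 => le_antisymm (fun y hy => by
      obtain ⟨c, hc', a, ha, rfl⟩ := hform y (h4 hy)
      have h5 : c ∈ Y := by simpa using mul_mem hy (inv_mem (h3 ha))
      exact mul_mem (hZA ((hZS.eq_of_le (Y := Y ⊓ K) (hY.to_le inf_le_left)
        (le_inf (hZA.trans h3) inf_le_right) inf_le_right).le ⟨h5, hc'.1⟩)) ha) h3
  have hkH : k ∈ normalizer ((C ⊔ A : Subgroup G) : Set G) := mem_normalizer_of_conj_mem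
    fun h hh => by
      obtain ⟨c, hc', a, ha, rfl⟩ := hform h hh
      rw [show k * (c * a) * k⁻¹ = k * c * k⁻¹ * (k * a * k⁻¹ * a⁻¹) * a by group]
      refine mul_mem (mem_sup_left (mul_mem ((mem_normalizer_iff.1 (hZn k hkZ) c).1 hc') ⟨?_, ?_⟩))
        (mem_sup_right ha)
      · rw [show k * a * k⁻¹ * a⁻¹ = k * (a * k⁻¹ * a⁻¹) by group]
        exact K.mul_mem hk (hK.conj_mem _ (K.inv_mem hk) a)
      · refine (centralizer (Z : Set G)).mul_mem (fun w hw => ?_)
          ((centralizer (Z : Set G)).inv_mem (hAC a ha))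
        have := hAC a ha _ ((mem_normalizer_iff.1 (inv_mem hkZ) w).1 hw)
        calc w * (k * a * k⁻¹) = k * (k⁻¹ * w * k⁻¹⁻¹ * a) * k⁻¹ := by group
          _ = _ := by rw [this]; group
  obtain ⟨h, hh, y, hy, rfl⟩ := hAS.frattini (H := zpowers k) (zpowers_le.2 hkH) (mem_zpowers k)
  obtain ⟨c, hc', a, ha, rfl⟩ := hform h hh
  rw [mul_assoc] at hk ⊢
  refine mul_mem hc'.2 ?_
  have hκK : a * y ∈ K := by simpa using K.mul_mem (K.inv_mem hc'.1) hk
  have hκA : a * y ∈ normalizer (A : Set G) := mul_mem (le_normalizer ha) hy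
  generalize a * y = κ at hκK hκA
  by_contra hκ
  have hcomm : ∀ δ ∈ K, δ ∈ normalizer (A : Set G) → ∀ b ∈ A, δ * b * δ⁻¹ * b⁻¹ ∈ Z :=
    fun δ h3 h4 b hb => ⟨hAP (mul_mem ((mem_normalizer_iff.1 h4 b).1 hb) (inv_mem hb)), by
      rw [show δ * b * δ⁻¹ * b⁻¹ = δ * (b * δ⁻¹ * b⁻¹) by group]
      exact K.mul_mem h3 (hK.conj_mem _ (K.inv_mem h3) b)⟩
  have hfix : ∀ z ∈ Z, κ * z = z * κ → z = 1 := fun z hz e => by
    by_contra z1
    refine hκ fun w hw => ?_
    have h3 := (Nat.dvd_prime hp.out).1 (h2 ▸ card_dvd_of_le (zpowers_le.2 hz))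
    have h4 : zpowers z = Z := eq_of_le_of_card_ge (zpowers_le.2 hz) (by
      rw [h3.resolve_left fun e => z1 (zpowers_eq_bot.1 (card_eq_one.1 e)), h2])
    obtain ⟨i, rfl⟩ := h4.ge hw
    exact ((show Commute κ z from e).zpow_right i).eq.symm
  -- a fixed point of `κ` on `A`
  obtain ⟨b, hb, hbZ, hbκ⟩ : ∃ b ∈ A, b ∉ Z ∧ κ * b = b * κ := by
    have : ¬ Function.Injective fun b : A => (⟨_, hcomm κ hκK hκA b b.2⟩ : Z) := fun e => by
      have := Nat.card_le_card_of_injective _ e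
      rw [hAc', h2] at this
      have := hp.out.one_lt
      nlinarith
    obtain ⟨b, b', e, hne⟩ := Function.not_injective_iff.1 this
    have e' : κ * b * κ⁻¹ * b.1⁻¹ = κ * b' * κ⁻¹ * b'.1⁻¹ := congrArg Subtype.val e
    have h3 : κ * (b'.1⁻¹ * b) = b'.1⁻¹ * b * κ := by
      calc κ * (b'.1⁻¹ * b) = (κ * b' * κ⁻¹)⁻¹ * (κ * b * κ⁻¹ * b.1⁻¹) * b * κ := by group
        _ = _ := by rw [e']; group
    exact ⟨_, mul_mem (inv_mem b'.2) b.2, fun h4 => hne (Subtype.ext
      (inv_mul_eq_one.1 (hfix _ h4 h3)).symm), h3⟩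
  have hδ : ∀ δ ∈ C, δ ∈ normalizer (A : Set G) → δ * b = b * δ := fun δ h3 h4 => by
    have h5 := hcomm δ h3.1 h4 b hb
    have h6 : ∀ i : ℕ, δ ^ i * b * (δ ^ i)⁻¹ = (δ * b * δ⁻¹ * b⁻¹) ^ i * b := fun i => by
      induction i with
      | zero => simp
      | succ i ih =>
        have h7 := h3.2 _ (pow_mem h5 i)
        calc δ ^ (i + 1) * b * (δ ^ (i + 1))⁻¹ = δ * (δ ^ i * b * (δ ^ i)⁻¹) * δ⁻¹ := by
              rw [pow_succ']; group
          _ = δ * (δ * b * δ⁻¹ * b⁻¹) ^ i * b * δ⁻¹ := by rw [ih, ← mul_assoc]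
          _ = _ := by rw [← h7, pow_succ]; group
    have : (Z.subgroupOf C).Normal := normal_subgroupOf_of_le_normalizer
      (inf_le_right.trans (centralizer_le_normalizer _))
    have h7 : δ ^ Z.relIndex C ∈ Z := (Z.subgroupOf C).pow_index_mem ⟨δ, h3⟩
    have h8 := h6 (Z.relIndex C)
    rw [hAA _ (hZA h7) _ hb, mul_inv_cancel_right, eq_comm, mul_eq_right] at h8
    have h9 : (δ * b * δ⁻¹ * b⁻¹) ^ p = 1 := by
      rw [← h2]; exact congrArg Subtype.val (pow_card_eq_one' (x := (⟨_, h5⟩ : Z)))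
    have h10 := pow_eq_one_iff_of_coprime ((hp.out.coprime_iff_not_dvd).2
      (hZS.of_le hZC inf_le_left).not_dvd) |>.1 ⟨h9, h8⟩
    rwa [mul_inv_eq_one, mul_inv_eq_iff_eq_mul] at h10
  refine hbZ ⟨hAP hb, hZc.ge (show (⟨b, hAP hb⟩ : (P : Subgroup G)) ∈ _ from
    mem_center_iff.2 fun g => Subtype.ext ?_)⟩
  change g.1 * b = b * g.1
  have hκZ : ∀ z ∈ Z, κ * z * κ⁻¹ ∈ Z := fun z hz =>
    ⟨hAP ((mem_normalizer_iff.1 hκA z).1 (hZA hz)), hK.conj_mem _ hz.2 _⟩
  have h3 := hδ (κ⁻¹ * (g.1⁻¹ * κ * g.1⁻¹⁻¹)) ⟨K.mul_mem (K.inv_mem hκK) (hK.conj_mem _ hκK _),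
    fun z hz => by
      have e1 := hPZ _ g.2 z hz
      have e2 := hPZ _ (inv_mem g.2) _ (hκZ z hz)
      calc z * (κ⁻¹ * (g.1⁻¹ * κ * g.1⁻¹⁻¹)) = κ⁻¹ * (κ * z * κ⁻¹ * g.1⁻¹) * κ * g := by group
        _ = κ⁻¹ * g.1⁻¹ * κ * (z * g) := by rw [← e2]; group
        _ = _ := by rw [← e1]; group⟩ (mul_mem (inv_mem hκA) (by
      have := mem_normalizer_of_conj_mem (hPA _ g.2)
      exact mul_mem (mul_mem (inv_mem this) hκA) (inv_mem (inv_mem this))))
  have h4 : g.1 * b * g.1⁻¹ * b⁻¹ ∈ Z := by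
    have : (⟨g.1 * b * g.1⁻¹ * b⁻¹, hAP (mul_mem (hPA _ g.2 b hb) (inv_mem hb))⟩ :
        (P : Subgroup G)) ∈ K.subgroupOf P := by
      have h4 := PGrp.mul_card_dvd_of_lt (hP.to_subgroup _)
        (PGrp.commutator_top_lt hP (N := A') hA'b)
      rw [hAc, pow_two, Nat.mul_dvd_mul_iff_right hp.out.pos] at h4
      have h5 : ⁅A', ⊤⁆ ≤ center (P : Subgroup G) := by
        rcases (Nat.dvd_prime hp.out).1 h4 with e | e
        · rw [card_eq_one.1 e]; exact bot_le
        · exact PGrp.le_center_of_card_eq_prime hP e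
      obtain ⟨b', hb', rfl⟩ := hb
      rw [hZc]
      exact h5 (commutatorElement_mem_comm.1 (commutator_mem_commutator hb' (mem_top g)))
    exact ⟨hAP (mul_mem (hPA _ g.2 b hb) (inv_mem hb)), this⟩
  have h5 := hfix _ h4 (by
    have e1 : κ * (g.1 * b * g.1⁻¹) = g.1 * b * g.1⁻¹ * κ := by
      calc κ * (g.1 * b * g.1⁻¹) = g * κ * (κ⁻¹ * (g.1⁻¹ * κ * g.1⁻¹⁻¹) * b) * g.1⁻¹ := by group
        _ = g * (κ * b) * κ⁻¹ * g.1⁻¹ * κ := by rw [h3]; group
        _ = _ := by rw [hbκ]; group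
    rw [← mul_assoc, e1, mul_assoc _ κ, mul_assoc _ b⁻¹, eq_inv_mul_iff_mul_eq.2
      (show b * (κ * b⁻¹) = κ by rw [← mul_assoc, ← hbκ, mul_inv_cancel_right])])
  rwa [mul_inv_eq_one, mul_inv_eq_iff_eq_mul] at h5

theorem quasisimple (hcore : pPrimeCore p G = ⊥)
    (hres : ∀ N : Subgroup G, N.Normal → N.index.Coprime p → N = ⊤)
    (h : ¬ ∃ x ∈ (P : Subgroup G),
      (Nat.card (centralizer ({x} : Set G))).factorization p = 2) :
    IsQuasisimple G ∧ Nat.card (center G) ≤ p := by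
  have hP := P.isPGroup'
  have hPK : ∀ K : Subgroup G, K.Normal → (P : Subgroup G) ≤ K → K = ⊤ := fun K hK e =>
    hres K hK (((hp.out.coprime_iff_not_dvd).2 P.not_dvd_index).symm.coprime_dvd_left
      (index_dvd_of_le e))
  have hcard : ∀ K : Subgroup G, Nat.card (K.subgroupOf P) = Nat.card ↥((P : Subgroup G) ⊓ K) :=
    fun K => by rw [← inf_subgroupOf_left, Nat.card_congr (subgroupOfEquivOfLe inf_le_left).toEquiv]
  have key : ∀ K : Subgroup G, K.Normal → K ≠ ⊤ → K ≠ ⊥ →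
      K ≤ P ∧ Nat.card K = p ∧ K ≤ center G := fun K hK h1 h2 => by
    have hS := isSylowIn_sylow_inf_normal P K
    have h3 : Nat.card ↥((P : Subgroup G) ⊓ K) = p := by
      obtain ⟨k, hk⟩ := IsPGroup.iff_card.1 hS.isPGroup
      have h4 : k < 2 := by
        by_contra h4
        exact h (exists_cent P hX hc hn (fun e => h1 (hPK K hK e)) (by
          rw [hcard, hk]; exact Nat.pow_le_pow_right hp.out.pos (by omega)))
      have h5 : k ≠ 0 := by
        rintro rfl
        refine h2 (le_bot_iff.1 (hcore ▸ Core.le_pPrimeCore_of_not_dvd ?_))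
        have := hS.not_dvd
        rwa [card_eq_one.1 hk, relIndex_bot_left] at this
      rw [hk, show k = 1 by omega, pow_one]
    have h4 := burnside_of_normalizer_le_centralizer hS.toSylow (fun k hk => by
      rw [hS.coe_toSylow] at hk ⊢
      have h5 := norm_le_cent P hX hc hn h3 k.2 (mem_normalizer_of_conj_mem fun z hz =>
        (mem_normalizer_iff.1 hk ⟨z, hz.2⟩).1 hz)
      exact fun z hz => Subtype.ext (h5 z hz))
    have h5 : pResidual p K = ⊥ := by
      rw [pResidual_eq_pPrimeCore h4, ← map_eq_bot_iff_of_injective _ K.subtype_injective,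
        ← le_bot_iff, ← hcore]
      exact Core.map_pPrimeCore_subtype_le K
    have h6 := hS.eq_of_le (isPGroup_iff_pResidual_eq_bot.2 h5) inf_le_right le_rfl
    have h7 : Nat.card K = p := by rw [h6, h3]
    refine ⟨h6.le.trans inf_le_left, h7, fun z hz => mem_center_iff.2 fun g => ?_⟩
    have h8 := PGrp.le_center_of_card_eq_prime hP (N := K.subgroupOf P) (by rw [hcard, h3])
    have h9 := hPK (centralizer (K : Set G)) inferInstance fun g hg w hw =>
      (congrArg Subtype.val (mem_center_iff.1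
        (h8 (show (⟨w, (h6.le hw).1⟩ : (P : Subgroup G)) ∈ _ from hw)) ⟨g, hg⟩)).symm
    exact (h9.ge (mem_top g) z hz).symm
  have hZ : center G ≠ ⊤ := fun e => by
    have h1 : center (P : Subgroup G) = ⊤ := top_le_iff.1 fun x _ => mem_center_iff.2 fun y =>
      Subtype.ext (mem_center_iff.1 (e ▸ mem_top x.1) y.1)
    have h2 := card_lc_last hX hc hn
    rw [← center_eq_lc hX hc hn, h1, card_top, hX] at h2
    have := (Nat.pow_right_injective hp.out.two_le (h2.trans (pow_one p).symm))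
    omega
  refine ⟨⟨⟨?_⟩, ?_⟩, ?_⟩
  · by_contra h1
    obtain ⟨A', hA', hAc⟩ := PGrp.exists_normal_card hP (k := n + 1) (by
      rw [hX]; exact Nat.pow_le_pow_right hp.out.pos (by omega))
    have h2 : commutator G ≤ A'.map (P : Subgroup G).subtype := by
      by_cases e : commutator G = ⊥
      · rw [e]; exact bot_le
      obtain ⟨h3, h4, -⟩ := key _ inferInstance h1 e
      have h5 := PGrp.le_center_of_card_eq_prime hP (N := (commutator G).subgroupOf P)
        (by rw [hcard, inf_eq_right.2 h3, h4])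
      rw [center_eq_lc hX hc hn] at h5
      have h6 : lc P n ≤ A' := by
        obtain ⟨m, rfl⟩ := Nat.exists_eq_add_of_le' hn
        refine PGrp.lowerCentralSeries_le_of_index_le hP (Nat.le_of_mul_le_mul_left ?_
          (Nat.card_pos (α := A')))
        rw [A'.card_mul_index, hX, hAc, ← pow_add]
        exact Nat.pow_le_pow_right hp.out.pos (by omega)
      exact fun z hz => ⟨⟨z, h3 hz⟩, h6 (h5 hz), rfl⟩
    have h3 : Nat.card (A'.map (P : Subgroup G).subtype) = p ^ (n + 1) := by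
      rw [card_map_of_injective (P : Subgroup G).subtype_injective, hAc]
    have h4 := (key _ (Normal.of_commutator_le G h2) (fun e => by
      have := card_le_of_le (e.ge.trans (map_subtype_le A'))
      rw [card_top] at this
      have h5 := (P : Subgroup G).card_le_card_group
      rw [← card_top (G := G), ← e, h3, hX, Nat.pow_le_pow_iff_right hp.out.one_lt] at h5
      omega) (fun e => by
      rw [e, card_bot] at h3
      exact absurd h3.symm (Nat.one_lt_pow (by omega) hp.out.one_lt).ne')).2.1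
    have := (Nat.pow_right_injective hp.out.two_le (h3.symm.trans (h4.trans (pow_one p).symm)))
    omega
  · have : Nontrivial (G ⧸ center G) := QuotientGroup.nontrivial_iff.2 hZ
    refine ⟨fun N hN => ?_⟩
    have hf := QuotientGroup.mk'_surjective (center G)
    rw [← map_comap_eq_self_of_surjective hf N]
    by_cases e : N.comap (QuotientGroup.mk' (center G)) = ⊤
    · right; rw [e]; exact map_top_of_surjective _ hf
    left
    rw [Subgroup.map_eq_bot_iff, QuotientGroup.ker_mk']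
    by_cases e' : N.comap (QuotientGroup.mk' (center G)) = ⊥
    · rw [e']; exact bot_le
    · exact (key _ inferInstance e e').2.2
  · by_cases e : center G = ⊥
    · rw [e, card_bot]; exact hp.out.pos
    · exact (key _ inferInstance hZ e).2.1.le

end Cfsg.Agent.Reg
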