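import Cfsg.Agent.Lib.Reg.LinDerived

/-!
Derived length of wreath products; lower bounds for Sylow subgroups of symmetric and linear groups.
-/

namespace Cfsg.Agent.Reg

open Subgroup Module Cfsg.Agent.Mod
open scoped commutatorElement

universe u

variable {p : ℕ} [hp : Fact p.Prime]

theorem derivedSeries_le_of_index_lt (m : ℕ) : ∀ (G : Type u) [Group G] [Finite G],
    IsPGroup p G → ∀ H : Subgroup G, H.index < p ^ (m + 1) → derivedSeries G m ≤ H := by
  induction m with
  | zero =>
    intro G _ _ hG H hH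
    obtain ⟨d, hd⟩ := hG.index H
    rw [hd, Nat.pow_lt_pow_iff_right hp.out.one_lt] at hH
    rw [show d = 0 by omega, pow_zero, index_eq_one] at hd
    exact hd ▸ le_top
  | succ m ih =>
    intro G _ _ hG H hH
    rcases eq_top_or_exists_le_coatom H with h | ⟨M, hM, h⟩
    · exact h ▸ le_top
    have := PGrp.coatom_normal hG hM
    have hi := PGrp.coatom_index hG hM
    have h1 := ih M (hG.to_subgroup M) (H.subgroupOf M) (by
      rw [← relIndex_mul_index h, hi, pow_succ] at hH
      exact Nat.lt_of_mul_lt_mul_right hH)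
    rw [← dser_top, add_comm, dser_add]
    refine (dser_mono (PGrp.commutator_le_of_index_eq hi) m).trans ?_
    rw [← map_derivedSeries_subtype, map_le_iff_le_comap]
    exact h1

theorem derivedSeries_ne_bot_of_injective {Q G : Type*} [Group Q] [Group G] (f : Q →* G)
    (hf : Function.Injective f) {m : ℕ} (h : derivedSeries Q m ≠ ⊥) : derivedSeries G m ≠ ⊥ :=
  fun h' => h ((map_eq_bot_iff_of_injective _ hf).1
    (le_bot_iff.1 (h' ▸ map_derivedSeries_le_derivedSeries f m)))

theorem sylow_derivedSeries_ne_bot {Q G : Type*} [Group Q] [Group G] [Finite G] (P : Sylow p G)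
    (hQ : IsPGroup p Q) (f : Q →* G) (hf : Function.Injective f) {m : ℕ}
    (h : derivedSeries Q m ≠ ⊥) : derivedSeries P m ≠ ⊥ := by
  obtain ⟨P', hP'⟩ := (hQ.of_surjective _ f.rangeRestrict_surjective).exists_le_sylow
  refine derivedSeries_ne_bot_of_injective
    ((P'.equiv P).toMonoidHom.comp (f.codRestrict _ fun x => hP' ⟨x, rfl⟩)) ?_ h
  exact (P'.equiv P).injective.comp fun a b hab => hf (congrArg Subtype.val hab)

open RegularWreathProduct

section Wr

variable {D Q : Type*} [Group D] [Group Q]

theorem derivedSeries_wreath_ne_bot [Nontrivial Q] {m : ℕ} (h : derivedSeries D m ≠ ⊥) :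
    derivedSeries (D ≀ᵣ Q) (m + 1) ≠ ⊥ := by
  classical
  let K := (rightHom : D ≀ᵣ Q →* Q).ker
  let ev : K →* D := MonoidHom.mk' (fun w => w.1.left 1) fun a b => by
    have : a.1.right = 1 := a.2
    simp [this]
  have h1 : ((commutator (D ≀ᵣ Q)).subgroupOf K).map ev = ⊤ := by
    rw [eq_top_iff]
    intro d _
    obtain ⟨q, hq⟩ := exists_ne (1 : Q)
    refine ⟨⟨⁅(⟨Pi.mulSingle 1 d, 1⟩ : D ≀ᵣ Q), inl q⁆, ?_⟩,
      commutator_mem_commutator (mem_top _) (mem_top _), ?_⟩
    · simp [K, commutatorElement_def]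
    · simp [ev, commutatorElement_def, hq]
  intro h2
  rw [← dser_top, add_comm, dser_add] at h2
  have h3 := (dser_mono (map_comap_le K.subtype (commutator (D ≀ᵣ Q))) m).trans h2.le
  rw [← map_dser, le_bot_iff, map_eq_bot_iff_of_injective _ K.subtype_injective] at h3
  rw [← dser_top, ← h1, ← map_dser, subgroupOf, h3, Subgroup.map_bot] at h
  exact h rfl

theorem isPGroup_wreath [Finite D] [Finite Q] (hD : IsPGroup p D) (hQ : IsPGroup p Q) :
    IsPGroup p (D ≀ᵣ Q) := by
  obtain ⟨a, ha⟩ := IsPGroup.iff_card.1 hD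
  obtain ⟨b, hb⟩ := IsPGroup.iff_card.1 hQ
  exact IsPGroup.of_card (n := a * Nat.card Q + b) (by
    rw [RegularWreathProduct.card, ha, pow_add, pow_mul, ← hb])

variable {k V : Type*} [Field k] [AddCommGroup V] [Module k V]

/-- The induced representation of the wreath product. -/
def wreathRep (Q : Type*) [Group Q] (ρ : Representation k D V) :
    Representation k (D ≀ᵣ Q) (Q → V) where
  toFun w := LinearMap.pi fun q => ρ (w.left q) ∘ₗ LinearMap.proj (w.right⁻¹ * q)
  map_one' := by ext f q; simp
  map_mul' a b := by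
    refine LinearMap.ext fun f => funext fun q => ?_
    simp [mul_assoc]

theorem wreathRep_injective [Nontrivial V] {ρ : Representation k D V}
    (hρ : Function.Injective ρ) : Function.Injective (wreathRep Q ρ) := by
  classical
  rw [injective_iff_map_eq_one]
  intro w hw
  have h1 : ∀ (f : Q → V) q, ρ (w.left q) (f (w.right⁻¹ * q)) = f q := fun f q =>
    congrFun (LinearMap.congr_fun hw f) q
  have h2 : w.right = 1 := by
    by_contra h
    obtain ⟨v, hv⟩ := exists_ne (0 : V)
    have := h1 (Pi.single 1 v) w.right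
    rw [inv_mul_cancel, Pi.single_eq_same, Pi.single_eq_of_ne h, rho_eq_zero_iff] at this
    exact hv this
  ext q
  · apply hρ
    ext v
    simpa using h1 (fun _ => v) q
  · exact h2

end Wr

theorem exists_perm_derivedSeries_ne_bot (m : ℕ) :
    ∃ (Q α : Type) (_ : Group Q) (_ : Finite Q) (_ : Finite α) (f : Q →* Equiv.Perm α),
      IsPGroup p Q ∧ Function.Injective f ∧ Nat.card α = p ^ (m + 1) ∧ derivedSeries Q m ≠ ⊥ := by
  have hC : IsPGroup p (Multiplicative (ZMod p)) := IsPGroup.of_card (n := 1) (by simp)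
  induction m with
  | zero =>
    exact ⟨Multiplicative (ZMod p), Multiplicative (ZMod p), inferInstance, inferInstance,
      inferInstance, MulAction.toPermHom _ _, hC, MulAction.toPerm_injective, by simp, top_ne_bot⟩
  | succ m ih =>
    obtain ⟨Q, α, _, _, _, f, hQ, hf, hα, h⟩ := ih
    let _ := MulAction.compHom α f
    have : FaithfulSMul Q α := ⟨fun h => hf (Equiv.ext h)⟩
    have : Nonempty α := (Nat.card_pos_iff.1 (hα ▸ pow_pos hp.out.pos _)).1
    exact ⟨Q ≀ᵣ Multiplicative (ZMod p), α × Multiplicative (ZMod p), inferInstance, inferInstance,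
      inferInstance, toPerm _ _ _, isPGroup_wreath hQ hC, toPermInj _ _ _,
      by simp [hα, pow_succ], derivedSeries_wreath_ne_bot h⟩

theorem exists_rep_derivedSeries_ne_bot {k : Type u} [Field k] {e : ℕ}
    (g : Matrix.GeneralLinearGroup (Fin e) k) (hg : orderOf g = p) (m : ℕ) :
    ∃ (Q V : Type u) (_ : Group Q) (_ : Finite Q) (_ : AddCommGroup V) (_ : Module k V)
      (_ : FiniteDimensional k V) (ρ : Representation k Q V),
      IsPGroup p Q ∧ Function.Injective ρ ∧ finrank k V = e * p ^ m ∧ derivedSeries Q m ≠ ⊥ := by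
  have hC : IsPGroup p (Multiplicative (ZMod p)) := IsPGroup.of_card (n := 1) (by simp)
  induction m with
  | zero =>
    have h1 : Nat.card (zpowers g) = p := by rw [Nat.card_zpowers, hg]
    have : Finite (zpowers g) := Nat.finite_of_card_ne_zero (h1 ▸ hp.out.ne_zero)
    have : Nontrivial (zpowers g) := Finite.one_lt_card_iff_nontrivial.1 (h1 ▸ hp.out.one_lt)
    exact ⟨zpowers g, Fin e → k, inferInstance, inferInstance, inferInstance, inferInstance,
      inferInstance, ((Matrix.toLinAlgEquiv' (R := k) (n := Fin e)).toMonoidHom.comp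
        (Units.coeHom _)).comp (zpowers g).subtype, IsPGroup.of_card (n := 1) (by simpa using h1),
      (Matrix.toLinAlgEquiv'.injective.comp Units.val_injective).comp Subtype.val_injective,
      by simp, top_ne_bot⟩
  | succ m ih =>
    obtain ⟨Q, V, _, _, _, _, _, ρ, hQ, hρ, hV, h⟩ := ih
    have : Nontrivial V := by
      by_contra hV
      have := not_nontrivial_iff_subsingleton.1 hV
      have : Subsingleton Q := hρ.subsingleton
      exact h (Subsingleton.elim _ _)
    exact ⟨Q ≀ᵣ Multiplicative (ZMod p), Multiplicative (ZMod p) → V, inferInstance, inferInstance,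
      inferInstance, inferInstance, inferInstance, wreathRep _ ρ, isPGroup_wreath hQ hC,
      wreathRep_injective hρ, by simp [finrank_pi_fintype, hV, pow_succ]; ring,
      derivedSeries_wreath_ne_bot h⟩

theorem exists_injective_GL {k Q V : Type*} [Field k] [Group Q] [AddCommGroup V] [Module k V]
    [FiniteDimensional k V] (ρ : Representation k Q V) (hρ : Function.Injective ρ) {n : ℕ}
    (hn : finrank k V ≤ n) :
    ∃ f : Q →* Matrix.GeneralLinearGroup (Fin n) k, Function.Injective f := by
  let σ : Representation k Q (V × (Fin (n - finrank k V) → k)) := ρ.prod 1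
  have hσ : Function.Injective σ := fun a b h => hρ (LinearMap.ext fun v =>
    congrArg Prod.fst (LinearMap.congr_fun h (v, 0)))
  let b := Module.finBasisOfFinrankEq k (V × (Fin (n - finrank k V) → k)) (n := n)
    (by simp; omega)
  refine ⟨((LinearMap.toMatrixAlgEquiv b).toMonoidHom.comp σ).toHomUnits, fun x y h => hσ ?_⟩
  exact (LinearMap.toMatrixAlgEquiv b).injective (congrArg Units.val h)

theorem dvd_card_GL_iff {F : Type*} [Field F] [Fintype F] (hq : ¬ p ∣ Fintype.card F) (n : ℕ) :
    p ∣ Nat.card (Matrix.GeneralLinearGroup (Fin n) F) ↔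
      orderOf (Fintype.card F : ZMod p) ≤ n := by
  set q := Fintype.card F with hqd
  have hq0 : (q : ZMod p) ≠ 0 := fun h => hq ((ZMod.natCast_eq_zero_iff q p).1 h)
  have hq1 : 1 ≤ q := Fintype.card_pos
  have hpos : 0 < orderOf (q : ZMod p) :=
    orderOf_pos_iff.2 (isOfFinOrder_iff_pow_eq_one.2 ⟨p - 1, by have := hp.out.two_le; omega,
      ZMod.pow_card_sub_one_eq_one hq0⟩)
  rw [Matrix.card_GL_field, Prime.dvd_finsetProd_iff hp.out.prime]
  have key : ∀ i : Fin n, p ∣ q ^ n - q ^ (i : ℕ) ↔ orderOf (q : ZMod p) ∣ n - i := by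
    intro i
    rw [← ZMod.natCast_eq_zero_iff, Nat.cast_sub (Nat.pow_le_pow_right hq1 i.2.le), sub_eq_zero,
      orderOf_dvd_iff_pow_eq_one]
    push_cast
    rw [show (q : ZMod p) ^ n = (q : ZMod p) ^ (n - i) * (q : ZMod p) ^ (i : ℕ) by
      rw [← pow_add, Nat.sub_add_cancel i.2.le]]
    exact mul_eq_right₀ (pow_ne_zero _ hq0)
  simp only [← hqd, key]
  constructor
  · rintro ⟨i, -, hi⟩
    exact (Nat.le_of_dvd (by have := i.2; omega) hi).trans (Nat.sub_le _ _)
  · intro h
    exact ⟨⟨n - orderOf (q : ZMod p), by omega⟩, Finset.mem_univ _,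
      by rw [Nat.sub_sub_self h]⟩

end Cfsg.Agent.Reg
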